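import Cfsg.Agent.Lib.P11.No1

/-! Package BAD1: the exceptional configuration, basic facts.  See `plans/P11.md`. -/

set_option autoImplicit false
set_option maxHeartbeats 400000
set_option linter.unusedSectionVars false

namespace CfsgLib.P11

open Subgroup Cfsg MulAction CfsgLib.Tech

universe u

variable {G : Type u} [Group G] [Finite G] {Ω : Type u} [MulAction G Ω] {P : Ω → Subgroup G}
  {a b c d : Ω} {g x k : G}

theorem Bad.conj (h : Pts P) (hB : Bad P a b k) (g : G) : Bad P (g • a) (g • b) (g * k * g⁻¹) := by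
  obtain ⟨x, hx, x1, c, hc, e⟩ := hB.ex
  refine ⟨fun e => hB.ne (smul_left_cancel g e), h.conj_Kb g hB.mem, by simpa using hB.ne_one,
    g * x * g⁻¹, h.conj_mem g hx, by simpa using x1, g • c, fun e => hc (smul_left_cancel g e), ?_⟩
  rw [← mul_smul, show g * x * g⁻¹ * (g * k * g⁻¹) * g = g * (x * k) by group, mul_smul, e]

theorem Pts.self_Cp (h : Pts P) (hx : x ∈ P a) : x ∈ Cp P a := fun _ hy => h.comm hy hx

theorem Kb_Cp (hk : k ∈ Kb P a b) : k ∈ Cp P a := (mem_Kb.1 hk).1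

theorem Kb_comm (hk : k ∈ Kb P a b) (hg : g ∈ P a ⊔ P b) : g * k = k * g := hk g hg

theorem Cp_comm (hk : k ∈ Cp P a) (hx : x ∈ P a) : x * k = k * x := hk x hx

theorem conj_eq_of_comm (e : g * k = k * g) : g * k * g⁻¹ = k := by rw [e, mul_inv_cancel_right]

theorem zm_sq : ∀ i : ZMod 11, i ^ 2 = 1 → i = 1 ∨ i = 10 := by decide

theorem zm_ten : ∀ i : ZMod 11, i ≠ 0 → i ^ 10 = 1 := by decide

theorem zm_four : ∀ i : ZMod 11, i ^ 2 ≠ 1 → (i ^ 2) ^ 2 ≠ 1 := by decide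

theorem exists_zmod (hk : orderOf k = 11) (hg : g ∈ zpowers k) : ∃ i : ZMod 11, g = k ^ i.val := by
  rw [← mem_powers_iff_mem_zpowers] at hg
  obtain ⟨n, rfl⟩ := hg
  exact ⟨n, by rw [ZMod.val_natCast, ← hk, pow_mod_orderOf]⟩

/-- an element of the centraliser that normalises a line through `a` -/
theorem AL.exists_x (h : AL P) (hab : a ≠ b) (ea : g • a = a)
    (hg : g ∈ normalizer ((P a ⊔ P b : Subgroup G) : Set G)) : ∃ x ∈ P a, x • b = g • b :=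
  h.L_reg hab (h.line a b hab) (h.smul_le hg le_sup_right)
    fun e => hab (smul_left_cancel g (ea.trans e.symm))

namespace AL

variable (h : AL P) (hB : Bad P a b k)
include h hB

theorem bad_setup : ∃ x ∈ P a, ∃ c, x ≠ 1 ∧ a ≠ c ∧ (x * k) • c = c ∧ x * k ∈ Kb P a c ∧ x * k ≠ 1 ∧
    ¬ P c ≤ P a ⊔ P b := by
  obtain ⟨x, hx, x1, c, hc, e⟩ := hB.ex
  refine ⟨x, hx, c, x1, hc.symm, e, h.P1 hc.symm (mul_mem (h.self_Cp hx) (Kb_Cp hB.mem)) e,
    fun e1 => hB.ne_one (h.eq_one_of_Kb hB.ne ?_ hB.mem), fun hle => hc (h.semi hx x1 ?_)⟩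
  · rw [eq_inv_of_mul_eq_one_right e1]; exact mem_sup_left (inv_mem hx)
  · rwa [mul_smul, h.fix_of_Kb hB.mem hle] at e

theorem bad_all (hcd : c ≠ d) : ∃ k', Bad P c d k' := by
  obtain ⟨g, rfl, rfl⟩ := h.two_trans hB.ne hcd
  exact ⟨_, hB.conj h.toPts g⟩

theorem bad_ord : orderOf k = 11 := by
  have : Fact (Nat.Prime 11) := ⟨by norm_num⟩
  obtain ⟨x, hx, c, -, -, e, -, -, hc⟩ := h.bad_setup hB
  refine orderOf_eq_prime (by_contra fun hn => hc ((h.fix_K hB.ne (pow_mem hB.mem 11) hn c).1 ?_))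
    hB.ne_one
  have := Pts.pow_fix e 11
  rwa [Commute.mul_pow (Cp_comm (Kb_Cp hB.mem) hx), h.pow_eq hx, one_mul] at this

theorem bad_pow : k ^ 11 = 1 := by rw [← h.bad_ord hB, pow_orderOf_eq_one]

theorem bad_rho : ∃ ρ ∈ Cp P a, ∃ x ∈ P a, x ≠ 1 ∧ ρ * k * ρ⁻¹ = x * k := by
  obtain ⟨x, hx, c, x1, hc, -, hk', -, -⟩ := h.bad_setup hB
  obtain ⟨y, hy, ya, -, -, yl⟩ := h.L_y hB.ne (h.line a b hB.ne) (i := 4) (by decide)
  obtain ⟨y', hy', ya', -, -, yl'⟩ := h.L_y hc (h.line a c hc) (i := 4) (by decide)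
  refine ⟨y' * y⁻¹, h.cent_of_lam_eq ya' ya (yl'.trans yl.symm), (x ^ 4)⁻¹ * x,
    mul_mem (inv_mem (pow_mem hx 4)) hx, fun e => ?_, ?_⟩
  · have h1 := pow_val_inj (h.pow_eq hx) x1 (i := 4) (j := 1) (by
      rw [show (1 : ZMod 11).val = 1 from rfl, pow_one]; exact inv_mul_eq_one.1 e)
    exact absurd h1 (by decide)
  · have h1 := h.lam_spec ya' hx
    rw [yl', show (4 : ZMod 11).val = 4 from rfl] at h1
    have h2 := conj_eq_of_comm (Kb_comm hB.mem (inv_mem hy))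
    have h3 := conj_eq_of_comm (Kb_comm hk' hy')
    calc y' * y⁻¹ * k * (y' * y⁻¹)⁻¹ = y' * (y⁻¹ * k * y⁻¹⁻¹) * y'⁻¹ := by group
      _ = (y' * x * y'⁻¹)⁻¹ * (y' * (x * k) * y'⁻¹) := by rw [h2]; group
      _ = _ := by rw [h1, h3, mul_assoc]

theorem bad_conj (hx : x ∈ P a) : ∃ g ∈ Cp P a, g * k * g⁻¹ = x * k := by
  obtain ⟨ρ, hρ, z, hz, z1, e⟩ := h.bad_rho hB
  obtain ⟨i, rfl⟩ := h.exists_val hz z1 hx
  refine ⟨ρ ^ i.val, pow_mem hρ _, ?_⟩
  induction i.val with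
  | zero => simp
  | succ n ih =>
    have h1 := conj_eq_of_comm (Cp_comm hρ (pow_mem hz n)).symm
    calc ρ ^ (n + 1) * k * (ρ ^ (n + 1))⁻¹ = ρ * (ρ ^ n * k * (ρ ^ n)⁻¹) * ρ⁻¹ := by group
      _ = (ρ * z ^ n * ρ⁻¹) * (ρ * k * ρ⁻¹) := by rw [ih]; group
      _ = _ := by rw [h1, e, pow_succ, mul_assoc]

theorem bad_centK (hg : g ∈ Kb P a b) (e : g * k = k * g) : g ∈ zpowers k := by
  obtain ⟨x, hx, c, x1, hc, ec, hk', k1, hn⟩ := h.bad_setup hB
  have h1 : g * (x * k) * g⁻¹ = x * k := conj_eq_of_comm (by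
    rw [← mul_assoc, ← Cp_comm (Kb_Cp hg) hx, mul_assoc, e, mul_assoc])
  obtain ⟨x', hx', e'⟩ := h.exists_x hc (h.fix_of_cent (Kb_Cp hg))
    (h.norm_of_conj hc hk' k1 (by rwa [h1]))
  obtain ⟨j, rfl⟩ := h.exists_val (inv_mem hx) (inv_ne_one.2 x1) hx'
  have h2 : (x * k) ^ j.val = x ^ j.val * k ^ j.val := Commute.mul_pow (Cp_comm (Kb_Cp hB.mem) hx) _
  have h3 := Pts.pow_fix ec j.val
  have h4 : ((k ^ j.val)⁻¹ * g) • c = c := by
    rw [mul_smul, ← e', inv_smul_eq_iff, inv_pow, inv_smul_eq_iff, ← mul_smul, ← h2, h3]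
  have h5 : (k ^ j.val)⁻¹ * g = 1 := by_contra fun h6 =>
    hn ((h.fix_K hB.ne (mul_mem (inv_mem (pow_mem hB.mem _)) hg) h6 c).1 h4)
  rw [← inv_mul_eq_one.1 h5]
  exact pow_mem (mem_zpowers k) _

theorem bad_centC (hg : g ∈ Cp P a) (e : g * k = k * g) : ∃ x ∈ P a, ∃ i : ℕ, g = x * k ^ i := by
  obtain ⟨x, hx, e'⟩ := h.exists_x hB.ne (h.fix_of_cent hg)
    (h.norm_of_conj hB.ne hB.mem hB.ne_one (by rw [conj_eq_of_comm e]; exact hB.mem))
  have h1 := h.bad_centK hB (h.P1 hB.ne (mul_mem (inv_mem (h.self_Cp hx)) hg)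
    (by rw [mul_smul, ← e', inv_smul_smul])) (by
      rw [mul_assoc, e, ← mul_assoc, Cp_comm (Kb_Cp hB.mem) (inv_mem hx), mul_assoc])
  obtain ⟨i, hi⟩ := exists_zmod (h.bad_ord hB) h1
  exact ⟨x, hx, _, by rw [← hi, mul_inv_cancel_left]⟩

theorem bad_cardE : Nat.card ↥(Cp P a ⊓ centralizer ({k} : Set G)) = 121 := by
  have hz : zpowers k ≤ Kb P a b := zpowers_le.2 hB.mem
  have hc : ∀ z ∈ zpowers k, z * k = k * z := by
    rintro _ ⟨n, rfl⟩; exact (Commute.zpow_self k n).eq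
  let f : P a × zpowers k → ↥(Cp P a ⊓ centralizer ({k} : Set G)) := fun p =>
    ⟨p.1 * p.2, mul_mem (h.self_Cp p.1.2) (Kb_Cp (hz p.2.2)), mul_mem
      (mem_centralizer_singleton_iff.2 (Cp_comm (Kb_Cp hB.mem) p.1.2))
      (mem_centralizer_singleton_iff.2 (hc _ p.2.2))⟩
  have hf : Function.Bijective f := by
    refine ⟨fun p q e => ?_, fun g => ?_⟩
    · have e' : (p.1 : G) * p.2 = q.1 * q.2 := congrArg Subtype.val e
      have h1 : (q.1 : G)⁻¹ * p.1 = q.2 * (p.2 : G)⁻¹ := by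
        rw [inv_mul_eq_iff_eq_mul, ← mul_assoc, ← e', mul_inv_cancel_right]
      have h2 := h.eq_one_of_Kb hB.ne (mem_sup_left (mul_mem (inv_mem q.1.2) p.1.2))
        (h1 ▸ hz (mul_mem q.2.2 (inv_mem p.2.2)))
      exact Prod.ext (Subtype.ext (inv_mul_eq_one.1 h2).symm)
        (Subtype.ext (mul_inv_eq_one.1 (h1 ▸ h2)).symm)
    · obtain ⟨x, hx, i, e⟩ := h.bad_centC hB g.2.1 (mem_centralizer_singleton_iff.1 g.2.2)
      exact ⟨(⟨x, hx⟩, ⟨_, pow_mem (mem_zpowers k) i⟩), Subtype.ext e.symm⟩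
  rw [← Nat.card_eq_of_bijective f hf, Nat.card_prod, h.card, Nat.card_zpowers, h.bad_ord hB]

theorem bad_sylK : IsSylowIn 11 (zpowers k) (Kb P a b) := by
  have : Fact (Nat.Prime 11) := ⟨by norm_num⟩
  obtain ⟨T, hT, hk⟩ := exists_isSylowIn_ge (p := 11) (isPGroup_zpowers_of_pow (x := k) (k := 1)
    (h.bad_pow hB)) (zpowers_le.2 hB.mem)
  obtain ⟨z, hz, zo, zc⟩ := exists_mem_center_of_normalized hT.pgroup le_rfl le_normalizer
    fun e => hB.ne_one (by simpa [e] using hk)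
  have h1 : zpowers z = zpowers k := eq_of_le_of_card_ge
    (zpowers_le.2 (h.bad_centK hB (hT.le hz) (zc k (hk (mem_zpowers k))).symm))
    (by rw [Nat.card_zpowers, Nat.card_zpowers, zo, h.bad_ord hB])
  have h2 : zpowers k = T := le_antisymm hk fun t ht => h.bad_centK hB (hT.le ht) (by
    obtain ⟨n, hn⟩ := h1 ▸ mem_zpowers k
    rw [← hn]
    exact (Commute.zpow_right (zc t ht) n).eq)
  rwa [h2]

theorem bad_mu (hg : g * k * g⁻¹ ∈ zpowers k) : g * k * g⁻¹ = k ∨ g * k * g⁻¹ = k⁻¹ := by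
  have : Fact (Nat.Prime 11) := ⟨by norm_num⟩
  obtain ⟨μ, hμ⟩ := exists_zmod (h.bad_ord hB) hg
  have k11 := h.bad_pow hB
  by_cases h2 : μ ^ 2 = 1
  · have : μ = 1 ∨ μ = 10 := zm_sq μ h2
    rcases this with rfl | rfl
    · exact Or.inl (hμ.trans (pow_one k))
    · exact Or.inr (hμ.trans (eq_inv_of_mul_eq_one_left ((pow_succ k 10).symm.trans k11)))
  exfalso
  have h0 : μ ≠ 0 := by
    rintro rfl
    exact hB.ne_one (by simpa using hμ)
  obtain ⟨x, hx, c, x1, hc, ec, hk', k1, hn⟩ := h.bad_setup hB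
  obtain ⟨m, hm, ea, eb⟩ := h.red hB.ne (h.norm_of_conj hB.ne hB.mem hB.ne_one (zpowers_le.2 hB.mem hg))
  have h3 : m * g * k * (m * g)⁻¹ = k ^ μ.val := by
    rw [← conj_eq_of_comm (Kb_comm (pow_mem hB.mem μ.val) hm), ← hμ]; group
  generalize m * g = g1 at ea eb h3
  have l0 := h.lam_ne ea
  obtain ⟨y, hy, ya, yb, -, yl⟩ := h.L_y hB.ne (h.line a b hB.ne) (i := μ ^ 2 / lam P a g1 ^ 2) (by
    rw [div_pow, ← pow_mul, ← pow_mul, h.lam_ten ea, div_one]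
    exact zm_ten μ h0)
  have ea2 := Pts.mul_fix (Pts.mul_fix ea ea) ya
  have eb2 := Pts.mul_fix (Pts.mul_fix eb eb) yb
  have l2 : lam P a (g1 * g1 * y) = μ ^ 2 := by
    rw [h.lam_mul (Pts.mul_fix ea ea) ya, h.lam_mul ea ea, yl]; field_simp
  have h4 : g1 * g1 * y * k * (g1 * g1 * y)⁻¹ = k ^ (μ ^ 2).val := by
    calc _ = g1 * (g1 * (y * k * y⁻¹) * g1⁻¹) * g1⁻¹ := by group
      _ = _ := by rw [conj_eq_of_comm (Kb_comm hB.mem hy), h3, ← conj_pow, h3, pow_val_mul k11, pow_two]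
  generalize g1 * g1 * y = g2 at ea2 eb2 l2 h4
  have h5 : g2 * (x * k) * g2⁻¹ = (x * k) ^ (μ ^ 2).val := by
    rw [Commute.mul_pow (Cp_comm (Kb_Cp hB.mem) hx), ← h4, ← l2, ← h.lam_spec ea2 hx]; group
  obtain ⟨x', hx', e'⟩ := h.exists_x hc ea2 (h.norm_of_conj hc hk' k1 (h5 ▸ pow_mem hk' _))
  obtain ⟨z, hz, ez⟩ := h.exists_fix ea2 (by rwa [l2]) hx' e'.symm
  have h6 := h.two ea2 (by rw [l2]; exact zm_four μ h2) eb2 ez hB.ne.symm
    fun e => hc (smul_left_cancel z ((h.fix hz).trans e.symm))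
  refine hn ?_
  rw [← inv_smul_smul z c, ← h6]
  exact h.smul_le' (mem_sup_left (inv_mem hz)) le_sup_right

theorem bad_dvd (hcd : c ≠ d) (hg : g ∈ P c ⊔ P d) (h55 : g ^ 55 ≠ 1) :
    11 ∣ {e : Ω | g • e = e}.ncard := by
  have := h.finite
  obtain ⟨k', hB'⟩ := h.bad_all hB hcd
  refine HKS.KS.dvd_ncard (by norm_num) (h.bad_pow hB') (fun e he => ?_) fun e he e1 =>
    h55 (h.L_pow hcd (h.line c d hcd) hg ((h.fix_K hcd hB'.mem hB'.ne_one e).1 e1) he)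
  have he' : g • e = e := he
  change g • k' • e = k' • e
  rw [← mul_smul, Kb_comm hB'.mem hg, mul_smul, he']

theorem bad_three : 3 ∣ Nat.card Ω := by
  have := h.finite
  have : Fact (Nat.Prime 3) := ⟨by norm_num⟩
  obtain ⟨u, hu⟩ := exists_prime_orderOf_dvd_card' (G := ↥(P a ⊔ P b)) 3
    (by rw [(h.line a b hB.ne).card]; norm_num)
  rw [← orderOf_coe] at hu
  have u3 : (u : G) ^ 3 = 1 := by rw [← hu, pow_orderOf_eq_one]
  have u1 : (u : G) ≠ 1 := fun e => by rw [e, orderOf_one] at hu; omega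
  have h1 := h.bad_dvd hB hB.ne u.2 (by
    rwa [show 55 = 3 * 18 + 1 from rfl, pow_succ, pow_mul, u3, one_pow, one_mul])
  rw [← Set.ncard_univ]
  refine HKS.KS.dvd_ncard (by norm_num) u3 (fun _ _ => trivial) fun e _ he => ?_
  have h2 : lam P e (u : G) = 1 := by
    have := h.lam_of_pow he u3
    revert this; generalize lam P e (u : G) = i; revert i; decide
  by_cases h3 : ∃ e', e ≠ e' ∧ (u : G) • e' = e'
  · obtain ⟨e', h4, h5⟩ := h3
    rw [h.ncard_fix_K h4 (h.P1 h4 ((h.lam_eq_one_iff he).1 h2) h5) u1] at h1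
    omega
  · have : {e' : Ω | (u : G) • e' = e'} = {e} := Set.ext fun e' =>
      ⟨fun h4 => by_contra fun h5 => h3 ⟨e', Ne.symm h5, h4⟩, fun h4 => h4 ▸ he⟩
    rw [this, Set.ncard_singleton] at h1
    omega

end AL

end CfsgLib.P11
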