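import Cfsg.Agent.Lib.P11.Bad1
import Cfsg.Agent.Lib.Frob.FPF
import Cfsg.Agent.Lib.CK.Syl

/-! Package BAD2: the kernel on a line has odd order.  See `plans/P11.md`. -/

set_option autoImplicit false
set_option maxHeartbeats 400000
set_option linter.unusedSectionVars false

namespace CfsgLib.P11

open Subgroup Cfsg MulAction CfsgLib.Tech

universe u

variable {G : Type u} [Group G] [Finite G] {Ω : Type u} [MulAction G Ω] {P : Ω → Subgroup G}
  {a b c d : Ω} {g x k : G}

theorem zpowers_eq_of_eleven {w : G} (hk : k ^ 11 = 1) (hw : w ∈ zpowers k) (h1 : w ≠ 1) :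
    zpowers w = zpowers k := by
  have : Fact (Nat.Prime 11) := ⟨by norm_num⟩
  have h2 : w ^ 11 = 1 := by
    obtain ⟨n, rfl⟩ := hw
    rw [← zpow_natCast, ← zpow_mul, mul_comm, zpow_mul, zpow_natCast, hk, one_zpow]
  refine eq_of_le_of_card_ge (zpowers_le.2 hw) ?_
  rw [Nat.card_zpowers, Nat.card_zpowers, orderOf_eq_prime h2 h1]
  exact orderOf_le_of_pow_eq_one (by norm_num) hk

theorem comm_of_mem_zpowers {w : G} (hw : w ∈ zpowers k) (e : g * k = k * g) : g * w = w * g := by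
  obtain ⟨n, rfl⟩ := hw
  exact (Commute.zpow_right e n).eq

theorem eq_one_of_two_eleven (h2 : g * g = 1) (h11 : g ^ 11 = 1) : g = 1 := by
  rwa [show 11 = 2 * 5 + 1 from rfl, pow_succ, pow_mul, pow_two, h2, one_pow, one_mul] at h11

theorem pow_eleven_of_mem (hk : k ^ 11 = 1) (hg : g ∈ zpowers k) : g ^ 11 = 1 := by
  obtain ⟨n, rfl⟩ := hg
  rw [← zpow_natCast, ← zpow_mul, mul_comm, zpow_mul, zpow_natCast, hk, one_zpow]

theorem AL.ncard_off (h : AL P) (hab : a ≠ b) : {e | ¬ P e ≤ P a ⊔ P b}.ncard = Nat.card Ω - 12 := by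
  have := h.finite
  rw [← h.L_ncard hab (h.line a b hab), ← Set.ncard_compl]
  rfl

theorem ncard_ne [Finite Ω] (a : Ω) : {e | e ≠ a}.ncard = Nat.card Ω - 1 := by
  rw [← Set.ncard_singleton a, ← Set.ncard_compl]
  rfl

theorem AL.ncard_fix_le (h : AL P) (hg : g ∈ Cp P a) (h1 : g ≠ 1) : {e : Ω | g • e = e}.ncard ≤ 12 := by
  by_cases h3 : ∃ e, a ≠ e ∧ g • e = e
  · obtain ⟨e, h4, h5⟩ := h3
    exact (h.ncard_fix_K h4 (h.P1 h4 hg h5) h1).le
  · have : {e : Ω | g • e = e} ⊆ {a} := fun e h4 => by_contra fun h5 => h3 ⟨e, Ne.symm h5, h4⟩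
    have := Set.ncard_le_ncard this
    rw [Set.ncard_singleton] at this
    omega

namespace AL

variable (h : AL P) (hB : Bad P a b k)
include h hB

theorem bad_surj (he : Even (Nat.card (Kb P a b))) :
    {s | s ∈ Kb P a b ∧ orderOf s = 2}.ncard = 11 ∧
      ∀ e, ¬ P e ≤ P a ⊔ P b → ∃ s ∈ Cp P a, orderOf s = 2 ∧ s • b = e := by
  have := h.finite
  have hab := hB.ne
  set J := {s | s ∈ Kb P a b ∧ orderOf s = 2} with hJ
  set I := {s | s ∈ Cp P a ∧ orderOf s = 2} with hI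
  have hJI : J ⊆ I := fun s hs => ⟨Kb_Cp hs.1, hs.2⟩
  have h0 : 0 < J.ncard := (Set.ncard_pos (Set.toFinite _)).2 (exists_involution_of_even he)
  have h1 : 11 ∣ J.ncard := by
    rw [← h.bad_ord hB, ← Nat.card_zpowers]
    refine Frob.card_dvd_ncard_of_free_conj (fun w hw s hs => ⟨?_, by rw [orderOf_conj_eq, hs.2]⟩)
      fun w hw s hs e => by_contra fun w1 => ?_
    · have := zpowers_le.2 hB.mem hw
      exact mul_mem (mul_mem this hs.1) (inv_mem this)
    · exact ne_one_of_orderOf_two hs.2 (eq_one_of_two_eleven (mul_self_of_orderOf_two hs.2)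
        (pow_eleven_of_mem (h.bad_pow hB) (h.bad_centK hB hs.1 (comm_of_mem_zpowers
          (zpowers_eq_of_eleven (h.bad_pow hB) hw w1 ▸ mem_zpowers k) e))))
  have h2 : I.ncard * 11 = {e | e ≠ a}.ncard * J.ncard := by
    refine CK.dc_eq I _ (fun s e => s • e = e) (fun s hs => ?_) fun e he => ?_
    · have ea := h.fix_of_cent hs.1
      obtain ⟨b', hb', eb⟩ := h.no_one hs.2 ea
      have h3 := h.ncard_fix_K hb'.symm (h.P1 hb'.symm hs.1 eb) (ne_one_of_orderOf_two hs.2)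
      have h4 : {e | e ∈ {e | e ≠ a} ∧ s • e = e} = {e | s • e = e} \ {a} := by
        ext e; simp [and_comm]
      rw [h4, Set.ncard_sdiff_singleton_of_mem (s := {e | s • e = e}) ea, h3]
    · obtain ⟨g, hg, rfl⟩ := h.transC hab.symm he
      have ga := h.fix_of_cent hg
      rw [← Set.ncard_image_of_injective J (MulAut.conj g).injective]
      congr 1
      ext s
      constructor
      · rintro ⟨hs, e⟩
        refine ⟨g⁻¹ * s * g, ⟨h.P1 hab (mul_mem (mul_mem (inv_mem hg) hs.1) hg) ?_, ?_⟩, by simp [mul_assoc]⟩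
        · rw [mul_smul, mul_smul, e, inv_smul_smul]
        · rw [← hs.2, ← orderOf_conj_eq g⁻¹ s, inv_inv]
      · rintro ⟨s, hs, rfl⟩
        refine ⟨⟨mul_mem (mul_mem hg (Kb_Cp hs.1)) (inv_mem hg), by
          rw [MulAut.conj_apply, orderOf_conj_eq, hs.2]⟩, ?_⟩
        rw [MulAut.conj_apply, mul_smul, mul_smul, inv_smul_smul, h.fix_of_Kb hs.1 le_sup_right]
  have h3 : (fun s : G => s • b) '' (I \ J) ⊆ {e | ¬ P e ≤ P a ⊔ P b} := by
    rintro _ ⟨s, hs, rfl⟩ hle
    exact hs.2 ⟨h.fix_of_coprime hab (h.line a b hab) hs.1.1 hle (n := 2)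
      (by rw [pow_two, mul_self_of_orderOf_two hs.1.2]) (by norm_num), hs.1.2⟩
  have h4 : Set.InjOn (fun s : G => s • b) (I \ J) := by
    intro s hs s' hs' e
    have e' : s • b = s' • b := e
    have s2 := mul_self_of_orderOf_two hs.1.2
    have s2' := mul_self_of_orderOf_two hs'.1.2
    have h5 := h.P1 hab (mul_mem hs.1.1 hs'.1.1) (by rw [mul_smul, ← e', ← mul_smul, s2, one_smul])
    by_contra hn
    refine h3 ⟨s', hs', rfl⟩ ((h.fix_K hab h5 (fun e1 => hn ?_) _).1 ?_)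
    · rw [eq_inv_of_mul_eq_one_left e1, inv_eq_of_mul_eq_one_left s2']
    · rw [← mul_smul, mul_assoc, s2', mul_one, e']
  have h5 := Set.ncard_le_ncard h3
  have h6 := h4.ncard_image
  have h7 := Set.ncard_sdiff_add_ncard_of_subset hJI
  obtain ⟨n, n0, hn⟩ := h.card_eq
  have h8 := h.ncard_off hab
  rw [ncard_ne, hn] at h2
  obtain ⟨j, hj⟩ := h1
  have h9 : I.ncard = (55 * n + 11) * j := by
    rw [hj, show 55 * n + 12 - 1 = 55 * n + 11 from rfl] at h2
    linarith
  have h10 : j = 1 := by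
    have : 55 * n * j ≤ 55 * n * 1 := by
      have : (55 * n + 11) * j = 55 * n * j + 11 * j := by ring
      omega
    have := Nat.le_of_mul_le_mul_left this (by omega)
    omega
  subst h10
  refine ⟨hj, fun e he => ?_⟩
  obtain ⟨s, hs, es⟩ := (Set.eq_of_subset_of_ncard_le h3 (by omega)).ge he
  exact ⟨s, hs.1.1, hs.1.2, es⟩

/-- the elements `w` of the plan -/
theorem bad_star (he : Even (Nat.card (Kb P a b))) {n : G} (hn : n ∈ Kb P a b) (n2 : orderOf n = 2)
    (hc : ¬ P c ≤ P a ⊔ P b) (hx : x ∈ P a) (x1 : x ≠ 1) : ∃ w ∈ Kb P a b, orderOf w = 11 ∧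
      orderOf (n * w) = 2 ∧ w • c = x • c := by
  have hab := hB.ne
  have hac : a ≠ c := fun e => hc (e ▸ le_sup_left)
  have nn := mul_self_of_orderOf_two n2
  have n1 := ne_one_of_orderOf_two n2
  have nC := Kb_Cp hn
  have fixn : ∀ {d}, a ≠ d → P (n • d) ≤ P a ⊔ P d → P d ≤ P a ⊔ P b := fun {d} had hd =>
    (h.fix_K hab hn n1 d).1 (h.fix_of_Kb (h.fix_of_coprime had (h.line a d had) nC hd (n := 2)
      (by rw [pow_two, nn]) (by norm_num)) le_sup_right)
  obtain ⟨k', hB'⟩ := h.bad_all hB hac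
  obtain ⟨s, hs, s2, es⟩ := (h.bad_surj hB' (by rwa [← h.card_Kb hab hac])).2 (x • n • c) fun hle =>
    hc (fixn hac (by simpa using h.smul_le' (mem_sup_left (inv_mem hx)) hle))
  have ss := mul_self_of_orderOf_two s2
  have nx := Cp_comm nC hx
  have sx := Cp_comm hs hx
  have ew : (n * s) • c = x • c := by
    rw [mul_smul, es, ← mul_smul, ← mul_smul, ← nx, mul_assoc, nn, mul_one]
  have inv : n * (n * s) * n⁻¹ = (n * s)⁻¹ := by
    rw [← mul_assoc, nn, one_mul, mul_inv_rev, inv_eq_of_mul_eq_one_left ss]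
  have x2 : x * x ≠ 1 := fun e => x1 (eq_one_of_two_eleven e (h.pow_eq hx))
  have hB2 : Bad P a c (x⁻¹ * (n * s)) := by
    refine ⟨hac, h.P1 hac (mul_mem (inv_mem (h.self_Cp hx)) (mul_mem nC hs))
      (by rw [mul_smul, ew, inv_smul_smul]), fun e => x2 ?_, x * x, mul_mem hx hx, x2, n • c,
      fun e => hac ?_, ?_⟩
    · rw [← inv_mul_eq_one.1 e, conj_eq_of_comm nx.symm] at inv
      exact mul_eq_one_iff_eq_inv.2 inv
    · exact smul_left_cancel n ((h.fix_of_cent nC).trans e.symm)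
    · have h1 : s • n • c = x⁻¹ • c := by
        rw [eq_inv_smul_iff, ← mul_smul, sx, mul_smul, ← es, ← mul_smul, ss, one_smul]
      rw [mul_assoc, mul_inv_cancel_left, mul_smul, mul_smul, h1, ← mul_smul, ← mul_smul, nx,
        mul_inv_cancel_right]
  obtain ⟨g, hg, eg⟩ := h.bad_conj hB2 hx
  rw [mul_inv_cancel_left] at eg
  have hB3 := hB2.conj h.toPts g
  rw [h.fix_of_cent hg, eg] at hB3
  have h1 := fixn hB3.ne (h.smul_le (h.norm_of_conj hB3.ne hB3.mem hB3.ne_one
    (inv ▸ inv_mem hB3.mem)) le_sup_right)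
  refine ⟨n * s, ?_, h.bad_ord hB3, by rwa [← mul_assoc, nn, one_mul], ew⟩
  have := hB3.mem
  rwa [Kb, h.L_eq hab (h.line a b hab) le_sup_left h1 hB3.ne] at this

theorem bad_odd : Odd (Nat.card (Kb P a b)) := by
  have := h.finite
  have hab := hB.ne
  rw [← Nat.not_even_iff_odd]
  intro he
  obtain ⟨n, hn, n2⟩ := exists_involution_of_even he
  have nn := mul_self_of_orderOf_two n2
  obtain ⟨x, hx, x1⟩ := h.exists_ne a
  obtain ⟨c, hc⟩ := h.exists_off hab
  obtain ⟨w, hw, wo, w2, -⟩ := h.bad_star hB he hn n2 hc hx x1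
  have w11 : w ^ 11 = 1 := by rw [← wo, pow_orderOf_eq_one]
  have inv : n * w * n⁻¹ = w⁻¹ := by
    rw [inv_eq_of_mul_eq_one_left nn, eq_inv_iff_mul_eq_one, mul_assoc]
    exact mul_self_of_orderOf_two w2
  have h1 : (fun z => n * z) '' (zpowers w : Set G) = {s | s ∈ Kb P a b ∧ orderOf s = 2} := by
    refine Set.eq_of_subset_of_ncard_le ?_ ?_
    · rintro _ ⟨z, hz, rfl⟩
      refine ⟨mul_mem hn (zpowers_le.2 hw hz), orderOf_two_of_mul_self ?_ fun e => ?_⟩
      · obtain ⟨j, rfl⟩ := hz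
        have := congrArg (· ^ j) inv
        simp only [conj_zpow, inv_zpow] at this
        rw [inv_eq_of_mul_eq_one_left nn] at this
        simp only
        rw [← mul_assoc, this, inv_mul_cancel]
      · refine ne_one_of_orderOf_two n2 (eq_one_of_two_eleven nn ?_)
        rw [eq_inv_of_mul_eq_one_left e]
        exact pow_eleven_of_mem w11 (inv_mem hz)
    · rw [(h.bad_surj hB he).1, Set.ncard_image_of_injective _ (mul_right_injective n),
        ← Nat.card_coe_set_eq, SetLike.coe_sort_coe, Nat.card_zpowers, wo]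
  have h2 := CK.dc_le {e | ¬ P e ≤ P a ⊔ P b} (P a : Set G) (fun e z => (z * w) • e = e) (m := 1)
    (k := 12) (fun e he' => ?_) fun z hz => ?_
  · rw [h.ncard_off hab, ← Nat.card_coe_set_eq, SetLike.coe_sort_coe, h.card] at h2
    obtain ⟨m, m0, hm⟩ := h.card_eq
    have := h.bad_three hB
    omega
  · obtain ⟨w', hw', wo', w2', ew⟩ := h.bad_star hB he hn n2 he' hx x1
    obtain ⟨z, hz, ez⟩ := h1.ge ⟨mul_mem hn hw', w2'⟩
    obtain rfl : z = w' := mul_left_cancel ez
    obtain ⟨i, hi⟩ := exists_zmod wo' (zpowers_eq_of_eleven w11 hz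
      (fun e => by rw [e, orderOf_one] at wo'; omega) ▸ mem_zpowers w)
    refine (Set.ncard_pos (Set.toFinite _)).2 ⟨x⁻¹ ^ i.val, pow_mem (inv_mem hx) _, ?_⟩
    have h3 := Pts.pow_fix (show (x⁻¹ * z) • e = e by rw [mul_smul, ew, inv_smul_smul]) i.val
    rwa [Commute.mul_pow (Cp_comm (Kb_Cp hw') (inv_mem hx)), ← hi] at h3
  · refine le_trans (Set.ncard_le_ncard fun e he' => he'.2)
      (h.ncard_fix_le (mul_mem (h.self_Cp hz) (Kb_Cp hw)) fun e => ?_)
    have := h.eq_one_of_Kb hab (eq_inv_of_mul_eq_one_right e ▸ mem_sup_left (inv_mem hz)) hw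
    rw [this, orderOf_one] at wo
    omega

end AL

end CfsgLib.P11
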