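import Cfsg.Agent.Lib.P11.Bad2

/-! Package BAD3: `k` is not inverted.  See `plans/P11.md`. -/

set_option autoImplicit false
set_option maxHeartbeats 400000
set_option linter.unusedSectionVars false

namespace CfsgLib.P11

open Subgroup Cfsg MulAction CfsgLib.Tech

universe u

variable {G : Type u} [Group G] [Finite G] {Ω : Type u} [MulAction G Ω] {P : Ω → Subgroup G}
  {a b c d : Ω} {g x k : G}

theorem zm_five : ∀ i : ZMod 11, i ≠ 0 → (i ^ 4) ^ 5 = 1 ∧ (i * i ^ 4 = 1 ∨ i * i ^ 4 = -1) := by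
  decide

theorem eq_one_of_inv (h11 : g ^ 11 = 1) (e : g = g⁻¹) : g = 1 :=
  eq_one_of_two_eleven (mul_eq_one_iff_eq_inv.2 e) h11

theorem inv_of_mem_zpowers {s w : G} (hi : s * k * s⁻¹ = k⁻¹) (hw : w ∈ zpowers k) :
    s * w * s⁻¹ = w⁻¹ := by
  obtain ⟨n, rfl⟩ := hw
  simp only [← conj_zpow, hi, inv_zpow]

theorem comm_of_odd {r : G} (ho : Odd (orderOf r)) (hi : r * k * r⁻¹ = k⁻¹) : r * k = k * r := by
  obtain ⟨m, hm⟩ := ho
  have h1 : Commute (r * r) k := by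
    have : r * r * k * (r * r)⁻¹ = k := by
      calc _ = r * (r * k * r⁻¹) * r⁻¹ := by group
        _ = r * k⁻¹ * r⁻¹ := by rw [hi]
        _ = (r * k * r⁻¹)⁻¹ := by group
        _ = k := by rw [hi, inv_inv]
    exact mul_inv_eq_iff_eq_mul.1 this
  have h2 : (r * r) ^ (m + 1) = r := by
    rw [← pow_two, ← pow_mul, show 2 * (m + 1) = 2 * m + 1 + 1 by ring, pow_succ, ← hm,
      pow_orderOf_eq_one, one_mul]
  rw [← h2]
  exact (h1.pow_left _).eq

theorem Pts.inv_of_lam (h : Pts P) (ea : g • a = a) (hl : lam P a g = -1) (hx : x ∈ P a) :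
    g * x * g⁻¹ = x⁻¹ := by
  rw [h.lam_spec ea hx, hl, show (-1 : ZMod 11).val = 10 from rfl]
  exact eq_inv_of_mul_eq_one_left ((pow_succ x 10).symm.trans (h.pow_eq hx))

theorem Pts.line_fix (h : Pts P) (hab : a ≠ b) (hL : IsL ↥(P a ⊔ P b)) (ea : g • a = a) (eb : g • b = b)
    (h1 : lam P a g ≠ 1) (hc : P c ≤ P a ⊔ P b) (ec : g • c = c) : c = a ∨ c = b := by
  by_cases hca : c = a
  · exact Or.inl hca
  obtain ⟨x, hx, rfl⟩ := h.L_reg hab hL hc hca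
  rw [h.fix_two hab ea eb h1 hx ec, one_smul]
  exact Or.inr rfl

namespace AL

variable (h : AL P) (hB : Bad P a b k) (ho : Odd (Nat.card (Kb P a b)))
include h hB ho

section
variable {s : G} (hs : s * s = 1) (ea : s • a = a) (eb : s • b = b) (hl : lam P a s = -1)
  (hi : s * k * s⁻¹ = k⁻¹)
include hs ea eb hl hi

omit ho hs eb in
theorem bad_invE (hg : g ∈ Cp P a) (e : g * k = k * g) : s * g * s⁻¹ = g⁻¹ ∧ g ^ 11 = 1 := by
  obtain ⟨x, hx, i, rfl⟩ := h.bad_centC hB hg e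
  have hc : Commute x (k ^ i) := Cp_comm (pow_mem (Kb_Cp hB.mem) i) hx
  constructor
  · rw [← conj_mul, h.inv_of_lam ea hl hx, inv_of_mem_zpowers hi (pow_mem (mem_zpowers k) i),
      ← mul_inv_rev, hc.eq]
  · rw [hc.mul_pow, h.pow_eq hx, one_mul, ← pow_mul, mul_comm, pow_mul, h.bad_pow hB, one_pow]

theorem bad_u : ∃ u ∈ Cp P a, u * s = s * u ∧ u ^ 11 = 1 ∧ ∃ x ∈ P a, x ≠ 1 ∧ u * k * u⁻¹ = x * k := by
  obtain ⟨ρ, hρ, x, hx, x1, e⟩ := h.bad_rho hB
  have hρ' : s * ρ * s⁻¹ ∈ Cp P a := by simpa only [ea] using h.conj_Cp s hρ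
  have xk := Cp_comm (Kb_Cp hB.mem) hx
  have h1 : s * ρ * s⁻¹ * k⁻¹ * (s * ρ * s⁻¹)⁻¹ = (x * k)⁻¹ := by
    calc _ = s * (ρ * (s⁻¹ * k⁻¹ * s) * ρ⁻¹) * s⁻¹ := by group
      _ = s * (x * k) * s⁻¹ := by rw [← hi, ← e]; group
      _ = _ := by rw [← conj_mul, h.inv_of_lam ea hl hx, hi, ← mul_inv_rev, xk]
  have h2 : ρ⁻¹ * (s * ρ * s⁻¹) * k = k * (ρ⁻¹ * (s * ρ * s⁻¹)) := by
    have h3 : s * ρ * s⁻¹ * k * (s * ρ * s⁻¹)⁻¹ = ρ * k * ρ⁻¹ := by
      rw [e, ← inv_inj, ← h1]; group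
    calc _ = ρ⁻¹ * (s * ρ * s⁻¹ * k * (s * ρ * s⁻¹)⁻¹) * (s * ρ * s⁻¹) := by group
      _ = _ := by rw [h3]; group
  have hE := mul_mem (inv_mem hρ) hρ'
  obtain ⟨e1, e2⟩ := h.bad_invE hB ea hl hi hE h2
  have e3 : s * ρ * s⁻¹ = ρ * (ρ⁻¹ * (s * ρ * s⁻¹)) := by group
  generalize ρ⁻¹ * (s * ρ * s⁻¹) = t at h2 hE e1 e2 e3
  have hu := mul_mem hρ (pow_mem hE 6)
  have us : s * (ρ * t ^ 6) * s⁻¹ = ρ * t ^ 6 := by
    rw [← conj_mul, ← conj_pow, e1, e3, mul_assoc, mul_right_inj, inv_pow, mul_inv_eq_iff_eq_mul,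
      ← pow_add, show 6 + 6 = 11 + 1 from rfl, pow_succ, e2, one_mul]
  have uk : ρ * t ^ 6 * k * (ρ * t ^ 6)⁻¹ = x * k := by
    rw [← e, ← conj_eq_of_comm (k := k) (Commute.pow_left h2 6).eq]
    nth_rewrite 1 [conj_eq_of_comm (k := k) (Commute.pow_left h2 6).eq]
    group
  generalize ρ * t ^ 6 = u at hu us uk
  refine ⟨u, hu, (mul_inv_eq_iff_eq_mul.1 us).symm, ?_, x, hx, x1, uk⟩
  have key : ∀ n : ℕ, u ^ n * k * (u ^ n)⁻¹ = x ^ n * k := by
    intro n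
    induction n with
    | zero => simp
    | succ n ih =>
      calc u ^ (n + 1) * k * (u ^ (n + 1))⁻¹ = u * (u ^ n * k * (u ^ n)⁻¹) * u⁻¹ := by group
        _ = (u * x ^ n * u⁻¹) * (u * k * u⁻¹) := by rw [ih]; group
        _ = _ := by
          rw [conj_eq_of_comm (Cp_comm hu (pow_mem hx n)).symm, uk, pow_succ, mul_assoc]
  have h4 := key 11
  rw [h.pow_eq hx, one_mul] at h4
  obtain ⟨e4, e5⟩ := h.bad_invE hB ea hl hi (pow_mem hu 11) (mul_inv_eq_iff_eq_mul.1 h4)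
  rw [← conj_pow, us] at e4
  exact eq_one_of_inv e5 e4

theorem bad_tr (hc : c ≠ a) (ec : s • c = c) : ∃ g ∈ Cp P a, g * s = s * g ∧ g • b = c := by
  obtain ⟨g, hg, rfl⟩ := h.transC hB.ne.symm hc
  have ga := h.fix_of_cent hg
  have ea' : (g⁻¹ * s * g) • a = a := Pts.mul_fix (Pts.mul_fix (Pts.inv_fix ga) ea) ga
  have eb' : (g⁻¹ * s * g) • b = b := by rw [mul_smul, mul_smul, ec, inv_smul_smul]
  have hK : s * (g⁻¹ * s * g) ∈ Kb P a b := by
    refine h.P1 hB.ne ((h.lam_eq_one_iff (Pts.mul_fix ea ea')).1 ?_) (Pts.mul_fix eb eb')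
    have := h.lam_conj' ea (Pts.inv_fix ga)
    rw [inv_inv] at this
    rw [h.lam_mul ea ea', this, hl]; norm_num
  obtain ⟨j, hj⟩ := exists_pow_conj_of_odd hs (y := g⁻¹ * s * g)
    (by calc _ = g⁻¹ * (s * s) * g := by group
      _ = 1 := by rw [hs]; group) (ho.of_dvd_nat (orderOf_dvd_natCard _ hK))
  have hr := pow_mem hK j
  generalize (s * (g⁻¹ * s * g)) ^ j = r at hj hr
  refine ⟨g * r⁻¹, mul_mem hg (inv_mem (Kb_Cp hr)), ?_, ?_⟩
  · nth_rewrite 1 [← hj]; group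
  · rw [mul_smul, h.fix_of_Kb (inv_mem hr) le_sup_right]

theorem bad_semi {w : G} (hw : w ∈ Cp P a) (e : w * s = s * w) (h11 : w ^ 11 = 1) (hc : c ≠ a)
    (ec : s • c = c) (ew : w • c = c) : w = 1 := by
  have : Fact (Nat.Prime 11) := ⟨by norm_num⟩
  obtain ⟨g, hg, gs, rfl⟩ := h.bad_tr hB ho hs ea eb hl hi hc ec
  have hw' := h.P1 hB.ne (mul_mem (mul_mem (inv_mem hg) hw) hg)
    (by rw [mul_smul, mul_smul, ew, inv_smul_smul])
  have e' : g⁻¹ * w * g * s = s * (g⁻¹ * w * g) :=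
    ((Commute.mul_left (Commute.inv_left gs) e).mul_left gs).eq
  have h11' : (g⁻¹ * w * g) ^ 11 = 1 := by
    have := conj_pow (i := 11) (a := g⁻¹) (b := w)
    rw [inv_inv, h11] at this
    rw [this]; group
  by_contra w1
  have w1' : g⁻¹ * w * g ≠ 1 := fun e1 => w1 (by
    calc w = g * (g⁻¹ * w * g) * g⁻¹ := by group
      _ = 1 := by rw [e1]; group)
  generalize g⁻¹ * w * g = w' at hw' e' h11' w1'
  obtain ⟨g1, hg1, hm⟩ := (h.bad_sylK hB).exists_conj_mem hw' (isPGroup_zpowers_of_pow (k := 1) h11')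
  have h1 : g1 * s * g1⁻¹ * k = k * (g1 * s * g1⁻¹) := comm_of_mem_zpowers
    (zpowers_eq_of_eleven (h.bad_pow hB) hm (by simpa using w1') ▸ mem_zpowers k)
    (by rw [conj_mul, conj_mul, e'])
  have h2 : g1 * (s * g1⁻¹ * s⁻¹) ∈ Kb P a b :=
    mul_mem hg1 (by simpa only [ea, eb] using h.conj_Kb s (inv_mem hg1))
  have h3 : g1 * (s * g1⁻¹ * s⁻¹) * k * (g1 * (s * g1⁻¹ * s⁻¹))⁻¹ = k⁻¹ := by
    have h4 : s⁻¹ * k * s = k⁻¹ := by
      rw [← hi, inv_eq_of_mul_eq_one_left hs]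
    calc _ = g1 * s * g1⁻¹ * (s⁻¹ * k * s) * (g1 * s * g1⁻¹)⁻¹ := by group
      _ = (g1 * s * g1⁻¹ * k * (g1 * s * g1⁻¹)⁻¹)⁻¹ := by rw [h4]; group
      _ = _ := by rw [conj_eq_of_comm h1]
  rw [conj_eq_of_comm (comm_of_odd (ho.of_dvd_nat (orderOf_dvd_natCard _ h2)) h3)] at h3
  exact hB.ne_one (eq_one_of_inv (h.bad_pow hB) h3)

theorem bad_count : ∃ n, 11 ∣ n ∧ {e : Ω | s • e = e}.ncard = n + 1 ∧ Nat.card Ω = n * (5 * n + 6) + 1 := by
  have := h.finite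
  have s1 : s ≠ 1 := by
    rintro rfl
    rw [h.lam_one] at hl
    exact absurd hl (by decide)
  set F := {e : Ω | s • e = e} with hF
  obtain ⟨n, hn⟩ : ∃ n, F.ncard = n + 1 :=
    Nat.exists_eq_succ_of_ne_zero ((Set.ncard_pos (Set.toFinite F)).2 ⟨a, ea⟩).ne'
  have hd : ∀ p ∈ F, (F \ {p}).ncard = n := fun p hp => by
    rw [Set.ncard_sdiff_singleton_of_mem hp, hn]; rfl
  obtain ⟨u, hu, us, u11, x, hx, x1, uk⟩ := h.bad_u hB ho hs ea eb hl hi
  have h11 : 11 ∣ n := by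
    rw [← hd a ea]
    refine HKS.KS.dvd_ncard (by norm_num) u11 (fun c hc => ⟨?_, fun e => hc.2 ?_⟩) fun c hc e => x1 ?_
    · have : s • c = c := hc.1
      change s • u • c = u • c
      rw [← mul_smul, ← us, mul_smul, this]
    · exact smul_left_cancel u (e.trans (h.fix_of_cent hu).symm)
    · rw [h.bad_semi hB ho hs ea eb hl hi hu us u11 hc.2 hc.1 e] at uk
      simpa using uk
  have nl : ∀ c d, c ≠ d → s ∉ P c ⊔ P d := fun c d hcd hm => by
    have := h.bad_dvd hB hcd hm (by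
      rwa [show 55 = 2 * 27 + 1 from rfl, pow_succ, pow_mul, pow_two, hs, one_pow, one_mul])
    rw [← hF, hn] at this
    omega
  have l1 : ∀ p ∈ F, lam P p s ≠ 1 := fun p hp e => by
    by_cases hpa : a = p
    · rw [← hpa, hl] at e; exact absurd e (by decide)
    · rw [← h.P1' hpa ea hp, hl] at e; exact absurd e (by decide)
  have h1 := CK.dc_eq {p : Ω × Ω | p.1 ∈ F ∧ p.2 ∈ F ∧ p.1 ≠ p.2} Fᶜ
    (fun p e => P e ≤ P p.1 ⊔ P p.2) (m := 10) (k := 2) (fun p hp => ?_) fun e he => ?_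
  · have h2 := CK.dc_eq {p : Ω × Ω | p.1 ∈ F ∧ p.2 ∈ F ∧ p.1 ≠ p.2} F (fun p e => p.1 = e) (m := 1)
      (k := n) (fun p hp => ?_) fun e he => ?_
    · rw [Set.ncard_compl, hn] at h1
      have h3 := Set.ncard_le_card F
      refine ⟨n, h11, hn, ?_⟩
      rw [hn] at h2 h3
      have : n * (5 * n + 6) = 5 * ((n + 1) * n) + n := by ring
      omega
    · rw [Set.ncard_eq_one]
      exact ⟨p.1, Set.ext fun e => ⟨fun h => h.2.symm, fun h => by rw [h]; exact ⟨hp.1, rfl⟩⟩⟩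
    · rw [← hd e he, ← Set.ncard_image_of_injective (F \ {e}) (Prod.mk_right_injective e)]
      congr 1
      ext ⟨p, q⟩
      constructor
      · rintro ⟨hp, rfl⟩
        exact ⟨q, ⟨hp.2.1, hp.2.2.symm⟩, rfl⟩
      · rintro ⟨q', hq, e1⟩
        obtain ⟨rfl, rfl⟩ := Prod.mk.inj e1
        exact ⟨⟨he, hq.1, Ne.symm hq.2⟩, rfl⟩
  · obtain ⟨hp, hq, hpq⟩ := hp
    have hL := h.line _ _ hpq
    have h2 : {e | e ∈ Fᶜ ∧ P e ≤ P p.1 ⊔ P p.2} = {e | P e ≤ P p.1 ⊔ P p.2} \ {p.1, p.2} := by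
      ext e
      constructor
      · rintro ⟨h3, h4⟩
        refine ⟨h4, ?_⟩
        rintro (rfl | rfl)
        · exact h3 hp
        · exact h3 hq
      · exact fun h3 => ⟨fun h4 => h3.2 (h.line_fix hpq hL hp hq (l1 _ hp) h3.1 h4), h3.1⟩
    rw [h2, Set.ncard_sdiff (by rintro _ (rfl | rfl); exacts [le_sup_left (a := P p.1), le_sup_right (b := P p.2)]),
      h.L_ncard hpq hL, Set.ncard_pair hpq]
  · have he' : e ≠ s • e := fun e1 => he e1.symm
    have hL := h.line _ _ he'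
    have hN := h.norm_of_swap (g := s) (a := e) rfl (by rw [← mul_smul, hs, one_smul])
    obtain ⟨p, hp, pF⟩ : ∃ p, P p ≤ P e ⊔ P (s • e) ∧ s • p = p := by
      by_contra hn
      push Not at hn
      obtain ⟨t, ht, k', hk', k2, e1⟩ := h.P3 he' hL hs hN hn
      by_cases k1 : k' = 1
      · rw [k1, mul_one] at e1; exact nl _ _ he' (e1 ▸ ht)
      · exact Nat.not_even_iff_odd.2 ho (h.card_Kb hB.ne he' ▸
          even_card_of_involution hk' (orderOf_two_of_mul_self k2 k1))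
    have hpe : p ≠ e := fun e1 => he (e1 ▸ pF)
    have e1 := h.L_eq he' hL hp le_sup_left hpe
    obtain ⟨x', hx', ex⟩ := h.exists_x hpe pF (e1 ▸ hN)
    obtain ⟨z, hz, ez⟩ := h.exists_fix pF (l1 p pF) hx' ex.symm
    have hpq : p ≠ z • e := fun e2 => hpe (smul_left_cancel z ((h.fix hz).trans e2))
    have e2 := h.L_eq he' hL hp (e1 ▸ h.smul_le' (mem_sup_left hz) le_sup_right) hpq
    generalize z • e = q at ez hpq e2
    rw [Set.ncard_eq_two]
    refine ⟨(p, q), (q, p), fun e3 => hpq (Prod.mk.inj e3).1, Set.ext fun ⟨p', q'⟩ => ⟨?_, ?_⟩⟩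
    · rintro ⟨⟨hp', hq', hpq'⟩, hle⟩
      have e3 := h.L_eq hpq' (h.line _ _ hpq') hle (h.smul_le (h.norm_of_fix hp' hq') hle) he'
      have k1 := h.line_fix hpq (h.line _ _ hpq) pF ez (l1 p pF) (c := p') (e2 ▸ e3 ▸ le_sup_left) hp'
      have k2 := h.line_fix hpq (h.line _ _ hpq) pF ez (l1 p pF) (c := q') (e2 ▸ e3 ▸ le_sup_right) hq'
      rcases k1 with rfl | rfl <;> rcases k2 with rfl | rfl
      · exact absurd rfl hpq'
      · exact Or.inl rfl
      · exact Or.inr rfl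
      · exact absurd rfl hpq'
    · rintro (e3 | e3) <;> obtain ⟨rfl, rfl⟩ := Prod.mk.inj e3
      · exact ⟨⟨pF, ez, hpq⟩, e2 ▸ le_sup_left⟩
      · exact ⟨⟨ez, pF, hpq.symm⟩, by rw [sup_comm]; exact e2 ▸ le_sup_left⟩

theorem bad_s : False := by
  have := h.finite
  have : Fact (Nat.Prime 11) := ⟨by norm_num⟩
  obtain ⟨n, h11, hn, hv⟩ := h.bad_count hB ho hs ea eb hl hi
  obtain ⟨u, hu, us, u11, x, hx, x1, uk⟩ := h.bad_u hB ho hs ea eb hl hi
  set Cs := Cp P a ⊓ centralizer ({s} : Set G) with hCs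
  have h1 : (stabilizer G b).relIndex Cs = n := by
    rw [← HKS.KS.ncard_orbit, show n = n + 1 - 1 from rfl, ← hn,
      ← Set.ncard_sdiff_singleton_of_mem (s := {e : Ω | s • e = e}) ea]
    congr 1
    ext e
    constructor
    · rintro ⟨g, hg, rfl⟩
      refine ⟨?_, fun e => hB.ne (smul_left_cancel g ((h.fix_of_cent hg.1).trans e.symm))⟩
      change s • g • b = g • b
      rw [← mul_smul, ← mem_centralizer_singleton_iff.1 hg.2, mul_smul, eb]
    · intro he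
      obtain ⟨g, hg, gs, e1⟩ := h.bad_tr hB ho hs ea eb hl hi he.2 he.1
      exact ⟨g, ⟨hg, mem_centralizer_singleton_iff.2 gs⟩, e1⟩
  obtain ⟨T, hT⟩ := exists_isSylowIn 11 Cs
  have xT : ∀ z ∈ P a, z ∈ T → z = 1 := fun z hz hzT => by
    have := h.inv_of_lam ea hl hz
    rw [conj_eq_of_comm (mem_centralizer_singleton_iff.1 (hT.le hzT).2).symm] at this
    exact eq_one_of_inv (h.pow_eq hz) this
  have hTA : T ≤ normalizer (P a : Set G) := fun t ht => centralizer_le_normalizer _ (hT.le ht).1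
  have hA : IsPGroup 11 (P a) := IsPGroup.of_card (n := 1) (h.card a)
  have hR : IsPGroup 11 ↥(T ⊔ P a) := hT.pgroup.to_sup_of_normal_right' hA hTA
  have hRC : T ⊔ P a ≤ Cp P a := sup_le (hT.le.trans inf_le_left) fun z hz => h.self_Cp hz
  have hS : IsSylowIn 11 (T ⊔ P a) (Cp P a) := by
    refine ⟨hRC, hR, fun hi => ?_⟩
    have e1 := HKS.card_eq_relIndex_mul (stabilizer G b) Cs
    have e2 := card_mul_relIndex' hT.le
    have e3 := card_mul_relIndex' (le_sup_left (a := T) (b := P a))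
    have e4 := card_mul_relIndex' hRC
    have e5 := card_mul_relIndex' (h.bad_sylK hB).le
    have e6 := h.card_Cp hB.ne
    rw [Nat.card_zpowers, h.bad_ord hB] at e5
    rw [hv, Nat.add_sub_cancel, ← e5, ← e4, ← e3] at e6
    rw [h1, ← e2] at e1
    have hl : 11 ∣ T.relIndex (T ⊔ P a) := by
      obtain ⟨j, hj⟩ := hR.index (T.subgroupOf _)
      rcases j with _ | j
      · exact absurd (xT x hx (relIndex_eq_one.1 hj (mem_sup_right hx))) x1
      · exact ⟨11 ^ j, by rw [relIndex, hj, pow_succ']⟩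
    obtain ⟨l, hl⟩ := hl
    obtain ⟨i, hi⟩ := hi
    rw [hl, hi] at e6
    have e7 : 11 * (l * i * Nat.card ↥(Cs ⊓ stabilizer G b)) =
        T.relIndex Cs * ((5 * n + 6) * (zpowers k).relIndex (Kb P a b)) := by
      refine Nat.eq_of_mul_eq_mul_left (n := 11 * Nat.card T) (by have := @Nat.card_pos T _ _; omega) ?_
      calc _ = Nat.card T * (11 * l) * (11 * i) * Nat.card ↥(Cs ⊓ stabilizer G b) := by ring
        _ = 11 * (n * Nat.card ↥(Cs ⊓ stabilizer G b)) *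
            ((5 * n + 6) * (zpowers k).relIndex (Kb P a b)) := by rw [e6]; ring
        _ = _ := by rw [← e1]; ring
    have p11 : Nat.Prime 11 := by norm_num
    rcases (Nat.Prime.dvd_mul p11).1 ⟨_, e7.symm⟩ with h2 | h2
    · exact hT.not_dvd h2
    rcases (Nat.Prime.dvd_mul p11).1 h2 with h2 | h2
    · omega
    · exact (h.bad_sylK hB).not_dvd h2
  set E := Cp P a ⊓ centralizer ({k} : Set G) with hE
  have hEp : IsPGroup 11 E := IsPGroup.of_card (n := 2) (h.bad_cardE hB)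
  have hun : zpowers u ≤ normalizer (E : Set G) := zpowers_le.2 (inv_mem_iff.1
    (mem_normalizer_of_forall fun g hg => mem_inf.2 ⟨mul_mem (mul_mem (inv_mem hu) (mem_inf.1 hg).1)
      (inv_mem (inv_mem hu)), mem_centralizer_singleton_iff.2 (by
        have h2 : g * (u * k * u⁻¹) = u * k * u⁻¹ * g := by
          rw [uk, ← mul_assoc, ← Cp_comm hg.1 hx, mul_assoc, mem_centralizer_singleton_iff.1 hg.2,
            mul_assoc]
        calc _ = u⁻¹ * (g * (u * k * u⁻¹)) * u := by group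
          _ = _ := by rw [h2]; group)⟩))
  obtain ⟨g, hg, hle⟩ := hS.exists_cj_le ((isPGroup_zpowers_of_pow (k := 1) u11).to_sup_of_normal_right'
    hEp hun) (sup_le (zpowers_le.2 hu) inf_le_left)
  have dec : ∀ r ∈ T ⊔ P a, ∃ t ∈ T, ∃ z ∈ P a, t * z = r := fun r hr => by
    rw [← SetLike.mem_coe, coe_mul_of_left_le_normalizer_right _ _ hTA] at hr
    exact hr
  obtain ⟨t, ht, z, hz, e1⟩ := dec _ (cj_le_iff.1 hle u (mem_sup_left (mem_zpowers u)))
  obtain ⟨t', ht', z', hz', e2⟩ := dec _ (cj_le_iff.1 hle k (mem_sup_right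
    ⟨Kb_Cp hB.mem, mem_centralizer_singleton_iff.2 rfl⟩))
  refine x1 (xT x hx ?_)
  have e3 : x = t * t' * t⁻¹ * t'⁻¹ := by
    have c1 := conj_eq_of_comm (Cp_comm (mul_mem (hT.le ht').1 (h.self_Cp hz')) hz)
    have c2 := Cp_comm (inv_mem (hT.le ht).1) hz'
    calc x = g * x * g⁻¹ := (conj_eq_of_comm (Cp_comm hg hx).symm).symm
      _ = (g * u * g⁻¹) * (g * k * g⁻¹) * (g * u * g⁻¹)⁻¹ * (g * k * g⁻¹)⁻¹ := by
        rw [eq_mul_inv_of_mul_eq uk.symm]; group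
      _ = t * (z * (t' * z') * z⁻¹) * t⁻¹ * (t' * z')⁻¹ := by rw [← e1, ← e2]; group
      _ = t * t' * (z' * t⁻¹) * z'⁻¹ * t'⁻¹ := by rw [c1]; group
      _ = _ := by rw [c2]; group
  rw [e3]
  exact mul_mem (mul_mem (mul_mem ht ht') (inv_mem ht)) (inv_mem ht')

end

theorem bad_fix (hg : g * k * g⁻¹ ∈ zpowers k) : g * k * g⁻¹ = k := by
  refine (h.bad_mu hB hg).resolve_right fun hi => ?_
  obtain ⟨m, hm, ea, eb⟩ := h.red hB.ne (h.norm_of_conj hB.ne hB.mem hB.ne_one (zpowers_le.2 hB.mem hg))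
  have h3 : m * g * k * (m * g)⁻¹ = k⁻¹ := by
    rw [← conj_eq_of_comm (Kb_comm (inv_mem hB.mem) hm), ← hi]; group
  generalize m * g = g1 at ea eb h3
  obtain ⟨l1, l2⟩ := zm_five _ (h.lam_ne ea)
  obtain ⟨y, hy, ya, yb, -, yl⟩ := h.L_y hB.ne (h.line a b hB.ne) l1
  have sa := Pts.mul_fix ea ya
  have sb := Pts.mul_fix eb yb
  rw [← yl, ← h.lam_mul ea ya] at l2
  have si : g1 * y * k * (g1 * y)⁻¹ = k⁻¹ := by
    calc _ = g1 * (y * k * y⁻¹) * g1⁻¹ := by group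
      _ = _ := by rw [conj_eq_of_comm (Kb_comm hB.mem hy), h3]
  generalize g1 * y = s at sa sb l2 si
  have h4 : s * s ∈ zpowers k := by
    refine h.bad_centK hB (h.P1 hB.ne ((h.lam_eq_one_iff (Pts.mul_fix sa sa)).1 ?_)
      (Pts.mul_fix sb sb)) (mul_inv_eq_iff_eq_mul.1 ?_)
    · rw [h.lam_mul sa sa]; rcases l2 with e | e <;> rw [e] <;> norm_num
    · calc _ = s * (s * k * s⁻¹) * s⁻¹ := by group
        _ = s * k⁻¹ * s⁻¹ := by rw [si]
        _ = (s * k * s⁻¹)⁻¹ := by group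
        _ = k := by rw [si, inv_inv]
  have ss : s * s = 1 := eq_one_of_inv (pow_eleven_of_mem (h.bad_pow hB) h4) (by
    rw [← inv_of_mem_zpowers si h4]; group)
  rcases l2 with e | e
  · refine Nat.not_even_iff_odd.2 ho (even_card_of_involution
      (h.P1 hB.ne ((h.lam_eq_one_iff sa).1 e) sb) (orderOf_two_of_mul_self ss ?_))
    rintro rfl
    exact hB.ne_one (eq_one_of_inv (h.bad_pow hB) (by simpa using si))
  · exact h.bad_s hB ho ss sa sb e si

end AL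

end CfsgLib.P11
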