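import Cfsg.Agent.Lib.P11.Bad1
import Cfsg.Agent.Lib.Fgs.ConjCount
import Cfsg.Agent.Lib.SylTools.TransferCtrl
import Cfsg.Agent.Lib.PGroup.Basic
import Cfsg.Agent.Lib.Transfer.Frobenius

/-! Package BAD4: transfer.  See `plans/P11.md`. -/

set_option autoImplicit false
set_option linter.unusedSectionVars false

namespace CfsgLib.P11

open Subgroup Cfsg MulAction CfsgLib.Tech

universe u

variable {G : Type u} [Group G] [Finite G] {Ω : Type u} [MulAction G Ω] {P : Ω → Subgroup G}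
  {a b c d : Ω} {g x k : G}

theorem b4_ge {D S : Subgroup G} (hS : IsPGroup 11 S) (hlt : D < S) : 11 ≤ D.relIndex S := by
  haveI : Fact (Nat.Prime 11) := ⟨by norm_num⟩
  obtain ⟨n, hn⟩ := hS.index (D.subgroupOf S)
  rw [relIndex, hn]
  refine Nat.le_self_pow (fun e => hlt.not_ge (relIndex_eq_one.1 ?_)) _
  rw [relIndex, hn, e, pow_zero]

theorem b4_sub {D : Subgroup G} {S : Set G} (h1 : ∀ y ∈ S, y ∈ D ∧ y ≠ 1) : S.ncard + 1 ≤ Nat.card D := by
  rw [← Set.ncard_insert_of_notMem (a := 1) fun e => (h1 1 e).2 rfl]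
  exact Set.ncard_le_ncard (t := (D : Set G)) (Set.insert_subset D.one_mem fun y hy => (h1 y hy).1)

namespace AL

variable (h : AL P) (hB : Bad P a b k)
include h hB

theorem b4_class {N : Subgroup G} (hN : N ≤ Cp P a) :
    Nat.card N ≤ {y : G | ∃ g ∈ N, y = g * k * g⁻¹}.ncard * 121 := by
  rw [Fgs.ncard_conj_by_subgroup, HKS.card_eq_relIndex_mul (centralizer {k}) N, ← h.bad_cardE hB]
  exact Nat.mul_le_mul_left _ (card_le_of_le (inf_le_inf_right _ hN))

theorem bad_uniq {T T' : Subgroup G} (hT : IsSylowIn 11 T (Cp P a)) (hT' : IsSylowIn 11 T' (Cp P a))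
    (hk : k ∈ T) (hk' : k ∈ T') : T = T' := by
  haveI : Fact (Nat.Prime 11) := ⟨by norm_num⟩
  by_contra hne
  set D := T ⊓ T'
  have l1 := lt_inf_normalizer_of_lt hT.pgroup (lt_of_le_of_ne (inf_le_left : D ≤ T) fun e =>
    hne (hT.eq_of_le hT'.pgroup (inf_eq_left.1 e) hT'.le).symm)
  have l2 := lt_inf_normalizer_of_lt hT'.pgroup (lt_of_le_of_ne (inf_le_right : D ≤ T') fun e =>
    hne (hT'.eq_of_le hT.pgroup (inf_eq_right.1 e) hT.le))
  have h1 := b4_ge (hT.pgroup.to_le inf_le_left) l1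
  have h2 := b4_ge (hT'.pgroup.to_le inf_le_left) l2
  have h3 := card_mul_relIndex' l2.le
  have h4 := card_mul_relIndex' (inf_le_inf_right (normalizer (D : Set G)) hT'.le)
  have h5 := relIndex_le_of_le_right (H := T' ⊓ normalizer (D : Set G))
    (inf_le_inf_right (normalizer (D : Set G)) hT.le) index_ne_zero_of_finite
  rw [← inf_relIndex_right, show (T' ⊓ normalizer (D : Set G)) ⊓ (T ⊓ normalizer (D : Set G)) = D from
    le_antisymm (fun x hx => ⟨hx.2.1, hx.1.1⟩) (le_inf l2.le l1.le)] at h5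
  have h6 := h.b4_class hB (N := Cp P a ⊓ normalizer (D : Set G)) inf_le_left
  have h7 := b4_sub (D := D) (S := {y : G | ∃ g ∈ Cp P a ⊓ normalizer (D : Set G), y = g * k * g⁻¹}) (by
    rintro _ ⟨g, hg, rfl⟩
    exact ⟨conj_mem_of_mem_normalizer hg.2 ⟨hk, hk'⟩, by simpa using hB.ne_one⟩)
  have h8 := Nat.mul_le_mul (Nat.mul_le_mul_left (Nat.card D) h2) (h1.trans h5)
  rw [h3, h4] at h8
  omega

variable (ho : Odd (Nat.card (Kb P a b))) (hn : ∀ g : G, g * k * g⁻¹ ∈ zpowers k → g * k * g⁻¹ = k)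
include ho hn

theorem bad_self {T : Subgroup G} (hT : IsSylowIn 11 T (Cp P a)) (hk : k ∈ T) :
    Cp P a ⊓ normalizer (T : Set G) = T := by
  obtain ⟨y, hy, ea, eb, y5, hl⟩ := h.L_y hB.ne (h.line a b hB.ne) (i := 4) (by decide)
  replace hl : lam P a y ^ 2 ≠ 1 := by rw [hl]; decide
  haveI : Fact (Nat.Prime 11) := ⟨by norm_num⟩
  haveI : Fact (Nat.Prime 5) := ⟨by norm_num⟩
  set N := Cp P a ⊓ normalizer (T : Set G) with hN
  have hTN : T ≤ N := le_inf hT.le le_normalizer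
  have yk := Kb_comm hB.mem hy
  have yC : y ∈ normalizer (Cp P a : Set G) := mem_normalizer_of_forall fun g hg => by
    simpa only [ea] using h.conj_Cp y hg
  have yT : cj y T = T := h.bad_uniq hB (hT.cj_of_mem_normalizer yC) hT
    (by rw [← conj_eq_of_comm yk]; exact conj_mem_cj.2 hk) hk
  have yN : y ∈ normalizer (N : Set G) := by
    rw [mem_normalizer_iff_cj, cj_inf, cj_normalizer, mem_normalizer_iff_cj.1 yC, yT]
  have hC : N ⊓ centralizer ({y} : Set G) = zpowers k := by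
    refine le_antisymm (fun g hg => ?_) (zpowers_le.2 ⟨hTN hk, mem_centralizer_singleton_iff.2 yk.symm⟩)
    have e1 := h.fix_of_cent hg.1.1
    have e2 : g • b = b := h.two ea hl
      (by rw [← mul_smul, ← mem_centralizer_singleton_iff.1 hg.2, mul_smul, eb]) eb
      (fun e => hB.ne (smul_left_cancel g (e1.trans e.symm))) hB.ne.symm
    have hK := h.P1 hB.ne hg.1.1 e2
    refine h.bad_centK hB hK (mul_inv_eq_iff_eq_mul.1 (hn g ?_))
    rw [← (h.bad_sylK hB).eq_of_le (Q := T ⊓ Kb P a b) (hT.pgroup.to_le inf_le_left)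
      (zpowers_le.2 ⟨hk, hB.mem⟩) inf_le_right]
    exact ⟨conj_mem_of_mem_normalizer hg.1.2 hk, (Kb P a b).mul_mem (mul_mem hK hB.mem) (inv_mem hK)⟩
  have h5 := Transfer.card_modEq_card_inf_centralizer (q := 5) yN ⟨1, by rwa [pow_one]⟩
  obtain ⟨e, he⟩ := hT.pgroup.exists_card_eq
  have hm := card_mul_relIndex' hTN
  have h11 := (hT.of_le hTN inf_le_left).not_dvd
  have hodd : Odd (T.relIndex N) := by
    refine Odd.of_dvd_nat ?_ ((Dvd.intro_left _ hm).trans (card_dvd_of_le inf_le_left))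
    obtain ⟨n, -, hv⟩ := h.card_eq
    rw [h.card_Cp hB.ne]
    exact (Nat.Even.sub_odd (by omega) h.even odd_one).mul ho
  have h6 := h.b4_class hB (N := N) inf_le_left
  set S := {y : G | ∃ g ∈ N, y = g * k * g⁻¹}
  have h7 : 10 * S.ncard ≤ ((T : Set G) \ {1}).ncard := by
    have oS : ∀ w ∈ S, orderOf w = 11 := by
      rintro _ ⟨g, -, rfl⟩
      rw [orderOf_conj_eq, h.bad_ord hB]
    have := Nat.card_le_card_of_injective (α := Fin 10 × S) (β := ↥((T : Set G) \ {1}))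
      (fun p => ⟨p.2.1 ^ (p.1.1 + 1), by
        obtain ⟨g, hg, e⟩ := p.2.2
        exact pow_mem (e ▸ conj_mem_of_mem_normalizer hg.2 hk) _,
        pow_ne_one_of_lt_orderOf (by omega) (by rw [oS _ p.2.2]; omega)⟩) (by
      rintro ⟨i, w, hw⟩ ⟨j, w', hw'⟩ e
      have e : w ^ (i.1 + 1) = w' ^ (j.1 + 1) := congrArg Subtype.val e
      have h1 : w ∈ zpowers w' := SylTools.mem_of_pow_mem_of_coprime (n := i.1 + 1) (by
        rw [oS w hw]
        exact (Nat.coprime_of_lt_prime (by omega) (by omega) Fact.out)) (e ▸ pow_mem (mem_zpowers w') _)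
      obtain rfl : w = w' := by
        obtain ⟨g, -, rfl⟩ := hw
        obtain ⟨g', -, rfl⟩ := hw'
        rw [← cj_zpowers, mem_cj] at h1
        have := hn (g'⁻¹ * g) (by simpa [mul_assoc] using h1)
        nth_rewrite 2 [← this]
        group
      rw [pow_inj_mod, oS w hw] at e
      rw [show i = j from Fin.ext (by omega)])
    rwa [Nat.card_prod, Nat.card_fin, Nat.card_coe_set_eq, Nat.card_coe_set_eq] at this
  have h8 := b4_sub (D := T) (S := (T : Set G) \ {1}) fun y hy => hy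
  rw [hC, Nat.card_zpowers, h.bad_ord hB, ← hm, he] at h5
  have h9 : 11 ^ e * T.relIndex N ≡ 1 * T.relIndex N [MOD 5] :=
    (by simpa using (show 11 ≡ 1 [MOD 5] by decide).pow e : 11 ^ e ≡ 1 [MOD 5]).mul_right _
  have h10 : T.relIndex N ≤ 12 := by
    by_contra hlt
    have := Nat.mul_le_mul_left (Nat.card T) (show 13 ≤ T.relIndex N by omega)
    omega
  have h12 := h9.symm.trans h5
  rw [Nat.odd_iff] at hodd
  unfold Nat.ModEq at h12
  exact le_antisymm (relIndex_eq_one.1 (by omega)) hTN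

theorem bad_fus {T : Subgroup G} (hT : IsSylowIn 11 T (Cp P a)) (hk : k ∈ T) (hg : g * k * g⁻¹ ∈ T) :
    ∃ t ∈ T, g * k * g⁻¹ = t * k * t⁻¹ := by
  haveI : Fact (Nat.Prime 11) := ⟨by norm_num⟩
  have e1 : k • g⁻¹ • a = g⁻¹ • a := by
    have := h.fix_of_cent (hT.le hg)
    rw [mul_smul, mul_smul] at this
    exact eq_inv_smul_iff.2 this
  obtain ⟨m, hm, e2⟩ := h.exists_smul hB.ne le_sup_left ((h.fix_K hB.ne hB.mem hB.ne_one _).1 e1)
  have ea : (g * m) • a = a := by rw [mul_smul, e2, smul_inv_smul]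
  obtain ⟨c, hc, eb⟩ := h.transC (a := a) (b := (g * m) • b) (c := b)
    (fun e => hB.ne (smul_left_cancel _ (ea.trans e.symm))) hB.ne.symm
  have hK := h.conj_Kb (c * (g * m)) hB.mem
  rw [mul_smul, ea, h.fix_of_cent hc, mul_smul, eb] at hK
  obtain ⟨r, hr, h1⟩ := (h.bad_sylK hB).exists_conj_mem hK (isPGroup_zpowers_of_pow (k := 1) (by
    rw [pow_one, conj_pow, h.bad_pow hB, mul_one, mul_inv_cancel]))
  have h2 := hn (r * (c * (g * m))) (by simpa [mul_assoc] using h1)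
  have h3 : r * c * (g * k * g⁻¹) * (r * c)⁻¹ = k := by
    rw [← conj_eq_of_comm (Kb_comm hB.mem hm)]
    nth_rewrite 2 [conj_eq_of_comm (Kb_comm hB.mem hm)]
    nth_rewrite 2 [← h2]
    group
  have hrc := mul_mem (Kb_Cp hr) hc
  have h4 : r * c ∈ T := by
    rw [← h.bad_self hB ho hn hT hk]
    exact ⟨hrc, mem_normalizer_iff_cj.2 (h.bad_uniq hB (hT.cj_of_mem hrc) hT
      (by rw [← h3]; exact conj_mem_cj.2 hg) hk)⟩
  refine ⟨_, inv_mem h4, ?_⟩
  nth_rewrite 2 [← h3]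
  group

theorem bad_false : False := by
  haveI : Fact (Nat.Prime 11) := ⟨by norm_num⟩
  haveI := h.finite
  haveI := h.simple
  obtain ⟨T, hT, hE⟩ := exists_isSylowIn_ge (p := 11) (IsPGroup.of_card (n := 2) (h.bad_cardE hB))
    (le_top : Cp P a ⊓ centralizer ({k} : Set G) ≤ ⊤)
  have hk : k ∈ T := hE ⟨Kb_Cp hB.mem, mem_centralizer_singleton_iff.2 rfl⟩
  obtain ⟨x, hx, hx1⟩ := h.exists_ne a
  have hC : T ≤ Cp P a := by
    obtain ⟨c, hc⟩ := hT.pgroup.nonempty_fixed_point_of_prime_not_dvd_card Ω (by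
      obtain ⟨n, -, hv⟩ := h.card_eq
      omega)
    obtain rfl : c = a := h.semi hx hx1 (hc ⟨x, hE ⟨h.self_Cp hx,
      mem_centralizer_singleton_iff.2 (Cp_comm (Kb_Cp hB.mem) hx)⟩⟩)
    intro t ht
    obtain ⟨n, hn⟩ := isPGroup_iff_mem.1 hT.pgroup t ht
    exact (h.lam_eq_one_iff (hc ⟨t, ht⟩)).1 (h.lam_of_eleven (hc ⟨t, ht⟩) hn)
  have hT' := hT.of_le hC le_top
  obtain ⟨e, he⟩ := hT.pgroup.exists_card_eq
  have h1 := card_le_of_le hE
  rw [h.bad_cardE hB, he] at h1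
  obtain ⟨e, rfl⟩ : ∃ f, e = f + 2 :=
    ⟨e - 2, by have := (Nat.pow_le_pow_iff_right (by norm_num : 1 < 11)).1 (show 11 ^ 2 ≤ 11 ^ e from h1); omega⟩
  obtain ⟨R, hRn, -, hR⟩ := PGroup.exists_normal_le_card_eq hT.pgroup ⊤ e
    (by rw [card_top, he]; exact Nat.pow_le_pow_right (by norm_num) (by omega))
  have hq : Nat.card (T ⧸ R) = 11 ^ 2 := by
    have := R.card_mul_index
    rw [hR, he, pow_add] at this
    exact Nat.eq_of_mul_eq_mul_left (by positivity) this
  letI : CommGroup (T ⧸ R) := { mul_comm := (IsPGroup.isMulCommutative_of_card_eq_prime_sq hq).is_comm.comm }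
  have hkR : (⟨k, hk⟩ : T) ∉ R := fun hkR => by
    have h2 := h.b4_class hB hC
    have h3 := b4_sub (D := R.map T.subtype) (S := {y : G | ∃ g ∈ T, y = g * k * g⁻¹}) (by
      rintro _ ⟨g, hg, rfl⟩
      exact ⟨⟨_, hRn.conj_mem _ hkR ⟨g, hg⟩, rfl⟩, by simpa using hB.ne_one⟩)
    rw [card_map_of_injective T.subtype_injective, hR] at h3
    rw [he, pow_add] at h2
    omega
  have h2 := SylTools.transfer_eq_pow_of_ctrl (QuotientGroup.mk' R) ⟨k, hk⟩ fun m g hg => by
    rw [← map_pow]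
    by_cases hm : 11 ∣ m
    · have : k ^ m = 1 := orderOf_dvd_iff_pow_eq_one.1 (h.bad_ord hB ▸ hm)
      congr 1
      exact Subtype.ext (by simp [this])
    obtain ⟨t, ht, e⟩ := h.bad_fus hB ho hn (g := g⁻¹) hT' hk (SylTools.mem_of_pow_mem_of_coprime (n := m)
      (by rw [orderOf_conj_eq, h.bad_ord hB]; exact (Nat.Prime.coprime_iff_not_dvd Fact.out).2 hm)
      (by rwa [conj_pow, inv_inv]))
    rw [show (⟨_, hg⟩ : T) = ⟨t, ht⟩ * ⟨k, hk⟩ ^ m * ⟨t, ht⟩⁻¹ from Subtype.ext (by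
      have := congrArg (· ^ m) e
      simp only [conj_pow] at this
      rwa [inv_inv] at this), map_mul, map_mul, map_inv, mul_inv_cancel_comm]
  rcases (MonoidHom.transfer (QuotientGroup.mk' R)).normal_ker.eq_bot_or_eq_top with e | e
  · exact hx1 (h.eq_one_of_Kb hB.ne (mem_sup_left hx) fun y _ =>
      (MonoidHom.ker_eq_bot_iff _).1 e (by rw [map_mul, map_mul, mul_comm]))
  · rw [MonoidHom.mem_ker.1 (e ▸ mem_top _), eq_comm, ← map_pow, QuotientGroup.mk'_apply,
      QuotientGroup.eq_one_iff] at h2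
    refine hkR (SylTools.mem_of_pow_mem_of_coprime ?_ h2)
    rw [orderOf_mk, h.bad_ord hB, ← relIndex_top_right]
    exact (Nat.Prime.coprime_iff_not_dvd Fact.out).2 hT.not_dvd

end AL

end CfsgLib.P11
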