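import Cfsg.Agent.Lib.P11.Defs
import Cfsg.Agent.Lib.HKS.KS0a
import Cfsg.Agent.Lib.W2.Tools

/-! Package BLK: blocks; lines.  See `plans/P11.md`. -/

set_option autoImplicit false
set_option linter.unusedSectionVars false
set_option linter.style.haveILetI false

namespace CfsgLib.P11

open Subgroup Cfsg MulAction CfsgLib.Tech

universe u

variable {G : Type u} [Group G] [Finite G] {Ω : Type u} [MulAction G Ω] {P : Ω → Subgroup G}
  {a b c d : Ω} {g x k : G}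

theorem blk_normal {X N : Subgroup G} (hX : IsSimpleGroup X) (h1 : N ≤ X)
    (h2 : ∀ g ∈ X, ∀ x ∈ N, g * x * g⁻¹ ∈ N) : N = ⊥ ∨ N = X := by
  have : (N.subgroupOf X).Normal := ⟨fun x hx g => h2 g g.2 x hx⟩
  refine this.eq_bot_or_eq_top.imp (fun e => ?_) fun e => le_antisymm h1 (subgroupOf_eq_top.1 e)
  rw [← inf_eq_left.2 h1, (subgroupOf_eq_bot.1 e).eq_bot]

/-- Burnside's transfer theorem in a simple subgroup -/
theorem burnside_simple {p : ℕ} [Fact p.Prime] {X S : Subgroup G} (hX : IsSimpleGroup X)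
    (hS : IsSylowIn p S X) (h1 : S ≠ ⊥) (h2 : S ≠ X) :
    ∃ n ∈ X, n ∈ normalizer (S : Set G) ∧ ∃ s ∈ S, n * s ≠ s * n := by
  by_contra! hc
  obtain ⟨R, N, hN, hR⟩ := W2.npc_of_burnside hS hc
  have e := hS.card_eq (IsSylowIn.of_sylow_subgroup R)
  rcases hN.eq_bot_or_eq_top with rfl | rfl
  · rw [isComplement'_bot_left.1 hR, ← MonoidHom.range_eq_map, range_subtype] at e
    exact h2 (eq_of_le_of_card_ge hS.le e.ge)
  · rw [isComplement'_top_left.1 hR, Subgroup.map_bot, card_bot] at e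
    exact h1 (card_eq_one.1 e)

namespace Pts

variable (h : Pts P)
include h

theorem blk_simple (hab : a ≠ b) : IsSimpleGroup ↥(P a ⊔ P b) := (h.pair a b hab).elim (·.simple) (·.simple)

theorem blk_card (hab : a ≠ b) : Nat.card ↥(P a ⊔ P b) = 660 ∨ Nat.card ↥(P a ⊔ P b) = 175560 :=
  (h.pair a b hab).imp (·.card) (·.card)

/-- a block has trivial centre -/
theorem eq_one_of_Kb (hab : a ≠ b) (hg : g ∈ P a ⊔ P b) (hk : g ∈ Kb P a b) : g = 1 := by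
  rcases blk_normal (h.blk_simple hab) (N := (P a ⊔ P b) ⊓ Kb P a b) inf_le_left (fun m hm y hy => by
    rwa [hy.2 m hm, mul_inv_cancel_right]) with e | e
  · exact e.le ⟨hg, hk⟩
  have h1 := h.blk_card hab
  have h2 := h.card a
  rcases blk_normal (h.blk_simple hab) (N := P a) le_sup_left (fun m hm y hy => by
    rwa [← (e.ge hm).2 y (mem_sup_left hy), mul_inv_cancel_right]) with e | e
  · rw [e, card_bot] at h2
    omega
  · rw [← e] at h1
    omega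

theorem semi (hx : x ∈ P a) (h1 : x ≠ 1) (e : x • b = b) : b = a := by
  by_contra e1
  exact h1 (h.eq_one_of_Kb (Ne.symm e1) (mem_sup_left hx) (mem_Kb.2 ⟨fun _ hy => h.comm hy hx,
    (h.lam_eq_one_iff e).1 (h.lam_of_eleven e (k := 1) (h.pow_eq hx))⟩))

theorem sylow (hab : a ≠ b) (hc : P c ≤ P a ⊔ P b) : IsSylowIn 11 (P c) (P a ⊔ P b) := by
  refine ⟨hc, IsPGroup.of_card (n := 1) (h.card c), fun e => ?_⟩
  have h1 := card_mul_relIndex' hc
  have h2 := h.blk_card hab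
  rw [h.card] at h1
  omega

theorem exists_smul (hab : a ≠ b) (hc : P c ≤ P a ⊔ P b) (hd : P d ≤ P a ⊔ P b) :
    ∃ g ∈ P a ⊔ P b, g • c = d := by
  haveI : Fact (Nat.Prime 11) := ⟨by norm_num⟩
  obtain ⟨g, hg, e⟩ := (h.sylow hab hc).exists_cj_eq (h.sylow hab hd)
  exact ⟨g, hg, h.smul_eq_iff.2 e⟩

theorem trans (c d : Ω) : ∃ g : G, g • c = d := by
  by_cases e : c = d
  · exact ⟨1, by rw [one_smul, e]⟩
  obtain ⟨g, -, hg⟩ := h.exists_smul e le_sup_left le_sup_right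
  exact ⟨g, hg⟩

theorem exists_pt (hab : a ≠ b) (hx : x ∈ P a ⊔ P b) (h11 : x ^ 11 = 1) :
    ∃ c, P c ≤ P a ⊔ P b ∧ x ∈ P c := by
  haveI : Fact (Nat.Prime 11) := ⟨by norm_num⟩
  obtain ⟨g, hg, e⟩ := (h.sylow hab le_sup_left).exists_conj_mem hx (isPGroup_zpowers_of_pow (k := 1) h11)
  refine ⟨g⁻¹ • a, ?_, by simpa [mul_assoc] using h.conj_mem g⁻¹ e⟩
  rw [h.conj, ← cj_eq_of_mem (inv_mem hg)]
  exact cj_mono _ le_sup_left

theorem cj_blk (g : G) (a b : Ω) : cj g (P a ⊔ P b) = P (g • a) ⊔ P (g • b) := by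
  rw [cj_sup, h.conj, h.conj]

theorem isL_smul (g : G) (hL : IsL ↥(P a ⊔ P b)) : IsL ↥(P (g • a) ⊔ P (g • b)) := by
  rw [← h.cj_blk]; exact hL.congr (cjEquiv g _)

theorem isJ_smul (g : G) (hJ : IsJ ↥(P a ⊔ P b)) : IsJ ↥(P (g • a) ⊔ P (g • b)) := by
  rw [← h.cj_blk]; exact hJ.congr (cjEquiv g _)

theorem conj_Cp (g : G) (hk : k ∈ Cp P a) : g * k * g⁻¹ ∈ Cp P (g • a) := by
  rw [Cp, h.conj, ← cj_centralizer]; exact conj_mem_cj.2 hk

theorem conj_Kb (g : G) (hk : k ∈ Kb P a b) : g * k * g⁻¹ ∈ Kb P (g • a) (g • b) := by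
  rw [Kb, ← h.cj_blk, ← cj_centralizer]; exact conj_mem_cj.2 hk

theorem smul_le_iff (g : G) : P (g • c) ≤ P (g • a) ⊔ P (g • b) ↔ P c ≤ P a ⊔ P b := by
  rw [← h.cj_blk, h.conj, cj_le_cj_iff]

theorem smul_le {X : Subgroup G} (hg : g ∈ normalizer (X : Set G)) (hc : P c ≤ X) : P (g • c) ≤ X := by
  rw [h.conj, ← mem_normalizer_iff_cj.1 hg]; exact cj_mono _ hc

theorem smul_le' {X : Subgroup G} (hg : g ∈ X) (hc : P c ≤ X) : P (g • c) ≤ X := by
  exact h.smul_le (le_normalizer hg) hc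

theorem blk_orbit (hab : a ≠ b) (hc : P c ≤ P a ⊔ P b) :
    {e | ∃ x ∈ P a ⊔ P b, x • c = e} = {c | P c ≤ P a ⊔ P b} :=
  Set.ext fun _ => ⟨by rintro ⟨x, hx, rfl⟩; exact h.smul_le' hx hc, h.exists_smul hab hc⟩

/-- a block acts faithfully on its points -/
theorem blk_faith (hab : a ≠ b) (hg : g ∈ P a ⊔ P b) (e : ∀ c, P c ≤ P a ⊔ P b → g • c = c) : g = 1 := by
  rcases blk_normal (h.blk_simple hab) (N := (P a ⊔ P b) ⊓ fixingSubgroup G {c | P c ≤ P a ⊔ P b}) inf_le_left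
    (fun m hm y hy => mem_inf.2 ⟨mul_mem (mul_mem hm hy.1) (inv_mem hm), (mem_fixingSubgroup_iff _).2 fun c hc => by
      rw [mul_smul, mul_smul, (mem_fixingSubgroup_iff _).1 hy.2 _ (h.smul_le' (inv_mem hm) hc), smul_inv_smul]⟩)
    with f | f
  · exact f.le ⟨hg, (mem_fixingSubgroup_iff _).2 e⟩
  obtain ⟨x, hx, x1⟩ := h.exists_ne a
  exact (hab (h.semi hx x1 ((mem_fixingSubgroup_iff _).1 (f.ge (mem_sup_left hx)).2 b
    (le_sup_right : P b ≤ _))).symm).elim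

theorem norm_of_fix (ea : g • a = a) (eb : g • b = b) :
    g ∈ normalizer ((P a ⊔ P b : Subgroup G) : Set G) := by
  rw [mem_normalizer_iff_cj, h.cj_blk, ea, eb]

theorem norm_of_swap (ea : g • a = b) (eb : g • b = a) :
    g ∈ normalizer ((P a ⊔ P b : Subgroup G) : Set G) := by
  rw [mem_normalizer_iff_cj, h.cj_blk, ea, eb, sup_comm]

theorem fix_of_Kb (hk : k ∈ Kb P a b) (hc : P c ≤ P a ⊔ P b) : k • c = c := by
  exact h.fix_of_cent fun y hy => hk y (hc hy)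

theorem fix_two (hab : a ≠ b) (ea : g • a = a) (eb : g • b = b) (h1 : lam P a g ≠ 1) (hx : x ∈ P a)
    (e : g • x • b = x • b) : x = 1 := by
  by_contra h2
  have h3 : (x⁻¹ * x ^ (lam P a g).val) • b = b := by
    rw [← h.lam_spec ea hx, mul_smul, mul_smul, mul_smul, inv_fix eb, e, inv_smul_smul]
  have h4 := by_contra fun e => hab (h.semi (mul_mem (inv_mem hx) (pow_mem hx _)) e h3).symm
  exact h1 (pow_val_inj (h.pow_eq hx) h2 ((inv_mul_eq_one.1 h4).symm.trans (pow_one x).symm))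

theorem exists_fix (ea : g • a = a) (h1 : lam P a g ≠ 1) (hx : x ∈ P a) (e : g • b = x • b) :
    ∃ z ∈ P a, g • z • b = z • b := by
  obtain ⟨y, hy, e1⟩ := h.exists_conj ea h1 (inv_mem hx)
  refine ⟨y⁻¹, inv_mem hy, ?_⟩
  rw [← mul_smul, show g * y⁻¹ = y⁻¹ * (y * g * y⁻¹) by group, e1, mul_smul, mul_smul, e, inv_smul_smul]

/-- the coset lemma -/
theorem coset (a : Ω) (i : ZMod 11) {Δ : Set Ω} (hΔ : ∀ g ∈ Cp P a, ∀ d ∈ Δ, g • d ∈ Δ)
    (h1 : ∀ d ∈ Δ, ∃ g : G, g • a = a ∧ lam P a g = i ∧ g • d = d)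
    (h2 : ∀ g : G, g • a = a → lam P a g = i → ∀ d ∈ Δ, ∀ e ∈ Δ, g • d = d → g • e = e → d = e) :
    (∀ d ∈ Δ, ∀ e ∈ Δ, ∃ g ∈ Cp P a, g • d = e) ∧
      (Δ.Nonempty → ∀ g : G, g • a = a → lam P a g = i → ∃ d ∈ Δ, g • d = d) := by
  have key : ∀ d ∈ Δ, ∀ g : G, g • a = a → lam P a g = i → ∃ c ∈ Cp P a, g • c • d = c • d := by
    intro d hd g ga gi
    obtain ⟨y, ya, yi, yd⟩ := h1 d hd
    have hs : ∀ c : Cp P a, ∃ s ∈ Cp P a, s • d = c.1 • d ∧ ∀ c' : Cp P a, c'.1 • d = c.1 • d →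
        s = Classical.epsilon fun s : G => s ∈ Cp P a ∧ s • d = c'.1 • d := fun c => by
      have := Classical.epsilon_spec (p := fun s : G => s ∈ Cp P a ∧ s • d = c.1 • d) ⟨c, c.2, rfl⟩
      exact ⟨_, this.1, this.2, fun c' e => by simp only [e]⟩
    choose s s1 s2 s3 using hs
    have f : ∀ c : Cp P a, (s c * (y * ((s c)⁻¹ * c)) * (s c)⁻¹) • a = a ∧
        lam P a (s c * (y * ((s c)⁻¹ * c)) * (s c)⁻¹) = i ∧
        (s c * (y * ((s c)⁻¹ * c)) * (s c)⁻¹) • c.1 • d = c.1 • d := fun c => by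
      have a1 := mul_mem (inv_mem (s1 c)) c.2
      have a2 := mul_fix ya (h.fix_of_cent a1)
      have a3 := h.fix_of_cent (s1 c)
      refine ⟨mul_fix (mul_fix a3 a2) (inv_fix a3), by
        rw [h.lam_conj' a2 a3, h.lam_mul ya (h.fix_of_cent a1), h.lam_cent a1, mul_one, yi], ?_⟩
      simp only [mul_smul, ← s2 c, inv_smul_smul, yd]
    obtain ⟨c, hc⟩ := Finite.surjective_of_injective (f := fun c : Cp P a =>
      (⟨_, h.cent_of_lam_eq (f c).1 ya ((f c).2.1.trans yi.symm)⟩ : Cp P a)) (fun c c' e => by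
        have e1 := mul_right_cancel (congrArg Subtype.val e)
        have e2 := h2 _ (f c).1 (f c).2.1 _ (hΔ c c.2 d hd) _ (hΔ c' c'.2 d hd) (f c).2.2 (e1 ▸ (f c').2.2)
        rw [(s3 c c rfl).trans (s3 c' c e2).symm] at e1
        exact Subtype.ext (by simpa using e1)) ⟨_, h.cent_of_lam_eq ga ya (gi.trans yi.symm)⟩
    exact ⟨c, c.2, mul_right_cancel (congrArg Subtype.val hc) ▸ (f c).2.2⟩
  refine ⟨fun d hd e he => ?_, fun ⟨d, hd⟩ g ga gi => ?_⟩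
  · obtain ⟨g, ga, gi, ge⟩ := h1 e he
    obtain ⟨c, hc, e1⟩ := key d hd g ga gi
    exact ⟨c, hc, h2 g ga gi _ (hΔ c hc d hd) e he e1 ge⟩
  · obtain ⟨c, hc, e1⟩ := key d hd g ga gi
    exact ⟨_, hΔ c hc d hd, e1⟩

variable (hab : a ≠ b) (hL : IsL ↥(P a ⊔ P b))
include hab hL

theorem L_eq (hc : P c ≤ P a ⊔ P b) (hd : P d ≤ P a ⊔ P b) (hcd : c ≠ d) : P c ⊔ P d = P a ⊔ P b := by
  have h1 := card_le_of_le (sup_le hc hd)
  have h2 := h.blk_card hcd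
  have h3 := hL.card
  exact eq_of_le_of_card_ge (sup_le hc hd) (by omega)

theorem L_ncard : {c | P c ≤ P a ⊔ P b}.ncard = 12 := by
  haveI := h.finite
  obtain ⟨x, hx, x1⟩ := h.exists_ne a
  have h1 := HKS.card_eq_relIndex_mul (stabilizer G a) (P a ⊔ P b)
  obtain ⟨m, hm⟩ := card_dvd_of_le (le_inf (le_sup_left : P a ≤ P a ⊔ P b) fun y hy => h.fix hy :
    P a ≤ (P a ⊔ P b) ⊓ stabilizer G a)
  rw [← HKS.KS.ncard_orbit, h.blk_orbit hab le_sup_left, hL.card, hm, h.card] at h1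
  have h2 := HKS.KS.dvd_ncard (p := 11) (by norm_num) (h.pow_eq hx) (Φ := {c | P c ≤ P a ⊔ P b} \ {a})
    (fun c hc => ⟨h.smul_le' (mem_sup_left hx) hc.1, fun e => hc.2 ((smul_left_cancel x (e.trans (h.fix hx).symm)))⟩)
    fun c hc e => hc.2 (h.semi hx x1 e)
  have h3 := Set.ncard_sdiff_singleton_add_one (s := {c | P c ≤ P a ⊔ P b}) (a := a) (le_sup_left : P a ≤ _)
  have h4 := (Set.ncard_pos (s := {c | P c ≤ P a ⊔ P b} \ {a})).2 ⟨b, (le_sup_right : P b ≤ _), hab.symm⟩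
  generalize {c | P c ≤ P a ⊔ P b}.ncard = n at *
  have h5 : n ∣ 60 := ⟨m, by linarith⟩
  have h6 := Nat.le_of_dvd (by norm_num) h5
  interval_cases n <;> omega

theorem blk_diff : ({c | P c ≤ P a ⊔ P b} \ {a}).ncard = 11 := by
  haveI := h.finite
  rw [Set.ncard_sdiff_singleton_of_mem (show a ∈ {c | P c ≤ P a ⊔ P b} from (le_sup_left : P a ≤ _)), h.L_ncard hab hL]

theorem L_reg (hc : P c ≤ P a ⊔ P b) (hca : c ≠ a) : ∃ x ∈ P a, x • b = c := by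
  haveI := h.finite
  have h1 := HKS.card_eq_relIndex_mul (stabilizer G b) (P a)
  rw [← HKS.KS.ncard_orbit, h.card, show P a ⊓ stabilizer G b = ⊥ from eq_bot_iff.2 fun y hy =>
    by_contra fun e => hab (h.semi hy.1 e hy.2).symm, card_bot, mul_one] at h1
  exact (Set.eq_of_subset_of_ncard_le (s := {e | ∃ x ∈ P a, x • b = e}) (t := {c | P c ≤ P a ⊔ P b} \ {a}) (by
    rintro _ ⟨x, hx, rfl⟩
    exact ⟨h.smul_le' (mem_sup_left hx) le_sup_right,
      fun e => hab (smul_left_cancel x (e.trans (h.fix hx).symm)).symm⟩)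
    (by rw [h.blk_diff hab hL, h1])).ge ⟨hc, hca⟩

/-- an element centralising one point of a line and fixing another one fixes all its points -/
theorem blk_fix (ea : g ∈ Cp P a) (eb : g • b = b) (hc : P c ≤ P a ⊔ P b) : g • c = c := by
  by_cases e : c = a
  · rw [e, h.fix_of_cent ea]
  obtain ⟨x, hx, rfl⟩ := h.L_reg hab hL hc e
  rw [← mul_smul, ← ea x hx, mul_smul, eb]

theorem blk_lam (hg : g ∈ P a ⊔ P b) (eb : g • b = b) (ea : g ∈ Cp P a) : g = 1 :=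
  h.blk_faith hab hg fun _ => h.blk_fix hab hL ea eb

theorem L_card1 : Nat.card ↥((P a ⊔ P b) ⊓ stabilizer G a) = 55 := by
  haveI := h.finite
  have h1 := HKS.card_eq_relIndex_mul (stabilizer G a) (P a ⊔ P b)
  rw [← HKS.KS.ncard_orbit, h.blk_orbit hab le_sup_left, hL.card, h.L_ncard hab hL] at h1
  omega

theorem L_card2 : Nat.card ↥((P a ⊔ P b) ⊓ stabilizer G a ⊓ stabilizer G b) = 5 := by
  haveI := h.finite
  have h1 := HKS.card_eq_relIndex_mul (stabilizer G b) ((P a ⊔ P b) ⊓ stabilizer G a)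
  have h2 : {e | ∃ x ∈ (P a ⊔ P b) ⊓ stabilizer G a, x • b = e} = {c | P c ≤ P a ⊔ P b} \ {a} := by
    ext c
    constructor
    · rintro ⟨x, hx, rfl⟩
      exact ⟨h.smul_le' hx.1 le_sup_right, fun e => hab (smul_left_cancel x (e.trans hx.2.symm)).symm⟩
    · rintro ⟨h2, h3⟩
      obtain ⟨x, hx, e⟩ := h.L_reg hab hL h2 h3
      exact ⟨x, ⟨mem_sup_left hx, h.fix hx⟩, e⟩
  rw [← HKS.KS.ncard_orbit, h2, h.blk_diff hab hL, h.L_card1 hab hL] at h1
  omega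

theorem L_y {i : ZMod 11} (hi : i ^ 5 = 1) :
    ∃ y ∈ P a ⊔ P b, y • a = a ∧ y • b = b ∧ y ^ 5 = 1 ∧ lam P a y = i := by
  have h1 := h.L_card2 hab hL
  obtain ⟨y, hy⟩ := ne_bot_iff_exists_ne_one.1 ((one_lt_card_iff_ne_bot _).1 ((by norm_num : 1 < 5).trans_eq h1.symm))
  have h2 : (y : G) ^ 5 = 1 := by rw [← h1]; exact congrArg Subtype.val (pow_card_eq_one' (x := y))
  have h3 : ∀ l i : ZMod 11, l ^ 5 = 1 → l ≠ 1 → i ^ 5 = 1 → ∃ k : Fin 5, l ^ k.val = i := by decide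
  obtain ⟨k, hk⟩ := h3 _ i (h.lam_of_pow y.2.1.2 h2)
    (fun e => hy (Subtype.ext (h.blk_lam hab hL y.2.1.1 y.2.2 ((h.lam_eq_one_iff y.2.1.2).1 e)))) hi
  exact ⟨y ^ k.val, pow_mem y.2.1.1 _, pow_fix y.2.1.2 _, pow_fix y.2.2 _, by rw [← pow_mul, mul_comm, pow_mul, h2,
    one_pow], by rw [h.lam_pow y.2.1.2, hk]⟩

theorem L_two (hc : P c ≤ P a ⊔ P b) (hd : P d ≤ P a ⊔ P b) (hcd : c ≠ d) :
    ∃ m ∈ P a ⊔ P b, m • c = a ∧ m • d = b := by
  obtain ⟨m, hm, e⟩ := h.exists_smul hab hc le_sup_left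
  obtain ⟨x, hx, e1⟩ := h.L_reg hab hL (h.smul_le' hm hd) fun f => hcd (smul_left_cancel m (e.trans f.symm))
  exact ⟨x⁻¹ * m, mul_mem (inv_mem (mem_sup_left hx)) hm, by rw [mul_smul, e, inv_fix (h.fix hx)],
    by rw [mul_smul, ← e1, inv_smul_smul]⟩

/-- an element of a line fixing one of its points has order dividing `55` -/
theorem L_pow (hg : g ∈ P a ⊔ P b) (hc : P c ≤ P a ⊔ P b) (e : g • c = c) : g ^ 55 = 1 := by
  obtain ⟨m, hm, e1⟩ := h.exists_smul hab hc le_sup_left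
  have h1 : m * g * m⁻¹ ∈ (P a ⊔ P b) ⊓ stabilizer G a := mem_inf.2 ⟨mul_mem (mul_mem hm hg) (inv_mem hm), by
    change _ • a = a
    rw [← e1, mul_smul, mul_smul, inv_smul_smul, e]⟩
  have h2 := congrArg Subtype.val (pow_card_eq_one' (x := (⟨_, h1⟩ : ((P a ⊔ P b) ⊓ stabilizer G a : Subgroup G))))
  rw [h.L_card1 hab hL] at h2
  simpa using h2

/-- an element of order five fixes two points with nontrivial multiplier -/
theorem L_five (hg : g ∈ P a ⊔ P b) (ho : orderOf g = 5) : ∃ c d, c ≠ d ∧ P c ≤ P a ⊔ P b ∧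
    P d ≤ P a ⊔ P b ∧ g • c = c ∧ g • d = d ∧ lam P c g ^ 2 ≠ 1 := by
  haveI : Fact (Nat.Prime 5) := ⟨by norm_num⟩
  have h1 := h.L_card2 hab hL
  have h2 : (P a ⊔ P b) ⊓ stabilizer G a ⊓ stabilizer G b ≤ P a ⊔ P b := inf_le_left.trans inf_le_left
  have h3 := card_mul_relIndex' h2
  rw [h1, hL.card] at h3
  obtain ⟨m, hm, ⟨e1, e2⟩, e3⟩ := IsSylowIn.exists_conj_mem ⟨h2, IsPGroup.of_card (p := 5) (n := 1) h1, by omega⟩ hg
    (isPGroup_zpowers_iff.2 ⟨1, ho⟩)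
  have k : ∀ c : Ω, (m * g * m⁻¹) • c = c → g • m⁻¹ • c = m⁻¹ • c := fun c e => by
    rw [eq_inv_smul_iff, ← mul_smul, ← mul_smul, e]
  refine ⟨m⁻¹ • a, m⁻¹ • b, fun e => hab (smul_left_cancel _ e), h.smul_le' (inv_mem hm) le_sup_left,
    h.smul_le' (inv_mem hm) le_sup_right, k a e2, k b e3, ?_⟩
  have h4 : ∀ l : ZMod 11, l ^ 5 = 1 → l ≠ 1 → l ^ 2 ≠ 1 := by decide
  refine h4 _ (h.lam_of_pow (k a e2) (ho ▸ pow_orderOf_eq_one g)) fun e => ?_
  rw [← h.lam_conj m (k a e2), smul_inv_smul] at e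
  have h5 := h.blk_lam hab hL e1 e3 ((h.lam_eq_one_iff e2).1 e)
  rw [conj_eq_one_iff.1 h5, orderOf_one] at ho
  omega

end Pts

end CfsgLib.P11
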