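import Mathlib
import Cfsg.Prelude.Def_Spor_J1
import Cfsg.Agent.Lib.Tech.SylowIn
import Cfsg.Agent.Lib.Tech.Invol

/-!
Classes of subgroups of order 11 any two of which generate `L₂(11)` or `J₁`: points, multipliers.
-/

set_option autoImplicit false
set_option linter.unusedSectionVars false

namespace CfsgLib.P11

open Subgroup Cfsg MulAction CfsgLib.Tech

universe u

/-- simple of order 660 -/
structure IsL (X : Type*) [Group X] : Prop where
  simple : IsSimpleGroup X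
  card : Nat.card X = 660

/-- the properties of `J₁` that are used -/
structure IsJ (X : Type*) [Group X] : Prop where
  simple : IsSimpleGroup X
  card : Nat.card X = 175560
  ord : ∀ x : X, orderOf x ∈ [1, 2, 3, 5, 6, 7, 10, 11, 15, 19]
  inner : ∀ α : MulAut X, ∃ j, ∀ x, α x = j * x * j⁻¹
  one : ∀ s t : X, orderOf s = 2 → orderOf t = 2 → IsConj s t
  aut : ∃ g c : X, g ^ 11 = 1 ∧ g ≠ 1 ∧ c * g = g ^ 8 * c

theorem IsL.congr {X Y : Type*} [Group X] [Group Y] (h : IsL X) (e : X ≃* Y) : IsL Y :=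
  haveI := h.simple
  ⟨e.symm.isSimpleGroup, (Nat.card_congr e.toEquiv).symm.trans h.card⟩

theorem IsJ.congr {X Y : Type*} [Group X] [Group Y] (h : IsJ X) (e : X ≃* Y) : IsJ Y := by
  haveI := h.simple
  refine ⟨e.symm.isSimpleGroup, (Nat.card_congr e.toEquiv).symm.trans h.card, fun x => ?_, fun α => ?_,
    fun s t hs ht => ?_, ?_⟩
  · rw [← e.symm.orderOf_eq]; exact h.ord _
  · obtain ⟨j, hj⟩ := h.inner (MulAut.congr e.symm α)
    refine ⟨e j, fun x => ?_⟩
    have := congrArg e (hj (e.symm x))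
    simpa using this
  · simpa using e.toMonoidHom.map_isConj (h.one (e.symm s) (e.symm t) (by rwa [e.symm.orderOf_eq])
      (by rwa [e.symm.orderOf_eq]))
  · obtain ⟨g, c, h1, h2, h3⟩ := h.aut
    exact ⟨e g, e c, by rw [← map_pow, h1, map_one], fun h4 => h2 (e.map_eq_one_iff.1 h4),
      by rw [← map_mul, h3, map_mul, map_pow]⟩

variable {G : Type u} [Group G] [Finite G] {Ω : Type u} [MulAction G Ω]

/-- the points -/
structure Pts (P : Ω → Subgroup G) : Prop where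
  card : ∀ c, Nat.card (P c) = 11
  conj : ∀ (g : G) (c : Ω), P (g • c) = cj g (P c)
  inj : Function.Injective P
  pair : ∀ c d, c ≠ d → IsL ↥(P c ⊔ P d) ∨ IsJ ↥(P c ⊔ P d)

theorem pow_val_mul {x : G} (hx : x ^ 11 = 1) (i j : ZMod 11) :
    (x ^ i.val) ^ j.val = x ^ (i * j).val := by
  rw [← pow_mul, ZMod.val_mul, ← pow_eq_pow_mod _ hx]

theorem pow_val_add {x : G} (hx : x ^ 11 = 1) (i j : ZMod 11) :
    x ^ i.val * x ^ j.val = x ^ (i + j).val := by
  rw [← pow_add, ZMod.val_add, ← pow_eq_pow_mod _ hx]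

theorem pow_val_inj {x : G} (hx : x ^ 11 = 1) (h1 : x ≠ 1) {i j : ZMod 11}
    (h : x ^ i.val = x ^ j.val) : i = j := by
  haveI : Fact (Nat.Prime 11) := ⟨by norm_num⟩
  have ho : orderOf x = 11 := orderOf_eq_prime hx h1
  rw [pow_inj_mod, ho, Nat.mod_eq_of_lt i.val_lt, Nat.mod_eq_of_lt j.val_lt] at h
  exact ZMod.val_injective _ h

open Classical in
/-- the multiplier of `g` on the point `c` -/
noncomputable def lam (P : Ω → Subgroup G) (c : Ω) (g : G) : ZMod 11 :=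
  if h : ∃ i : ZMod 11, ∀ x ∈ P c, g * x * g⁻¹ = x ^ i.val then h.choose else 0

namespace Pts

variable {P : Ω → Subgroup G} (h : Pts P) {a b c d : Ω} {g g' x : G}
include h

theorem finite : Finite Ω := Finite.of_injective P h.inj

theorem pow_eq (hx : x ∈ P c) : x ^ 11 = 1 := by
  rw [← h.card c]; exact congrArg Subtype.val (pow_card_eq_one' (x := (⟨x, hx⟩ : P c)))

theorem orderOf_eq (hx : x ∈ P c) (h1 : x ≠ 1) : orderOf x = 11 :=
  haveI : Fact (Nat.Prime 11) := ⟨by norm_num⟩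
  orderOf_eq_prime (h.pow_eq hx) h1

theorem zpowers_eq (hx : x ∈ P c) (h1 : x ≠ 1) : zpowers x = P c :=
  eq_of_le_of_card_ge (zpowers_le.2 hx) (by rw [h.card, Nat.card_zpowers, h.orderOf_eq hx h1])

theorem exists_ne (c : Ω) : ∃ x ∈ P c, x ≠ 1 := by
  obtain ⟨x, hx⟩ := ne_bot_iff_exists_ne_one.1 ((one_lt_card_iff_ne_bot (P c)).1 (by rw [h.card]; norm_num))
  exact ⟨x, x.2, fun e => hx (Subtype.ext e)⟩

theorem exists_val {y : G} (hx : x ∈ P c) (h1 : x ≠ 1) (hy : y ∈ P c) : ∃ i : ZMod 11, y = x ^ i.val := by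
  rw [← h.zpowers_eq hx h1, ← mem_powers_iff_mem_zpowers] at hy
  obtain ⟨n, rfl⟩ := hy
  exact ⟨n, by rw [ZMod.val_natCast, ← pow_eq_pow_mod _ (h.pow_eq hx)]⟩

theorem comm {y : G} (hx : x ∈ P c) (hy : y ∈ P c) : x * y = y * x := by
  obtain ⟨z, hz, h1⟩ := h.exists_ne c
  obtain ⟨i, rfl⟩ := h.exists_val hz h1 hx
  obtain ⟨j, rfl⟩ := h.exists_val hz h1 hy
  exact (Commute.pow_pow_self _ _ _).eq

theorem conj_mem (g : G) (hx : x ∈ P c) : g * x * g⁻¹ ∈ P (g • c) := by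
  rw [h.conj]; exact conj_mem_cj.2 hx

theorem conj_mem' (e : g • c = d) (hx : x ∈ P c) : g * x * g⁻¹ ∈ P d := e ▸ h.conj_mem g hx

theorem eq_of_mem (hc : x ∈ P c) (hd : x ∈ P d) (h1 : x ≠ 1) : c = d :=
  h.inj ((h.zpowers_eq hc h1).symm.trans (h.zpowers_eq hd h1))

theorem smul_eq_of (hx : x ∈ P c) (h1 : x ≠ 1) (e : g * x * g⁻¹ ∈ P d) : g • c = d :=
  h.eq_of_mem (h.conj_mem g hx) e (by simpa using h1)

theorem smul_eq_iff : g • c = d ↔ cj g (P c) = P d := by rw [← h.conj, h.inj.eq_iff]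

theorem fix (hx : x ∈ P c) : x • c = c := h.smul_eq_iff.2 (cj_eq_of_mem hx)

theorem fix_iff : g • c = c ↔ g ∈ normalizer (P c : Set G) := by
  rw [h.smul_eq_iff, mem_normalizer_iff_cj]

theorem lam_spec (e : g • c = c) (hx : x ∈ P c) : g * x * g⁻¹ = x ^ (lam P c g).val := by
  have : ∃ i : ZMod 11, ∀ x ∈ P c, g * x * g⁻¹ = x ^ i.val := by
    obtain ⟨z, hz, h1⟩ := h.exists_ne c
    obtain ⟨i, hi⟩ := h.exists_val hz h1 (h.conj_mem' e hz)
    refine ⟨i, fun y hy => ?_⟩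
    obtain ⟨j, rfl⟩ := h.exists_val hz h1 hy
    rw [← conj_pow, hi, ← pow_mul, ← pow_mul, mul_comm]
  rw [lam, dif_pos this]
  exact this.choose_spec x hx

theorem lam_eq (hx : x ∈ P c) (h1 : x ≠ 1) {i : ZMod 11} (e : g * x * g⁻¹ = x ^ i.val) :
    g • c = c ∧ lam P c g = i := by
  have h2 : g • c = c := h.smul_eq_of hx h1 (e ▸ pow_mem hx _)
  exact ⟨h2, pow_val_inj (h.pow_eq hx) h1 ((h.lam_spec h2 hx).symm.trans e)⟩

theorem lam_mul (e : g • c = c) (e' : g' • c = c) : lam P c (g * g') = lam P c g * lam P c g' := by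
  obtain ⟨z, hz, h1⟩ := h.exists_ne c
  refine (h.lam_eq hz h1 ?_).2
  rw [← pow_val_mul (h.pow_eq hz), ← h.lam_spec e hz, conj_pow, ← h.lam_spec e' hz]
  group

theorem lam_eq_one_iff (e : g • c = c) : lam P c g = 1 ↔ g ∈ centralizer (P c : Set G) := by
  have hv : (1 : ZMod 11).val = 1 := rfl
  constructor
  · intro h1 x hx
    have := h.lam_spec e hx
    rw [h1, hv, pow_one, mul_inv_eq_iff_eq_mul] at this
    exact this.symm
  · intro h1
    obtain ⟨z, hz, h2⟩ := h.exists_ne c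
    exact (h.lam_eq hz h2 (by rw [hv, pow_one, ← h1 z hz, mul_inv_cancel_right])).2

theorem fix_of_cent (hg : g ∈ centralizer (P c : Set G)) : g • c = c :=
  h.fix_iff.2 (centralizer_le_normalizer _ hg)

theorem lam_cent (hg : g ∈ centralizer (P c : Set G)) : lam P c g = 1 :=
  (h.lam_eq_one_iff (h.fix_of_cent hg)).2 hg

theorem lam_one : lam P c (1 : G) = 1 := h.lam_cent (one_mem _)

theorem lam_self (hx : x ∈ P c) : lam P c x = 1 := h.lam_cent fun _ hy => h.comm hy hx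

omit h in
theorem pow_fix (e : g • c = c) (n : ℕ) : g ^ n • c = c :=
  (pow_mem (show g ∈ stabilizer G c from e) n : g ^ n ∈ stabilizer G c)

omit h in
theorem mul_fix (e : g • c = c) (e' : g' • c = c) : (g * g') • c = c := by rw [mul_smul, e', e]

omit h in
theorem inv_fix (e : g • c = c) : g⁻¹ • c = c := inv_smul_eq_iff.2 e.symm

theorem lam_pow (e : g • c = c) (n : ℕ) : lam P c (g ^ n) = lam P c g ^ n := by
  induction n with
  | zero => rw [pow_zero, pow_zero, h.lam_one]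
  | succ n ih => rw [pow_succ, h.lam_mul (pow_fix e n) e, ih, pow_succ]

theorem lam_inv (e : g • c = c) : lam P c g⁻¹ * lam P c g = 1 := by
  rw [← h.lam_mul (inv_fix e) e, inv_mul_cancel, h.lam_one]

theorem lam_ne (e : g • c = c) : lam P c g ≠ 0 := fun h0 => by
  have := h.lam_inv e
  rw [h0, mul_zero] at this
  exact absurd this (by decide)

theorem lam_ten (e : g • c = c) : lam P c g ^ 10 = 1 := by
  have := h.lam_ne e
  revert this
  generalize lam P c g = i
  revert i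
  decide

theorem lam_conj (k : G) (e : g • c = c) : lam P (k • c) (k * g * k⁻¹) = lam P c g := by
  obtain ⟨z, hz, h1⟩ := h.exists_ne c
  refine (h.lam_eq (h.conj_mem k hz) (by simpa using h1) ?_).2
  rw [conj_pow, ← h.lam_spec e hz]
  group

theorem lam_conj' {k : G} (e : g • c = c) (e' : k • c = c) : lam P c (k * g * k⁻¹) = lam P c g := by
  have := h.lam_conj k e
  rwa [e'] at this

/-- equal multipliers -/
theorem cent_of_lam_eq (e : g • c = c) (e' : g' • c = c) (h1 : lam P c g = lam P c g') :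
    g * g'⁻¹ ∈ centralizer (P c : Set G) := by
  rw [← h.lam_eq_one_iff (mul_fix e (inv_fix e')), h.lam_mul e (inv_fix e'), h1, mul_comm, h.lam_inv e']

theorem lam_of_pow (e : g • c = c) {n : ℕ} (hn : g ^ n = 1) : lam P c g ^ n = 1 := by
  rw [← h.lam_pow e, hn, h.lam_one]

theorem lam_of_eleven (e : g • c = c) {k : ℕ} (hn : g ^ 11 ^ k = 1) : lam P c g = 1 := by
  have h1 := h.lam_of_pow e hn
  haveI : Fact (Nat.Prime 11) := ⟨by norm_num⟩
  rwa [ZMod.pow_card_pow] at h1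

/-- the elements of a coset of `P c` with multiplier `≠ 1` are conjugate under `P c` -/
theorem exists_conj (e : g • c = c) (h1 : lam P c g ≠ 1) (hx : x ∈ P c) :
    ∃ y ∈ P c, y * g * y⁻¹ = x * g := by
  haveI : Fact (Nat.Prime 11) := ⟨by norm_num⟩
  obtain ⟨i, hi⟩ : ∃ i : ZMod 11, i * (1 - lam P c g) = 1 :=
    ⟨_, inv_mul_cancel₀ (sub_ne_zero.2 h1.symm)⟩
  refine ⟨x ^ i.val, pow_mem hx _, ?_⟩
  have h2 := h.lam_spec e (pow_mem hx i.val)
  have h3 : x ^ i.val = x * (x ^ i.val) ^ (lam P c g).val := by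
    have hv : (1 : ZMod 11).val = 1 := rfl
    rw [pow_val_mul (h.pow_eq hx)]
    nth_rewrite 2 [← pow_one x]
    rw [← hv, pow_val_add (h.pow_eq hx)]
    congr 2
    linear_combination hi
  calc x ^ i.val * g * (x ^ i.val)⁻¹ = x ^ i.val * (g * x ^ i.val * g⁻¹)⁻¹ * g := by group
    _ = _ := by rw [h2]; nth_rewrite 1 [h3]; group

end Pts

/-- the centraliser of a point -/
abbrev Cp (P : Ω → Subgroup G) (a : Ω) : Subgroup G := centralizer (P a : Set G)

/-- the centraliser of the block through two points -/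
abbrev Kb (P : Ω → Subgroup G) (a b : Ω) : Subgroup G :=
  centralizer ((P a ⊔ P b : Subgroup G) : Set G)

/-- a generator of the multiplicative group (for `i ≠ 0`) -/
def Prim (i : ZMod 11) : Prop := i ^ 2 ≠ 1 ∧ i ^ 5 ≠ 1

/-- a minimal counterexample -/
structure MC (P : Ω → Subgroup G) : Prop extends Pts P where
  simple : IsSimpleGroup G
  faith : ∀ g : G, (∀ c : Ω, g • c = c) → g = 1
  gen : ⨆ c, P c = ⊤
  nontriv : ∃ a b : Ω, a ≠ b
  proper : ∀ c d, c ≠ d → P c ⊔ P d ≠ ⊤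
  min : ∀ k : G, k ≠ 1 → ∀ a b, a ≠ b → k ∈ Cp P a → k ∈ Cp P b →
    ∃ c d, c ≠ d ∧ ∀ e, k ∈ Cp P e → P e ≤ P c ⊔ P d

/-- all blocks are lines -/
structure AL (P : Ω → Subgroup G) : Prop extends MC P where
  line : ∀ c d, c ≠ d → IsL ↥(P c ⊔ P d)

/-- the exceptional configuration -/
structure Bad (P : Ω → Subgroup G) (a b : Ω) (k : G) : Prop where
  ne : a ≠ b
  mem : k ∈ Kb P a b
  ne_one : k ≠ 1
  ex : ∃ x ∈ P a, x ≠ 1 ∧ ∃ c, c ≠ a ∧ (x * k) • c = c

theorem mem_Kb {P : Ω → Subgroup G} {a b : Ω} {g : G} : g ∈ Kb P a b ↔ g ∈ Cp P a ∧ g ∈ Cp P b := by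
  refine ⟨fun h => ⟨fun x hx => h x (mem_sup_left hx), fun x hx => h x (mem_sup_right hx)⟩, fun h => ?_⟩
  have : P a ⊔ P b ≤ centralizer ({g} : Set G) :=
    sup_le (fun x hx => mem_centralizer_singleton_iff.2 (h.1 x hx))
      fun x hx => mem_centralizer_singleton_iff.2 (h.2 x hx)
  exact fun x hx => mem_centralizer_singleton_iff.1 (this hx)

end CfsgLib.P11
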