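import Cfsg.Agent.Lib.P11.P12

/-! Package JB: points in a block of type `J₁`.  See `plans/P11.md`. -/

set_option autoImplicit false
set_option linter.unusedSectionVars false

namespace CfsgLib.P11

open Subgroup Cfsg MulAction CfsgLib.Tech

universe u

variable {G : Type u} [Group G] [Finite G] {Ω : Type u} [MulAction G Ω] {P : Ω → Subgroup G}
  {a b c d : Ω} {g x k : G}

namespace Pts

variable (h : Pts P) (hab : a ≠ b) (hJ : IsJ ↥(P a ⊔ P b)) {w : G}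
include h hab hJ

theorem J_omega (hc : P c ≤ P a ⊔ P b) {i : ZMod 11} (hi : i ≠ 0) :
    ∃ w ∈ P a ⊔ P b, w • c = c ∧ lam P c w = i := by
  obtain ⟨g, w, h1, h2, h3⟩ := hJ.aut
  obtain ⟨e, he, hg⟩ := h.exists_pt hab g.2 (congrArg Subtype.val h1)
  obtain ⟨e1, e2⟩ := h.lam_eq (g := w) (i := 8) hg (fun e => h2 (Subtype.ext e))
    (mul_inv_eq_iff_eq_mul.2 (congrArg Subtype.val h3))
  obtain ⟨m, hm, rfl⟩ := h.exists_smul hab he hc
  have e3 : (m * w * m⁻¹) • m • e = m • e := by rw [mul_smul, inv_smul_smul, mul_smul, e1]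
  obtain ⟨n, rfl⟩ : ∃ n : Fin 10, (8 : ZMod 11) ^ n.1 = i := by
    revert hi
    revert i
    decide
  exact ⟨(m * w * m⁻¹) ^ n.1, pow_mem (mul_mem (mul_mem hm w.2) (inv_mem hm)) _, pow_fix e3 _,
    by rw [h.lam_pow e3, h.lam_conj m e1, e2]⟩

theorem J_ord (hc : P c ≤ P a ⊔ P b) (hw : w ∈ P a ⊔ P b) (e : w • c = c) (hp : Prim (lam P c w)) :
    orderOf w = 10 := by
  have _ := hc
  have h1 := hJ.ord ⟨w, hw⟩
  rw [orderOf_mk] at h1
  have h2 := h.lam_of_pow e (pow_orderOf_eq_one w)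
  have h3 := h.lam_ne e
  obtain ⟨h4, h5⟩ := hp
  generalize lam P c w = i at h2 h3 h4 h5
  generalize orderOf w = n at h1 h2
  revert h2
  revert n
  revert i
  decide

theorem J_prim (hc : P c ≤ P a ⊔ P b) (hw : w ∈ P a ⊔ P b) (e : w • c = c) (ho : orderOf w = 10) :
    Prim (lam P c w) := by
  have key : ∀ n, lam P c w ^ n = 1 → 10 ∣ n * 11 := fun n hn => by
    rw [← ho, orderOf_dvd_iff_pow_eq_one, pow_mul]
    exact h.pow_eq (h.J_cent hab hJ hc (pow_mem hw n)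
      ((h.lam_eq_one_iff (pow_fix e n)).1 (by rw [h.lam_pow e, hn])))
  exact ⟨fun h1 => absurd (key 2 h1) (by decide), fun h1 => absurd (key 5 h1) (by decide)⟩

theorem J_ten (hw : w ∈ P a ⊔ P b) (ho : orderOf w = 10) :
    ∃ c d, c ≠ d ∧ P c ≤ P a ⊔ P b ∧ P d ≤ P a ⊔ P b ∧ w • c = c ∧ w • d = d := by
  obtain ⟨v, hv, ea, hl⟩ := h.J_omega hab hJ le_sup_left (i := 2) (by decide)
  have ov : orderOf (⟨v, hv⟩ : ↥(P a ⊔ P b)) = 10 := by
    rw [orderOf_mk]; exact h.J_ord hab hJ le_sup_left hv ea (hl ▸ ⟨by decide, by decide⟩)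
  obtain ⟨n, hn⟩ := hJ.inv10 ov
  have hn' : (n : G) * v * (n : G)⁻¹ = v⁻¹ := congrArg Subtype.val hn
  obtain ⟨g, i, hg⟩ := hJ.conj10 ov (w' := ⟨w, hw⟩) (by rwa [orderOf_mk])
  have hg' : v ^ i = (g : G) * w * (g : G)⁻¹ := congrArg Subtype.val hg
  have fx : ∀ c : Ω, v • c = c → w • (g : G)⁻¹ • c = (g : G)⁻¹ • c := fun c hc => by
    have : v ^ i • c = c := (zpow_mem (show v ∈ stabilizer G c from hc) i : v ^ i ∈ stabilizer G c)
    rw [hg', mul_smul, mul_smul] at this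
    exact eq_inv_smul_iff.2 this
  refine ⟨_, _, fun e => ?_, h.smul_le' (inv_mem g.2) le_sup_left,
    h.smul_le' (inv_mem g.2) (h.smul_le' n.2 le_sup_left), fx a ea, fx _ ?_⟩
  · have h1 := h.lam_conj' ea (smul_left_cancel _ e).symm
    have h2 := h.lam_inv ea
    rw [← hn', h1, hl] at h2
    exact absurd h2 (by decide)
  · refine (inv_smul_eq_iff.1 ?_).symm
    rw [← hn', mul_smul, inv_smul_smul, mul_smul, ea]

theorem J_lam (hc : P c ≤ P a ⊔ P b) (hd : P d ≤ P a ⊔ P b) (hcd : c ≠ d) (hw : w ∈ P a ⊔ P b)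
    (ho : orderOf w = 10) (ec : w • c = c) (ed : w • d = d) : lam P c w * lam P d w = 1 := by
  obtain ⟨g, hg, rfl⟩ := h.exists_smul hab hc hd
  have e1 : (g⁻¹ * w * g) • c = c := by rw [mul_smul, mul_smul, ed, inv_smul_smul]
  have e2 : lam P (g • c) w = lam P c (g⁻¹ * w * g) := by
    rw [← h.lam_conj g e1]; congr 1; group
  obtain ⟨i, hi, hi1⟩ : ∃ i : Fin 10, lam P c w ^ i.1 = lam P (g • c) w ∧ lam P c w ^ i.1 ≠ 1 := by
    obtain ⟨h1, h2⟩ := h.J_prim hab hJ hc hw ec ho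
    obtain ⟨h3, -⟩ := h.J_prim hab hJ hd hw ed ho
    have h4 := h.lam_ne ec
    have h5 := h.lam_ne ed
    generalize lam P c w = i at h1 h2 h4 ⊢
    generalize lam P (g • c) w = j at h3 h5 ⊢
    revert i j
    decide
  obtain ⟨y, hy, e3⟩ := h.exists_conj (pow_fix ec i) (by rwa [h.lam_pow ec])
    (h.J_cent hab hJ hc (mul_mem (mul_mem (mul_mem (inv_mem hg) hw) hg) (inv_mem (pow_mem hw i)))
      (h.cent_of_lam_eq e1 (pow_fix ec i) (by rw [h.lam_pow ec, hi, e2])))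
  rw [inv_mul_cancel_right] at e3
  have hn : (g * y)⁻¹ ∈ P a ⊔ P b := inv_mem (mul_mem hg (hc hy))
  have e4 : (g * y)⁻¹ * w * (g * y)⁻¹⁻¹ = w ^ i.1 := by
    rw [show w ^ i.1 = y⁻¹ * (y * w ^ i.1 * y⁻¹) * y by group, e3]
    group
  have ow : orderOf (⟨w, hw⟩ : ↥(P a ⊔ P b)) = 10 := by rwa [orderOf_mk]
  rcases hJ.norm10 ow (g := ⟨_, hn⟩) ⟨i.1, Subtype.ext (by simpa using e4.symm)⟩ with e | e
  · obtain ⟨j, hj⟩ := hJ.cent10 ow (mul_inv_eq_iff_eq_mul.1 e)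
    have h1 : w ^ j • c = c := (zpow_mem (show w ∈ stabilizer G c from ec) j : w ^ j ∈ stabilizer G c)
    rw [show w ^ j = (g * y)⁻¹ from congrArg Subtype.val hj, inv_smul_eq_iff, mul_smul, h.fix hy] at h1
    exact (hcd h1).elim
  · rw [← hi, ← h.lam_pow ec, ← e4, show (g * y)⁻¹ * w * (g * y)⁻¹⁻¹ = w⁻¹ from congrArg Subtype.val e,
      mul_comm, h.lam_inv ec]

theorem J_gen (hc : P c ≤ P a ⊔ P b) (hd : P d ≤ P a ⊔ P b) (hcd : c ≠ d) (hw : w ∈ P a ⊔ P b)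
    (ho : orderOf w = 10) (ec : w • c = c) (ed : w • d = d) : P c ⊔ P d = P a ⊔ P b := by
  rcases h.pair c d hcd with hL | h1
  swap
  · exact eq_of_le_of_card_ge (sup_le hc hd) (by rw [h1.card, hJ.card])
  exfalso
  haveI : Fact (Nat.Prime 2) := ⟨Nat.prime_two⟩
  obtain ⟨s, hs⟩ : ∃ s, s = w ^ 5 := ⟨_, rfl⟩
  have s2 : s * s = 1 := by rw [hs, ← pow_add, show 5 + 5 = orderOf w from ho.symm, pow_orderOf_eq_one]
  have sc : s • c = c := hs ▸ pow_fix ec 5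
  have sd : s • d = d := hs ▸ pow_fix ed 5
  have sl : lam P c s ≠ 1 := by rw [hs, h.lam_pow ec]; exact (h.J_prim hab hJ hc hw ec ho).2
  have hle : (P c ⊔ P d) ⊔ zpowers s ≤ P a ⊔ P b := sup_le (sup_le hc hd) (zpowers_le.2 (hs ▸ pow_mem hw 5))
  obtain ⟨T, hT, hsT⟩ := exists_isSylowIn_ge (isPGroup_two_zpowers s2)
    (le_sup_right : zpowers s ≤ (P c ⊔ P d) ⊔ zpowers s)
  have hV := hT.inf_of_le_normalizer (N := P c ⊔ P d)
    (sup_le le_normalizer (zpowers_le.2 (h.norm_of_fix sc sd)))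
  rw [inf_eq_right.2 (le_sup_left : P c ⊔ P d ≤ (P c ⊔ P d) ⊔ zpowers s)] at hV
  have c4 : Nat.card ↥(T ⊓ (P c ⊔ P d)) = 4 := by rw [hV.card_eq_pow, hL.card]; decide +kernel
  have sq : ∀ x ∈ T, x * x = 1 := fun x hx => congrArg Subtype.val
    (hJ.sq_of_two (T := T.subgroupOf _) (hT.pgroup.comap_subtype) (x := ⟨x, hle (hT.le hx)⟩) hx)
  have nf : ∀ v ∈ T ⊓ (P c ⊔ P d), v • c = c → v = 1 := fun v hv e => by
    have := h.L_pow hcd hL hv.2 le_sup_left e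
    rwa [show 55 = 2 * 27 + 1 from rfl, pow_succ, pow_mul, pow_two v, sq v hv.1, one_pow, one_mul] at this
  have mv : ∀ v ∈ T ⊓ (P c ⊔ P d), v • c = c ∨ v • c = d := fun v hv => (em _).imp_right fun e => by
    obtain ⟨x, hx, e1⟩ := h.L_reg hcd hL (h.smul_le' hv.2 le_sup_left) e
    have cm : s * v = v * s := by
      have h1 := sq _ (mul_mem (hsT (mem_zpowers s)) hv.1)
      rw [← inv_eq_of_mul_eq_one_right h1, mul_inv_rev, inv_eq_of_mul_eq_one_right s2,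
        inv_eq_of_mul_eq_one_right (sq v hv.1)]
    rw [← e1, h.fix_two hcd sc sd sl hx (by rw [e1, ← mul_smul, cm, mul_smul, sc]), one_smul]
  have : Nat.card ↥(T ⊓ (P c ⊔ P d)) ≤ Nat.card ({c, d} : Set Ω) :=
    Nat.card_le_card_of_injective (fun v => ⟨(v : G) • c, mv v v.2⟩) fun v v' e => Subtype.ext
      (inv_mul_eq_one.1 (nf _ (mul_mem (inv_mem v.2) v'.2) (by
        rw [mul_smul, ← show (v : G) • c = (v' : G) • c from congrArg Subtype.val e, inv_smul_smul])))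
  rw [c4, Nat.card_coe_set_eq, Set.ncard_pair hcd] at this
  omega

theorem J_inv (hw : w ∈ P a ⊔ P b) (ho : orderOf w = 2) :
    ∃ c, P c ≤ P a ⊔ P b ∧ w • c = c ∧ lam P c w = -1 := by
  obtain ⟨v, hv, ea, hl⟩ := h.J_omega hab hJ le_sup_left (i := 2) (by decide)
  have ov := h.J_ord hab hJ le_sup_left hv ea (hl ▸ ⟨by decide, by decide⟩)
  obtain ⟨g, hg⟩ := isConj_iff.1 (hJ.one ⟨v ^ 5, pow_mem hv 5⟩ ⟨w, hw⟩
    (by rw [orderOf_mk, orderOf_pow_of_dvd (by norm_num) (by rw [ov]; norm_num), ov]) (by rwa [orderOf_mk]))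
  have hg' : (g : G) * v ^ 5 * (g : G)⁻¹ = w := congrArg Subtype.val hg
  refine ⟨(g : G) • a, h.smul_le' g.2 le_sup_left, ?_, ?_⟩
  · rw [← hg', mul_smul, inv_smul_smul, mul_smul, pow_fix ea]
  · rw [← hg', h.lam_conj _ (pow_fix ea 5), h.lam_pow ea, hl]
    decide

end Pts

end CfsgLib.P11
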