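import Cfsg.Agent.Lib.P11.JB

/-! Package JC: if there is a block of type `J₁` there are no elements of order four.  See `plans/P11.md`. -/

set_option autoImplicit false
set_option linter.unusedSectionVars false

namespace CfsgLib.P11

open Subgroup Cfsg MulAction CfsgLib.Tech

universe u

variable {G : Type u} [Group G] [Finite G] {Ω : Type u} [MulAction G Ω] {P : Ω → Subgroup G}
  {a b c d : Ω} {g x k : G}

theorem Prim.of_mul {i j : ZMod 11} (hp : Prim i) (e : i * j = 1) : Prim j :=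
  ⟨fun h => hp.1 (by rw [← mul_one (i ^ 2), ← h, ← mul_pow, e, one_pow, h]),
    fun h => hp.2 (by rw [← mul_one (i ^ 5), ← h, ← mul_pow, e, one_pow, h])⟩

theorem prim_2 : Prim 2 := ⟨by decide, by decide⟩

theorem jc_eq {X Y : Subgroup G} (hX : IsJ X) (hY : IsJ Y) (hle : X ≤ Y) : X = Y :=
  eq_of_le_of_card_ge hle (by rw [hX.card, hY.card])

/-- the partners of a point -/
def JO (P : Ω → Subgroup G) (a : Ω) : Set Ω :=
  {b | b ≠ a ∧ ∃ g : G, g • a = a ∧ lam P a g = 2 ∧ g • b = b}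

theorem jc_ne (ea : g • a = a) (hb : b ≠ a) : g • b ≠ a :=
  fun e => hb (smul_left_cancel g (e.trans ea.symm))

theorem jc_comm {X : Subgroup G} {j : G} (hj : j ∈ X) (hk : k ∈ centralizer (X : Set G)) : Commute j k :=
  hk j hj

namespace Pts

variable (h : Pts P)
include h

theorem jc_mul {j : G} (hk : k ∈ Kb P a b) (hc : P c ≤ P a ⊔ P b) : (j * k) • c = j • c := by
  rw [mul_smul, h.fix_of_Kb hk hc]

theorem jc_lam {j : G} (hk : k ∈ Kb P a b) (hc : P c ≤ P a ⊔ P b) (e : j • c = c) :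
    lam P c (j * k) = lam P c j := by
  rw [h.lam_mul e (h.fix_of_Kb hk hc), h.lam_cent (g := k) fun x hx => hk x (hc hx), mul_one]

theorem prim_lam (hab : a ≠ b) (ea : g • a = a) (eb : g • b = b) (hp : Prim (lam P a g)) :
    lam P a g * lam P b g = 1 := by
  rcases h.pair a b hab with hL | hJ
  · exact h.P2 hab hL ea eb
  obtain ⟨j, hj, k, hk, rfl⟩ := h.J_inner hab hJ (h.norm_of_fix ea eb)
  rw [h.jc_mul hk le_sup_left] at ea
  rw [h.jc_mul hk le_sup_right] at eb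
  rw [h.jc_lam hk le_sup_left ea] at hp ⊢
  rw [h.jc_lam hk le_sup_right eb]
  exact h.J_lam hab hJ le_sup_left le_sup_right hab hj (h.J_ord hab hJ le_sup_left hj ea hp) ea eb

theorem prim_two (ea : g • a = a) (hp : Prim (lam P a g)) (eb : g • b = b) (ec : g • c = c)
    (hb : b ≠ a) (hc : c ≠ a) : b = c := by
  by_contra hbc
  have h1 := h.prim_lam hb.symm ea eb hp
  have h2 := h.prim_lam hc.symm ea ec hp
  have h3 := h.prim_lam hbc eb ec (hp.of_mul h1)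
  exact hp.1 (by linear_combination lam P a g * lam P c g * h1 + h2 - lam P a g ^ 2 * h3)

theorem jc_smul (hg : g ∈ Cp P a) (hb : b ∈ JO P a) : g • b ∈ JO P a := by
  obtain ⟨h1, w, ea, hl, eb⟩ := hb
  have e := h.fix_of_cent hg
  refine ⟨jc_ne e h1, g * w * g⁻¹, mul_fix (mul_fix e ea) (inv_fix e), by rw [h.lam_conj' ea e, hl], ?_⟩
  rw [mul_smul, inv_smul_smul, mul_smul, eb]

theorem jc_W (hab : a ≠ b) (hJ : IsJ ↥(P a ⊔ P b)) : ∃ w ∈ P a ⊔ P b, ∃ c, c ≠ a ∧ w • a = a ∧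
    lam P a w = 2 ∧ w • c = c ∧ P a ⊔ P c = P a ⊔ P b := by
  obtain ⟨w, hw, ea, hl⟩ := h.J_omega hab hJ le_sup_left (i := 2) (by decide)
  have ho := h.J_ord hab hJ le_sup_left hw ea (hl ▸ prim_2)
  obtain ⟨c, d, hcd, hc, hd, ec, ed⟩ := h.J_ten hab hJ hw ho
  obtain ⟨e, he, h1, h2⟩ : ∃ e, e ≠ a ∧ P e ≤ P a ⊔ P b ∧ w • e = e := by
    by_cases e : c = a
    · exact ⟨d, e ▸ hcd.symm, hd, ed⟩
    · exact ⟨c, e, hc, ec⟩
  exact ⟨w, hw, e, he, ea, hl, h2, h.J_gen hab hJ le_sup_left h1 he.symm hw ho ea h2⟩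

/-- elements of a block with the same multiplier are conjugate -/
theorem jc_conj (hab : a ≠ b) (hJ : IsJ ↥(P a ⊔ P b)) {w : G} (hg : g ∈ P a ⊔ P b) (hw : w ∈ P a ⊔ P b)
    (e : g • a = a) (e' : w • a = a) (hl : lam P a g = lam P a w) (h1 : lam P a w ≠ 1) :
    ∃ z ∈ P a, z * w * z⁻¹ = g := by
  simpa using h.exists_conj e' h1
    (h.J_cent hab hJ le_sup_left (mul_mem hg (inv_mem hw)) (h.cent_of_lam_eq e e' hl))

theorem jc_w (hb : b ∈ JO P a) (hJ : IsJ ↥(P a ⊔ P b)) :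
    ∃ w ∈ P a ⊔ P b, w • a = a ∧ lam P a w = 2 ∧ w • b = b := by
  obtain ⟨h1, g, ea, hl, eb⟩ := hb
  obtain ⟨j, hj, k, hk, rfl⟩ := h.J_inner h1.symm hJ (h.norm_of_fix ea eb)
  rw [h.jc_mul hk le_sup_left] at ea
  rw [h.jc_mul hk le_sup_right] at eb
  exact ⟨j, hj, ea, by rwa [h.jc_lam hk le_sup_left ea] at hl, eb⟩

theorem jc_F (hb : b ∈ JO P a) (hJ : IsJ ↥(P a ⊔ P b)) (ea : g • a = a) (hl : lam P a g = 4)
    (eb : g • b = b) (ec : g • c = c) : P c ≤ P a ⊔ P b := by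
  by_contra hc
  have hab := hb.1.symm
  have hca : c ≠ a := fun e => hc (e ▸ le_sup_left)
  have hcb : b ≠ c := fun e => hc (e ▸ le_sup_right)
  obtain ⟨w, hw, wa, wl, wb⟩ := h.jc_w hb hJ
  have ho := h.J_ord hab hJ le_sup_left hw wa (wl ▸ prim_2)
  have hk : g * (w ^ 2)⁻¹ ∈ Kb P a b := h.P1 hab
    (h.cent_of_lam_eq ea (pow_fix wa 2) (by rw [h.lam_pow wa, wl, hl]; decide))
    (mul_fix eb (inv_fix (pow_fix wb 2)))
  obtain ⟨t, ht⟩ : ∃ t, t = w ^ 5 := ⟨_, rfl⟩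
  have cm : Commute t g := by
    have := (jc_comm (pow_mem hw 5) hk).mul_right ((Commute.refl w).pow_pow 5 2)
    rwa [inv_mul_cancel_right, ← ht] at this
  have t2 : t ^ 2 = 1 := by rw [ht, ← pow_mul, show 5 * 2 = orderOf w from ho.symm, pow_orderOf_eq_one]
  have ta : (t * g) • a = a := mul_fix (ht ▸ pow_fix wa 5) ea
  have tb : (t * g) • b = b := mul_fix (ht ▸ pow_fix wb 5) eb
  have tp : Prim (lam P a (t * g)) := by
    rw [h.lam_mul (ht ▸ pow_fix wa 5) ea, ht, h.lam_pow wa, wl, hl]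
    exact ⟨by decide, by decide⟩
  have tc : (t * g) • c = t • c := by rw [mul_smul, ec]
  have hne : c ≠ t • c := fun e => hcb (h.prim_two ta tp tb (tc.trans e.symm) hb.1 hca)
  have ec' : g • t • c = t • c := by rw [← mul_smul, ← cm.eq, tc]
  have tc' : (t * g) • t • c = c := by rw [mul_smul, ec', ← mul_smul, ← pow_two, t2, one_smul]
  have l2 : lam P c g ^ 2 ≠ 1 := fun e => by
    have := (h.P1' hca.symm (pow_fix ea 2) (pow_fix ec 2)).2 (by rw [h.lam_pow ec, e])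
    rw [h.lam_pow ea, hl] at this
    exact absurd this (by decide)
  have hJ' : IsJ ↥(P c ⊔ P (t • c)) := (h.pair _ _ hne).resolve_left fun hL => l2 (by
    have h1 := h.lam_conj t ec
    rw [cm.eq, mul_inv_cancel_right] at h1
    have h2 := h.P2 hne hL ec ec'
    rwa [h1, ← pow_two] at h2)
  have g5 : g ^ 5 ∈ Kb P c (t • c) := h.P1 hne (mem_Kb.1 (h.P1 hca.symm ((h.lam_eq_one_iff (pow_fix ea 5)).1
    (by rw [h.lam_pow ea, hl]; decide)) (pow_fix ec 5))).2 (pow_fix ec' 5)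
  obtain ⟨j, hj, k, hk', e⟩ := h.J_inner hne hJ' (h.norm_of_swap tc tc')
  have pw : ∀ n, t ^ n * g ^ n = j ^ n * k ^ n := fun n => by
    rw [← cm.mul_pow, e, (jc_comm hj hk').mul_pow]
  have oj : orderOf j = 10 := by
    refine orderOf_eq_of_pow_and_pow_div_prime (by norm_num) ?_ fun p hp hd => ?_
    · refine h.eq_one_of_Kb hne (pow_mem hj _) ?_
      rw [← mul_inv_eq_iff_eq_mul.2 (pw 10), show 10 = 2 * 5 from rfl, pow_mul t, t2, one_pow, one_mul,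
        mul_comm 2, pow_mul g]
      exact mul_mem (pow_mem g5 _) (inv_mem (pow_mem hk' _))
    · have : p = 2 ∨ p = 5 := by
        have := Nat.le_of_dvd (by norm_num) hd
        interval_cases p <;> simp_all (config := {decide := true})
      rcases this with rfl | rfl
      · intro e5
        have h1 := congrArg (· • c) (pw 5)
        simp only [show j ^ 5 = 1 from e5, one_mul, mul_smul, pow_fix ec 5,
          h.fix_of_Kb (pow_mem hk' 5) le_sup_left] at h1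
        rw [show 5 = 2 * 2 + 1 from rfl, pow_succ, pow_mul, t2, one_pow, one_mul] at h1
        exact hne h1.symm
      · intro e2
        have h1 := pw 2
        rw [t2, show j ^ 2 = 1 from e2, one_mul, one_mul] at h1
        exact l2 (by rw [← h.lam_pow ec, h1, h.lam_cent (mem_Kb.1 (pow_mem hk' 2)).1])
  obtain ⟨p, q, hpq, hp, hq, ep, eq⟩ := h.J_ten hne hJ' hj oj
  rw [← h.jc_mul hk' hp, ← e] at ep
  rw [← h.jc_mul hk' hq, ← e] at eq
  have two : ∀ r, (t * g) • r = r → r = a ∨ r = b := fun r er =>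
    (em (r = a)).imp_right fun hr => h.prim_two ta tp er tb hr hb.1
  refine hc (le_sup_left.trans (jc_eq hJ hJ' ?_).ge)
  rcases two p ep with rfl | rfl <;> rcases two q eq with rfl | rfl
  · exact (hpq rfl).elim
  · exact sup_le hp hq
  · exact sup_le hq hp
  · exact (hpq rfl).elim

variable (hJ : ∃ p q, p ≠ q ∧ IsJ ↥(P p ⊔ P q))
include hJ

theorem jc_ex (a : Ω) : ∃ b ∈ JO P a, IsJ ↥(P a ⊔ P b) := by
  obtain ⟨p, q, hpq, h1⟩ := hJ
  obtain ⟨g, rfl⟩ := h.trans p a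
  have h2 := h.isJ_smul g h1
  obtain ⟨w, -, c, hc, ea, hl, ec, e⟩ := h.jc_W (fun e => hpq (smul_left_cancel g e)) h2
  exact ⟨c, ⟨hc, w, ea, hl, ec⟩, e ▸ h2⟩

theorem jc_J (hb : b ∈ JO P a) : IsJ ↥(P a ⊔ P b) := by
  obtain ⟨c, hc, h1⟩ := h.jc_ex hJ a
  obtain ⟨g, hg, rfl⟩ := (h.coset a 2 (Δ := JO P a) (fun g hg d hd => h.jc_smul hg hd) (fun d hd => hd.2)
    fun g ea hl d hd e he ed ee => h.prim_two ea (hl ▸ prim_2) ed ee hd.1 he.1).1 c hc b hb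
  have := h.isJ_smul g h1
  rwa [h.fix_of_cent hg] at this

theorem jc_U (ea : g • a = a) (hl : lam P a g = 4) (hb : b ∈ JO P a) (hc : c ∈ JO P a) (eb : g • b = b)
    (ec : g • c = c) : b = c := by
  have h1 := h.jc_J hJ hb
  have h2 := h.jc_J hJ hc
  have e := jc_eq h2 h1 (sup_le le_sup_left (h.jc_F hb h1 ea hl eb ec))
  obtain ⟨w, hw, wa, wl, wb⟩ := h.jc_w hb h1
  obtain ⟨v, hv, va, vl, vc⟩ := h.jc_w hc h2
  obtain ⟨z, hz, rfl⟩ := h.jc_conj hb.1.symm h1 (e ▸ hv) hw va wa (vl.trans wl.symm) (by rw [wl]; decide)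
  have h3 := h.prim_two va (vl ▸ prim_2) vc (show (z * w * z⁻¹) • z • b = z • b by
    rw [mul_smul, inv_smul_smul, mul_smul, wb]) hc.1 (jc_ne (h.fix hz) hb.1)
  rw [h3, h.fix_two hb.1.symm ea eb (by rw [hl]; decide) hz (h3 ▸ ec), one_smul]

theorem J_exists (hac : a ≠ c) : ∃ b, a ≠ b ∧ IsJ ↥(P a ⊔ P b) ∧ P c ≤ P a ⊔ P b := by
  rcases h.pair a c hac with hL | h1
  swap
  · exact ⟨c, hac, h1, le_sup_right⟩
  obtain ⟨y, -, ea, ec, -, hl⟩ := h.L_y hac hL (i := 4) (by decide)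
  obtain ⟨b0, hb0, -⟩ := h.jc_ex hJ a
  obtain ⟨b, hb, eb⟩ := (h.coset a 4 (Δ := JO P a) (fun g hg d hd => h.jc_smul hg hd)
    (fun d ⟨_, g, e1, e2, e3⟩ => ⟨g ^ 2, pow_fix e1 2, by rw [h.lam_pow e1, e2]; decide, pow_fix e3 2⟩)
    fun g ea hl d hd e he ed ee => h.jc_U hJ ea hl hd he ed ee).2 ⟨b0, hb0⟩ y ea hl
  exact ⟨b, hb.1.symm, h.jc_J hJ hb, h.jc_F hb (h.jc_J hJ hb) ea hl eb ec⟩

theorem J_uniq (hac : a ≠ c) (hab : a ≠ b) (had : a ≠ d) (hb : IsJ ↥(P a ⊔ P b))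
    (hd : IsJ ↥(P a ⊔ P d)) (h1 : P c ≤ P a ⊔ P b) (h2 : P c ≤ P a ⊔ P d) : P a ⊔ P b = P a ⊔ P d := by
  rcases h.pair a c hac with hL | h3
  swap
  · rw [← jc_eq h3 hb (sup_le le_sup_left h1), jc_eq h3 hd (sup_le le_sup_left h2)]
  obtain ⟨y, hy, ea, -, -, hl⟩ := h.L_y hac hL (i := 4) (by decide)
  have key : ∀ b, a ≠ b → IsJ ↥(P a ⊔ P b) → P c ≤ P a ⊔ P b →
      ∃ e ∈ JO P a, y • e = e ∧ P a ⊔ P e = P a ⊔ P b := fun b hab hb h1 => by
    obtain ⟨w, hw, e, he, wa, wl, we, e1⟩ := h.jc_W hab hb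
    obtain ⟨z, hz, e2⟩ := h.jc_conj hab hb (sup_le le_sup_left h1 hy) (pow_mem hw 2) ea (pow_fix wa 2)
      (by rw [h.lam_pow wa, wl, hl]; decide) (by rw [h.lam_pow wa, wl]; decide)
    refine ⟨z • e, h.jc_smul (fun _ hx => h.comm hx hz) ⟨he, w, wa, wl, we⟩, ?_, ?_⟩
    · rw [← e2, mul_smul, inv_smul_smul, mul_smul, pow_fix we]
    · rw [← e1, ← cj_eq_of_mem (mem_sup_left hz : z ∈ P a ⊔ P e), h.cj_blk, h.fix hz]
  obtain ⟨e, he, e1, e2⟩ := key b hab hb h1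
  obtain ⟨e', he', e3, e4⟩ := key d had hd h2
  rw [← e2, ← e4, h.jc_U hJ ea hl he he' e1 e3]

theorem jc_N (hac : a ≠ c) (ea : g • a = c) (ec : g • c = a) : ∃ b, a ≠ b ∧ IsJ ↥(P a ⊔ P b) ∧
    ∃ j ∈ P a ⊔ P b, ∃ k ∈ Kb P a b, g = j * k := by
  obtain ⟨b, hab, h1, h2⟩ := h.J_exists hJ hac
  refine ⟨b, hab, h1, h.J_inner hab h1 ?_⟩
  obtain ⟨m, hm, e⟩ := h.exists_smul hab le_sup_left h2
  have e1 : P c ⊔ P (m • b) = P a ⊔ P b := by rw [← e, ← h.cj_blk, cj_eq_of_mem hm]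
  have hne : c ≠ m • b := fun e' => hab (smul_left_cancel m (e.trans e'))
  rw [mem_normalizer_iff_cj]
  nth_rewrite 2 [← e1]
  rw [h.cj_blk, ea]
  refine h.J_uniq hJ hac.symm (fun e' => hab (smul_left_cancel g (ea.trans e'))) hne
    (ea ▸ h.isJ_smul g h1) (e1 ▸ h1) ?_ (e1 ▸ le_sup_left)
  rw [← ec, ← ea, h.smul_le_iff, ea]
  exact h2

theorem J_four (hf : ∀ g : G, (∀ c : Ω, g • c = c) → g = 1) (hg : g ^ 4 = 1) : g ^ 2 = 1 := by
  by_contra h1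
  have sq : (g ^ 2) ^ 2 = 1 := by rw [← pow_mul, hg]
  obtain ⟨e, ee, hl⟩ : ∃ e, g ^ 2 • e = e ∧ lam P e (g ^ 2) = -1 := by
    obtain ⟨a, ha⟩ := not_forall.1 fun e => h1 (hf _ e)
    obtain ⟨b, hab, h2, j, hj, k, hk, e⟩ := h.jc_N hJ (Ne.symm ha) rfl
      (by rw [← mul_smul, ← pow_two, sq, one_smul])
    have j2 : j ^ 2 = 1 := h.eq_one_of_Kb hab (pow_mem hj 2) (by
      rw [e, (jc_comm hj hk).mul_pow, mul_eq_one_iff_eq_inv] at sq
      exact sq ▸ inv_mem (pow_mem hk 2))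
    obtain ⟨c, hc, ec, hl⟩ := h.J_inv hab h2 hj (orderOf_eq_prime j2 fun e' => ha (by
      rw [e, h.jc_mul hk le_sup_left, e', one_smul]))
    exact ⟨c, by rw [e, h.jc_mul hk hc, ec], by rw [e, h.jc_lam hk hc ec, hl]⟩
  by_cases he : g • e = e
  · rw [h.lam_pow he] at hl
    revert hl
    generalize lam P e g = i
    revert i
    decide
  obtain ⟨b, hab, h2, j, hj, k, hk, e1⟩ := h.jc_N hJ (Ne.symm he) rfl (by rw [← mul_smul, ← pow_two, ee])
  have j4 : j ^ 4 = 1 := h.eq_one_of_Kb hab (pow_mem hj 4) (by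
    rw [e1, (jc_comm hj hk).mul_pow, mul_eq_one_iff_eq_inv] at hg
    exact hg ▸ inv_mem (pow_mem hk 4))
  have j2 : j ^ 2 = 1 := congrArg Subtype.val (h2.no_four (x := ⟨j, hj⟩) (Subtype.ext j4))
  rw [e1, (jc_comm hj hk).mul_pow, j2, one_mul, h.lam_cent (mem_Kb.1 (pow_mem hk 2)).1] at hl
  exact absurd hl (by decide)

end Pts

end CfsgLib.P11
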