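import Cfsg.Agent.Lib.P11.Blk

/-! Package JF: elements of order ten and eleven in `J₁`.  See `plans/P11.md`. -/

set_option autoImplicit false
set_option linter.unusedSectionVars false
set_option linter.style.haveILetI false

namespace CfsgLib.P11

open Subgroup Cfsg MulAction CfsgLib.Tech

universe u

namespace IsJ

variable {X : Type u} [Group X] [Finite X] (h : IsJ X)
include h

theorem no_four {x : X} (hx : x ^ 4 = 1) : x ^ 2 = 1 := by
  have h1 := orderOf_dvd_of_pow_eq_one hx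
  have h2 := h.ord x
  refine orderOf_dvd_iff_pow_eq_one.1 ?_
  have h3 := Nat.le_of_dvd (by norm_num) h1
  generalize orderOf x = n at h1 h2 h3
  interval_cases n <;> simp_all

theorem sq_of_two {T : Subgroup X} (hT : IsPGroup 2 T) {x : X} (hx : x ∈ T) : x * x = 1 := by
  obtain ⟨k, hk⟩ := isPGroup_zpowers_iff.1 (isPGroup_zpowers_of_mem hT hx)
  have h2 := h.ord x
  rw [← pow_two, ← orderOf_dvd_iff_pow_eq_one]
  rcases k with _ | _ | k
  · simp [hk]
  · simp [hk]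
  · rw [hk, pow_succ, pow_succ] at h2
    simp only [List.mem_cons, List.not_mem_nil, or_false] at h2
    omega

theorem jf_prime {x : X} {p : ℕ} (hp : p.Prime) (h1 : p ∣ Nat.card (centralizer {x} : Subgroup X))
    (h2 : (orderOf x).Coprime p) : orderOf x * p ∈ [1, 2, 3, 5, 6, 7, 10, 11, 15, 19] := by
  haveI := Fact.mk hp
  obtain ⟨u, hu⟩ := exists_prime_orderOf_dvd_card' p h1
  rw [← orderOf_coe] at hu
  rw [← hu, ← (Commute.symm (mem_centralizer_singleton_iff.1 u.2)).orderOf_mul_eq_mul_orderOf_of_coprime (hu ▸ h2)]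
  exact h.ord _

theorem jf_act {w g : X} (hg : g * w * g⁻¹ ∈ zpowers w) : ∃ i < orderOf w, g * w * g⁻¹ = w ^ i ∧
    ∃ k ∈ [1, 2, 3, 5, 6, 7, 10, 11, 15, 19], i ^ k % orderOf w = 1 % orderOf w := by
  obtain ⟨i, hi⟩ := mem_powers_iff_mem_zpowers.2 hg
  have h1 : g * w * g⁻¹ = w ^ (i % orderOf w) := by rw [pow_mod_orderOf]; exact hi.symm
  refine ⟨_, Nat.mod_lt _ (orderOf_pos w), h1, _, h.ord g, pow_inj_mod.1 ?_⟩
  have h2 : ∀ k, g ^ k * w * (g ^ k)⁻¹ = w ^ (i % orderOf w) ^ k := fun k => by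
    induction k with
    | zero => simp
    | succ k ih => rw [pow_succ _ k, pow_succ _ k, pow_mul, ← ih, conj_pow, ← h1]; group
  rw [← h2, pow_orderOf_eq_one]; simp

omit h in
theorem jf_pow {w : X} (hw : orderOf w = 10) : orderOf (w ^ 2) = 5 ∧ orderOf (w ^ 5) = 2 ∧ w = w ^ 5 * (w ^ 2) ^ 3 := by
  refine ⟨by rw [orderOf_pow, hw]; rfl, by rw [orderOf_pow, hw]; rfl, ?_⟩
  rw [← pow_mul, ← pow_add, pow_succ, show w ^ (5 + 5) = 1 from orderOf_dvd_iff_pow_eq_one.1 hw.dvd, one_mul]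

theorem jf_syl5 {y : X} (hy : orderOf y = 5) : IsSylowIn 5 (zpowers y) ⊤ := by
  haveI : Fact (Nat.Prime 5) := ⟨by norm_num⟩
  have h1 := (zpowers y).card_mul_index
  rw [Nat.card_zpowers, hy, h.card] at h1
  exact ⟨le_top, isPGroup_zpowers_iff.2 ⟨1, hy⟩, by rw [relIndex_top_right]; omega⟩

theorem jf_five {w : X} (hw : orderOf w = 10) :
    Nat.card (centralizer {w ^ 2} : Subgroup X) = 30 ∧ ∃ n, n * w ^ 2 * n⁻¹ = (w ^ 2)⁻¹ := by
  haveI : Fact (Nat.Prime 5) := ⟨by norm_num⟩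
  haveI := h.simple
  have h1 : zpowers w ≤ centralizer {w ^ 2} :=
    zpowers_le.2 (mem_centralizer_singleton_iff.2 ((Commute.refl w).pow_right 2))
  obtain ⟨m, hm⟩ := card_dvd_of_le h1
  rw [Nat.card_zpowers, hw] at hm
  have hy := (jf_pow hw).1
  generalize w ^ 2 = y at hm hy ⊢
  have hS := h.jf_syl5 hy
  have h2 : ∀ n ∈ normalizer (zpowers y : Set X), n * y * n⁻¹ = y ∨ n * y * n⁻¹ = y⁻¹ := fun n hn => by
    obtain ⟨i, h1, h2, k, h3, h4⟩ := h.jf_act (conj_mem_of_mem_normalizer hn (mem_zpowers y))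
    rw [hy] at h1 h4
    have h5 : ∀ i < 5, ∀ k ∈ [1, 2, 3, 5, 6, 7, 10, 11, 15, 19], i ^ k % 5 = 1 % 5 → i = 1 ∨ i = 4 := by decide
    rcases h5 i h1 k h3 h4 with rfl | rfl
    · exact Or.inl (h2.trans (pow_one y))
    · exact Or.inr (h2.trans (eq_inv_of_mul_eq_one_left (by rw [← pow_succ]; exact orderOf_dvd_iff_pow_eq_one.1 hy.dvd)))
  obtain ⟨n, -, n1, _, ⟨i, rfl⟩, n2⟩ := burnside_simple topEquiv.isSimpleGroup hS
    (fun e => by rw [zpowers_eq_bot.1 e, orderOf_one] at hy; omega) fun e => by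
      have := Nat.card_zpowers y
      rw [e, card_top, h.card] at this
      omega
  have n3 : n ∉ centralizer {y} := fun e => n2 (Commute.zpow_right (mem_centralizer_singleton_iff.1 e) i)
  have n4 := (h2 n n1).resolve_left fun e => n3 (W2.mem_Cx'.2 e)
  refine ⟨?_, n, n4⟩
  have h3 : centralizer {y} ≤ normalizer (zpowers y : Set X) := fun g hg => mem_normalizer_iff_cj.2 (by
    rw [cj_zpowers, W2.mem_Cx'.1 hg])
  have h4 := (Nat.dvd_prime Nat.prime_two).1 ((relIndex_dvd_two_iff (H := centralizer {y})).2 ⟨n, n1, fun b hb =>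
    (h2 b hb).symm.imp (fun e => W2.mem_Cx'.2 (by
      rw [show b * n * y * (b * n)⁻¹ = b * (n * y * n⁻¹) * b⁻¹ by group, n4, ← conj_inv, e, inv_inv])) W2.mem_Cx'.2⟩)
  have h5 := card_mul_relIndex' h3
  have h6 := (normalizer (zpowers y : Set X)).card_mul_index
  have h7 := card_sylow_modEq_one 5 X
  rw [hS.toSylowTop.card_eq_index_normalizer] at h7
  rw [h4.resolve_left fun e => n3 (relIndex_eq_one.1 e n1), hm] at h5
  rw [← h5, h.card] at h6
  change (normalizer (zpowers y : Set X)).index % 5 = 1 at h7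
  generalize (normalizer (zpowers y : Set X)).index = j at h6 h7
  have k : ∀ p ∈ [7, 11, 19], m.Coprime p := fun p hp => by
    have h8 : p.Prime := by revert p; decide
    refine ((Nat.Prime.coprime_iff_not_dvd h8).2 fun e => ?_).symm
    have h9 := h.jf_prime (x := y) h8 (hm ▸ e.mul_left 10) (by rw [hy]; clear e; revert p; decide)
    rw [hy] at h9
    clear e; revert p; decide
  have h8 : m ∣ 6 := (k 7 (by simp)).dvd_of_dvd_mul_right ((k 11 (by simp)).dvd_of_dvd_mul_right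
    ((k 19 (by simp)).dvd_of_dvd_mul_right ⟨j, by linarith⟩))
  have h9 := Nat.le_of_dvd (by norm_num) h8
  interval_cases m <;> omega

theorem jf_syl2 {w : X} (hw : orderOf w = 10) : IsSylowIn 2 (zpowers (w ^ 5)) (centralizer {w ^ 2}) := by
  have h1 : zpowers (w ^ 5) ≤ centralizer {w ^ 2} :=
    zpowers_le.2 (mem_centralizer_singleton_iff.2 ((Commute.refl w).pow_pow 5 2))
  have h2 := card_mul_relIndex' h1
  rw [Nat.card_zpowers, (jf_pow hw).2.1, (h.jf_five hw).1] at h2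
  exact ⟨h1, isPGroup_zpowers_iff.2 ⟨1, (jf_pow hw).2.1⟩, by omega⟩

theorem cent11 {x z : X} (hx : orderOf x = 11) (hz : z * x = x * z) : z ∈ zpowers x := by
  have h1 : zpowers x ≤ centralizer {x} := zpowers_le.2 (mem_centralizer_singleton_iff.2 rfl)
  obtain ⟨m, hm⟩ := card_dvd_of_le h1
  have h2 := (centralizer {x}).card_subgroup_dvd_card
  rw [Nat.card_zpowers, hx] at hm
  rw [hm, h.card] at h2
  refine (eq_of_le_of_card_ge h1 ?_).ge (mem_centralizer_singleton_iff.2 hz)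
  obtain rfl : m = 1 := by_contra fun e => by
    obtain ⟨p, hp, h3⟩ := Nat.exists_prime_and_dvd e
    have h4 := h.jf_prime hp (hm ▸ h3.mul_left 11) (hx ▸ (Nat.coprime_primes (by norm_num) hp).2 fun f => by
      subst f
      have : 11 * 11 ∣ 175560 := (Nat.mul_dvd_mul_left 11 h3).trans h2
      omega)
    have := hp.two_le
    simp only [hx, List.mem_cons, List.not_mem_nil, or_false] at h4
    omega
  rw [hm, Nat.card_zpowers, hx]

theorem cent10 {w z : X} (hw : orderOf w = 10) (hz : z * w = w * z) : z ∈ zpowers w := by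
  have h1 : zpowers w ≤ centralizer {w} := zpowers_le.2 (mem_centralizer_singleton_iff.2 rfl)
  obtain ⟨m, hm⟩ := card_dvd_of_le h1
  have h2 : centralizer {w} ≤ centralizer {w ^ 2} := fun g hg => mem_centralizer_singleton_iff.2
    (Commute.pow_right (mem_centralizer_singleton_iff.1 hg) 2)
  have h3 := card_dvd_of_le h2
  rw [Nat.card_zpowers, hw] at hm
  rw [(h.jf_five hw).1, hm] at h3
  refine (eq_of_le_of_card_ge h1 ?_).ge (mem_centralizer_singleton_iff.2 hz)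
  rcases (Nat.dvd_prime Nat.prime_three).1 (Nat.dvd_of_mul_dvd_mul_left (by norm_num) h3 : m ∣ 3) with rfl | rfl
  · rw [hm, Nat.card_zpowers, hw]
  · exact absurd (hw ▸ h.jf_prime (x := w) Nat.prime_three (by simp [hm]) (by rw [hw]; decide)) (by decide)

theorem conj10 {w w' : X} (hw : orderOf w = 10) (hw' : orderOf w' = 10) :
    ∃ g : X, g * w' * g⁻¹ ∈ zpowers w := by
  haveI : Fact (Nat.Prime 5) := ⟨by norm_num⟩
  obtain ⟨g, -, hg⟩ := (h.jf_syl5 (jf_pow hw).1).exists_conj_mem (mem_top (w' ^ 2))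
    (isPGroup_zpowers_iff.2 ⟨1, (jf_pow hw').1⟩)
  have h1 : orderOf (g * w' * g⁻¹) = 10 := (W2.ord_conj g w').trans hw'
  rw [← conj_pow] at hg
  suffices k : ∃ c, c * (g * w' * g⁻¹) * c⁻¹ ∈ zpowers w from k.elim fun c hc => ⟨c * g, by simpa [mul_assoc] using hc⟩
  generalize g * w' * g⁻¹ = v at hg h1
  obtain ⟨i, hi⟩ := (eq_of_le_of_card_ge (zpowers_le.2 hg) (by
    rw [Nat.card_zpowers, Nat.card_zpowers, (jf_pow hw).1, (jf_pow h1).1])).ge (mem_zpowers _)
  obtain ⟨c, hc, e⟩ := (h.jf_syl2 hw).exists_conj_mem (x := v ^ 5) (mem_centralizer_singleton_iff.2 (by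
    rw [← hi]; exact ((Commute.refl v).pow_pow 5 2).zpow_right i)) (isPGroup_zpowers_iff.2 ⟨1, (jf_pow h1).2.1⟩)
  obtain ⟨j, hj⟩ := hg
  refine ⟨c, ?_⟩
  rw [(jf_pow h1).2.2, ← conj_mul, ← conj_pow (b := v ^ 2), ← hj,
    (Commute.zpow_right (mem_centralizer_singleton_iff.1 hc) j).eq, mul_inv_cancel_right]
  exact mul_mem (zpowers_le.2 (pow_mem (mem_zpowers w) 5) e) (pow_mem (zpow_mem (pow_mem (mem_zpowers w) 2) j) 3)

theorem inv10 {w : X} (hw : orderOf w = 10) : ∃ n : X, n * w * n⁻¹ = w⁻¹ := by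
  obtain ⟨n, hn⟩ := (h.jf_five hw).2
  have h1 := (W2.ord_conj n _).trans (jf_pow hw).2.1
  obtain ⟨c, hc, e⟩ := (h.jf_syl2 hw).exists_conj_mem (x := n * w ^ 5 * n⁻¹) (mem_centralizer_singleton_iff.2 (by
    rw [← inv_inv (w ^ 2), ← hn]
    exact (((Commute.refl w).pow_pow 5 2).map (MulAut.conj n)).inv_right)) (isPGroup_zpowers_iff.2 ⟨1, h1⟩)
  have h2 : c * (n * w ^ 5 * n⁻¹) * c⁻¹ = w ^ 5 := by
    obtain ⟨i, hi⟩ := mem_powers_iff_mem_zpowers.2 e
    have h3 := (W2.ord_conj c _).trans h1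
    have h4 := W2.sq_of_ord (jf_pow hw).2.1
    rw [← hi] at h3 ⊢
    rcases Nat.even_or_odd' i with ⟨k, rfl | rfl⟩
    · simp [pow_mul, pow_two, h4] at h3
    · simp only [pow_succ (w ^ 5) (2 * k), pow_mul, pow_two, h4, one_pow, one_mul]
  have h3 : c * (n * w ^ 2 * n⁻¹) * c⁻¹ = (w ^ 2)⁻¹ := by
    rw [hn, (Commute.inv_right (mem_centralizer_singleton_iff.1 hc)).eq, mul_inv_cancel_right]
  refine ⟨c * n, ?_⟩
  calc c * n * w * (c * n)⁻¹ = c * n * (w ^ 5 * (w ^ 2) ^ 3) * (c * n)⁻¹ := by rw [← (jf_pow hw).2.2]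
    _ = c * (n * w ^ 5 * n⁻¹) * c⁻¹ * (c * (n * w ^ 2 * n⁻¹) * c⁻¹) ^ 3 := by rw [conj_pow, conj_pow]; group
    _ = _ := by rw [h2, h3]; group

theorem norm10 {w g : X} (hw : orderOf w = 10) (hg : g * w * g⁻¹ ∈ zpowers w) :
    g * w * g⁻¹ = w ∨ g * w * g⁻¹ = w⁻¹ := by
  obtain ⟨i, h1, h2, k, h3, h4⟩ := h.jf_act hg
  rw [hw] at h1 h4
  have h5 : ∀ i < 10, ∀ k ∈ [1, 2, 3, 5, 6, 7, 10, 11, 15, 19], i ^ k % 10 = 1 % 10 → i = 1 ∨ i = 9 := by decide
  rcases h5 i h1 k h3 h4 with rfl | rfl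
  · exact Or.inl (h2.trans (pow_one w))
  · exact Or.inr (h2.trans (eq_inv_of_mul_eq_one_left (by rw [← pow_succ]; exact orderOf_dvd_iff_pow_eq_one.1 hw.dvd)))

end IsJ

end CfsgLib.P11
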