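import Cfsg.Agent.Lib.P11.P12

/-! Package LN: all blocks are lines.  See `plans/P11.md`. -/

set_option autoImplicit false
set_option linter.unusedSectionVars false
set_option linter.style.haveILetI false

namespace CfsgLib.P11

open Subgroup Cfsg MulAction CfsgLib.Tech

universe u

variable {G : Type u} [Group G] [Finite G] {Ω : Type u} [MulAction G Ω] {P : Ω → Subgroup G}
  {a b c d : Ω} {g x k : G}

namespace AL

variable (h : AL P)
include h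

theorem fix_K (hab : a ≠ b) (hk : k ∈ Kb P a b) (h1 : k ≠ 1) (c : Ω) : k • c = c ↔ P c ≤ P a ⊔ P b := by
  refine ⟨fun e => ?_, h.fix_of_Kb hk⟩
  obtain ⟨c', d', hn, H⟩ := h.min k h1 a b hab (mem_Kb.1 hk).1 (mem_Kb.1 hk).2
  rw [h.L_eq hn (h.line _ _ hn) (H a (mem_Kb.1 hk).1) (H b (mem_Kb.1 hk).2) hab]
  by_cases e1 : a = c
  · exact e1 ▸ H a (mem_Kb.1 hk).1
  · exact H c (mem_Kb.1 (h.P1 e1 (mem_Kb.1 hk).1 e)).2

theorem ncard_fix_K (hab : a ≠ b) (hk : k ∈ Kb P a b) (h1 : k ≠ 1) : {c : Ω | k • c = c}.ncard = 12 := by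
  simp only [h.fix_K hab hk h1, h.L_ncard hab (h.line a b hab)]

/-- the centraliser of an element of `Kb` normalises the line -/
theorem norm_of_conj (hab : a ≠ b) (hk : k ∈ Kb P a b) (h1 : k ≠ 1) (e : g * k * g⁻¹ ∈ Kb P a b) :
    g ∈ normalizer ((P a ⊔ P b : Subgroup G) : Set G) := by
  have k1 := fun c => (h.fix_K hab e (by simpa using h1) c).1
  rw [mem_normalizer_iff_cj, h.cj_blk]
  exact h.L_eq hab (h.line a b hab) (k1 _ (h.fix_of_Kb (h.conj_Kb g hk) le_sup_left))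
    (k1 _ (h.fix_of_Kb (h.conj_Kb g hk) le_sup_right)) fun f => hab (smul_left_cancel g f)

theorem red (hab : a ≠ b) (hg : g ∈ normalizer ((P a ⊔ P b : Subgroup G) : Set G)) :
    ∃ m ∈ P a ⊔ P b, (m * g) • a = a ∧ (m * g) • b = b := by
  simp only [mul_smul]
  exact h.L_two hab (h.line a b hab) (h.smul_le hg le_sup_left) (h.smul_le hg le_sup_right)
    fun f => hab (smul_left_cancel g f)

theorem exists_off (hab : a ≠ b) : ∃ c, ¬ P c ≤ P a ⊔ P b := by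
  by_contra! hc
  exact h.proper a b hab (top_le_iff.1 (h.gen.ge.trans (iSup_le hc)))

theorem two (ea : g • a = a) (h2 : lam P a g ^ 2 ≠ 1) (eb : g • b = b) (ec : g • c = c) (hb : b ≠ a)
    (hc : c ≠ a) : b = c := by
  by_contra e
  have h3 := h.P2 hb.symm (h.line _ _ hb.symm) ea eb
  have h4 := h.P2 hc.symm (h.line _ _ hc.symm) ea ec
  have h5 := h.P2 e (h.line _ _ e) eb ec
  exact h2 (by linear_combination (lam P a g * lam P c g) * h3 + h4 - lam P a g ^ 2 * h5)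

theorem ln_coset (a : Ω) {i : ZMod 11} (h5 : i ^ 5 = 1) (h2 : i ^ 2 ≠ 1) :
    (∀ d ∈ ({a}ᶜ : Set Ω), ∀ e ∈ ({a}ᶜ : Set Ω), ∃ g ∈ Cp P a, g • d = e) ∧
      (({a}ᶜ : Set Ω).Nonempty → ∀ g : G, g • a = a → lam P a g = i → ∃ d ∈ ({a}ᶜ : Set Ω), g • d = d) :=
  h.coset a i (fun g hg _ hd e => hd (smul_left_cancel g (e.trans (h.fix_of_cent hg).symm)))
    (fun d hd => by
      obtain ⟨y, -, ya, yb, -, e⟩ := h.L_y (Ne.symm hd) (h.line a d (Ne.symm hd)) h5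
      exact ⟨y, ya, e, yb⟩)
    fun _ ea e _ hd _ he e1 e2 => h.two ea (e ▸ h2) e1 e2 hd he

theorem transC (hb : b ≠ a) (hc : c ≠ a) : ∃ g ∈ Cp P a, g • b = c := by
  exact (h.ln_coset a (i := 4) (by decide) (by decide)).1 b hb c hc

theorem two_trans (hab : a ≠ b) (hcd : c ≠ d) : ∃ g : G, g • a = c ∧ g • b = d := by
  obtain ⟨g, rfl⟩ := h.trans a c
  obtain ⟨g', hg, e⟩ := h.transC (fun f => hab (smul_left_cancel g f).symm) hcd.symm
  exact ⟨g' * g, by rw [mul_smul, h.fix_of_cent hg], by rw [mul_smul, e]⟩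

theorem exists_fix5 (ea : g • a = a) (h5 : lam P a g ^ 5 = 1) (h1 : lam P a g ≠ 1) :
    ∃ b, b ≠ a ∧ g • b = b := by
  have k : ∀ l : ZMod 11, l ^ 5 = 1 → l ≠ 1 → l ^ 2 ≠ 1 := by decide
  obtain ⟨c, d, hn⟩ := h.nontriv
  refine (h.ln_coset a h5 (k _ h5 h1)).2 ?_ g ea rfl
  by_cases e : c = a
  exacts [⟨d, e ▸ hn.symm⟩, ⟨c, e⟩]

theorem inf_stab (hab : a ≠ b) : Cp P a ⊓ stabilizer G b = Kb P a b := by
  exact le_antisymm (fun g hg => h.P1 hab hg.1 hg.2) fun g hg => ⟨(mem_Kb.1 hg).1, h.fix_of_Kb hg le_sup_right⟩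

theorem card_Cp (hab : a ≠ b) : Nat.card (Cp P a) = (Nat.card Ω - 1) * Nat.card (Kb P a b) := by
  haveI := h.finite
  have h1 : {e | ∃ x ∈ Cp P a, x • b = e} = {a}ᶜ := Set.ext fun c => ⟨by
    rintro ⟨x, hx, rfl⟩ e
    exact hab (smul_left_cancel x (e.trans (h.fix_of_cent hx).symm)).symm, h.transC hab.symm⟩
  rw [HKS.card_eq_relIndex_mul (stabilizer G b), ← HKS.KS.ncard_orbit, h1, h.inf_stab hab, Set.ncard_compl,
    Set.ncard_singleton]

theorem card_Kb (hab : a ≠ b) (hcd : c ≠ d) : Nat.card (Kb P a b) = Nat.card (Kb P c d) := by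
  obtain ⟨g, rfl, rfl⟩ := h.two_trans hab hcd
  rw [Kb, Kb, ← h.cj_blk, ← cj_centralizer, card_cj]

/-- `v = 55 n + 12` with `n > 0` -/
theorem card_eq : ∃ n, 0 < n ∧ Nat.card Ω = 55 * n + 12 := by
  haveI := h.finite
  obtain ⟨a, b, hab⟩ := h.nontriv
  have hL := h.line a b hab
  obtain ⟨x, hx, x1⟩ := h.exists_ne a
  obtain ⟨y, hy, ya, yb, y5, e⟩ := h.L_y hab hL (i := 4) (by decide)
  have k : ∀ g ∈ P a ⊔ P b, ∀ c ∈ {c | P c ≤ P a ⊔ P b}ᶜ, g • c ∈ {c | P c ≤ P a ⊔ P b}ᶜ := fun g hg c hc f =>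
    hc (by simpa using h.smul_le' (inv_mem hg) f)
  have k1 : ∀ c ∈ {c | P c ≤ P a ⊔ P b}ᶜ, c ≠ a := fun c hc f => hc (by rw [f]; exact (le_sup_left : P a ≤ _))
  have h1 := HKS.KS.dvd_ncard (by norm_num) (h.pow_eq hx) (k x (mem_sup_left hx)) fun c hc f =>
    k1 c hc (h.semi hx x1 f)
  have h2 := HKS.KS.dvd_ncard (by norm_num) y5 (k y hy) fun c hc f =>
    hc (h.two ya (by rw [e]; decide) yb f hab.symm (k1 c hc) ▸ (le_sup_right : P b ≤ _))
  have h3 := Set.ncard_add_ncard_compl {c | P c ≤ P a ⊔ P b}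
  have h4 := (Set.ncard_pos (s := {c | P c ≤ P a ⊔ P b}ᶜ)).2 (h.exists_off hab)
  rw [h.L_ncard hab hL] at h3
  exact ⟨{c | P c ≤ P a ⊔ P b}ᶜ.ncard / 55, by omega, by omega⟩

end AL

end CfsgLib.P11
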