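import Cfsg.Agent.Lib.P11.Ln
import Cfsg.Agent.Lib.Fgs.ConjCount

/-! Package NO1: no involution fixes exactly one point; the degree is even.  See `plans/P11.md`. -/

set_option autoImplicit false
set_option linter.unusedSectionVars false
set_option linter.style.haveILetI false

namespace CfsgLib.P11

open Subgroup Cfsg MulAction CfsgLib.Tech

universe u

variable {G : Type u} [Group G] [Finite G] {Ω : Type u} [MulAction G Ω] {P : Ω → Subgroup G}
  {a b c d : Ω} {g x k : G}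

namespace AL

variable (h : AL P)
include h

theorem no_one {z : G} (hz : orderOf z = 2) (ea : z • a = a) : ∃ b, b ≠ a ∧ z • b = b := by
  by_contra! hc
  have zz := W2.sq_of_ord hz
  have one : ∀ c, z • c = c → c = a := fun c e => by_contra fun f => hc c f e
  obtain ⟨e, he⟩ : ∃ e, e ≠ a := by
    obtain ⟨c, d, hn⟩ := h.nontriv
    by_cases e : c = a
    exacts [⟨d, e ▸ hn.symm⟩, ⟨c, e⟩]
  obtain ⟨f, ef⟩ : ∃ f, z • e = f := ⟨_, rfl⟩
  have fe : z • f = e := by rw [← ef, ← mul_smul, zz, one_smul]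
  have hn : e ≠ f := fun g => hc e he (ef.trans g.symm)
  have hL := h.line e f hn
  have ha : ¬ P a ≤ P e ⊔ P f := fun h1 => by
    have h2 := h.L_eq hn hL h1 le_sup_left he.symm
    have h3 : P (z • e) ≤ P a ⊔ P e := by rw [h2, ef]; exact le_sup_right
    by_cases h4 : lam P a z = 1
    · exact hc e he (h.fix_of_Kb (h.fix_of_coprime he.symm (h.line _ _ he.symm) ((h.lam_eq_one_iff ea).1 h4) h3
        (n := 2) (by rw [pow_two, zz]) (by decide)) le_sup_right)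
    obtain ⟨x, hx, x1⟩ := h.L_reg he.symm (h.line _ _ he.symm) h3 fun g => he (smul_left_cancel z (g.trans ea.symm))
    obtain ⟨y, hy, y1⟩ := h.exists_fix ea h4 hx x1.symm
    exact he (smul_left_cancel y ((one _ y1).trans (h.fix hy).symm))
  have cz : ∀ g : G, g * z = z * g → g • a = a := fun g e => one _ (by rw [← mul_smul, ← e, mul_smul, ea])
  have hzM : z ∈ P e ⊔ P f := by
    obtain ⟨t, ht, k, hk, -, e1⟩ := h.P3 hn hL zz (h.norm_of_swap ef fe) fun c h1 h2 => ha (one c h2 ▸ h1)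
    rwa [e1, by_contra fun k1 => ha ((h.fix_K hn hk k1 a).1 (cz k (by rw [e1, ← mul_assoc, hk t ht, mul_assoc]))),
      mul_one]
  have h1 : Nat.card ↥((P e ⊔ P f) ⊓ stabilizer G a) ≤ 12 ∧ ∀ g ∈ (P e ⊔ P f) ⊓ stabilizer G a, g ^ 12 = 1 := by
    have k : ∀ p, p.Prime → (∀ g ∈ P e ⊔ P f, g • a = a → orderOf g ≠ p) →
        (Nat.card ↥((P e ⊔ P f) ⊓ stabilizer G a)).Coprime p := fun p hp k =>
      ((Nat.Prime.coprime_iff_not_dvd hp).2 fun h2 => by
        haveI := Fact.mk hp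
        obtain ⟨u, hu⟩ := exists_prime_orderOf_dvd_card' p h2
        exact k u u.2.1 u.2.2 ((orderOf_coe u).trans hu)).symm
    have h2 : Nat.card ↥((P e ⊔ P f) ⊓ stabilizer G a) ∣ 12 :=
      (k 5 Nat.prime_five fun g g1 g2 g3 => by
        obtain ⟨c, d, c1, c2, c3, c4, c5, c6⟩ := h.L_five hn hL g1 g3
        exact ha (h.two c4 c6 c5 g2 c1.symm (fun e => ha (e ▸ c2)) ▸ c3)).dvd_of_dvd_mul_right
      ((k 11 (by norm_num) fun g g1 g2 g3 => by
        obtain ⟨c, c1, c2⟩ := h.exists_pt hn g1 (g3 ▸ pow_orderOf_eq_one g)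
        exact ha (h.semi c2 (fun e => by simp [e] at g3) g2 ▸ c1)).dvd_of_dvd_mul_right
        ((card_dvd_of_le inf_le_left).trans hL.card.dvd))
    exact ⟨Nat.le_of_dvd (by norm_num) h2, fun g hg =>
      orderOf_dvd_iff_pow_eq_one.1 ((orderOf_dvd_natCard _ hg).trans h2)⟩
  have h2 : (centralizer ({z} : Set G)).relIndex (P e ⊔ P f) ≤ 55 := by
    rw [← Fgs.ncard_conj_by_subgroup, show 55 = 11 * 5 from rfl, ← h.card e, ← h.L_card2 hn hL, ← Nat.card_prod]
    refine (Set.ncard_le_ncard ?_).trans (Finite.card_range_le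
      fun p : P e × ↥((P e ⊔ P f) ⊓ stabilizer G e ⊓ stabilizer G f) => (p.1 : G) * (z * p.2) * (p.1 : G)⁻¹)
    rintro _ ⟨m, hm, rfl⟩
    have m1 := mul_mem (mul_mem hm hzM) (inv_mem hm)
    obtain ⟨x, hx, x1⟩ := h.L_reg hn hL (h.smul_le' m1 le_sup_left) fun g => ha (by
      rw [mul_smul, mul_smul, smul_eq_iff_eq_inv_smul] at g
      exact one _ g ▸ h.smul_le' (inv_mem hm) le_sup_left)
    have m2 : m * z * m⁻¹ * (m * z * m⁻¹) = 1 := by rw [conj_mul, zz, mul_one, mul_inv_cancel]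
    generalize m * z * m⁻¹ = y at m1 m2 x1 ⊢
    have x2 := mem_sup_left (T := P f) hx
    have x3 := mul_mem hzM (mul_mem (mul_mem (inv_mem x2) m1) x2)
    refine ⟨⟨⟨x, hx⟩, z * (x⁻¹ * y * x), ⟨x3, ?_⟩, ?_⟩, ?_⟩
    · change _ • e = e
      simp only [mul_smul, h.fix hx, ← x1, inv_smul_smul, fe]
    · change _ • f = f
      rw [mul_smul, mul_smul, mul_smul, x1, ← mul_smul y, m2, one_smul, Pts.inv_fix (h.fix hx), ef]
    · simp only [← mul_assoc z, zz, one_mul]; group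
  have h3 : (P e ⊔ P f) ⊓ centralizer {z} = (P e ⊔ P f) ⊓ stabilizer G a := by
    refine eq_of_le_of_card_ge (fun g hg => ⟨hg.1, cz g (W2.mem_Cx.1 hg.2)⟩) ?_
    have := HKS.card_eq_relIndex_mul (centralizer ({z} : Set G)) (P e ⊔ P f)
    rw [hL.card] at this
    nlinarith [h1.1]
  obtain ⟨V, hV, h4⟩ := exists_isSylowIn_ge (p := 2) (isPGroup_zpowers_iff.2 ⟨1, hz⟩) (zpowers_le.2 hzM)
  have h5 : Nat.card V = 2 ^ 2 := by
    rw [hV.card_eq_pow, hL.card, show 660 = 2 ^ 2 * 165 from rfl,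
      Nat.factorization_eq_of_coprime_left (by norm_num) (by simp), Nat.prime_two.factorization_pow]
    simp
  have h6 : ∀ v ∈ V, ∀ w ∈ V, v * w = w * v := fun v hv w hw =>
    congrArg Subtype.val ((IsPGroup.isMulCommutative_of_card_eq_prime_sq h5).is_comm.comm ⟨v, hv⟩ ⟨w, hw⟩)
  have h7 := card_mul_relIndex' h4
  rw [Nat.card_zpowers, hz, h5] at h7
  obtain ⟨n, n1, n2, s, hs, n3⟩ := burnside_simple hL.simple hV (fun g => by simp [g] at h5) fun g => by
    rw [g, hL.card] at h5; omega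
  have z1 := h4 (mem_zpowers z)
  have n4 : n • a = a := one _ (by
    rw [← mul_smul, ← inv_smul_eq_iff, ← mul_smul, ← mul_assoc]
    exact cz _ (h6 _ (conj_mem_of_mem_normalizer' n2 z1) z z1))
  have n5 := W2.mem_Cx.1 (h3.ge ⟨n1, n4⟩).2
  have n6 : n ^ 3 ∈ V := hV.le_of_normalizes (isPGroup_zpowers_of_pow (k := 2) (by
    rw [← pow_mul]; exact h1.2 n ⟨n1, n4⟩)) (zpowers_le.2 (pow_mem n1 3)) (zpowers_le.2 (pow_mem n2 3)) (mem_zpowers _)
  have zp : ∀ c ∈ zpowers z, c * c = 1 ∧ n * c * n⁻¹ = c := by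
    rintro _ ⟨i, rfl⟩
    exact ⟨by simp only [← (Commute.refl z).mul_zpow, zz, one_zpow], W2.mem_Cx'.1 (W2.mem_Cx.2 (Commute.zpow_right n5 i))⟩
  have n7 : n * s * n⁻¹ * s⁻¹ ∈ zpowers z :=
    (mul_mem_iff_of_index_two (H := (zpowers z).subgroupOf V) (show (zpowers z).relIndex V = 2 by omega)
      (a := ⟨_, conj_mem_of_mem_normalizer n2 hs⟩) (b := ⟨_, inv_mem hs⟩)).2 ⟨fun g => by
        have g1 : n * s * n⁻¹ ∈ zpowers z := g
        have : n * (n * s * n⁻¹) * n⁻¹ = n * s * n⁻¹ := (zp _ g1).2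
        exact inv_mem (show s ∈ zpowers z by rwa [mul_left_cancel (mul_right_cancel this)] at g1), fun g => by
      have g1 : s ∈ zpowers z := inv_mem_iff.1 (show s⁻¹ ∈ zpowers z from g)
      change n * s * n⁻¹ ∈ zpowers z
      rwa [(zp _ g1).2]⟩
  have n8 : Commute (n ^ 2) s := W2.mem_Cx.1 (W2.mem_Cx'.2 (by
    obtain ⟨c1, c2⟩ := zp _ n7
    calc n ^ 2 * s * (n ^ 2)⁻¹ = n * (n * s * n⁻¹ * s⁻¹) * n⁻¹ * (n * s * n⁻¹ * s⁻¹) * s := by rw [pow_two]; group
      _ = s := by rw [c2, c1, one_mul]))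
  exact n3 (show Commute n s by simpa [pow_succ] using Commute.mul_left (h6 _ n6 s hs) n8.inv_left)

theorem even : Even (Nat.card Ω) := by
  haveI := h.finite
  obtain ⟨a, b, hab⟩ := h.nontriv
  haveI : Nonempty Ω := ⟨a⟩
  have h0 := Nat.card_pos (α := Ω)
  obtain ⟨S, hS⟩ := exists_isSylowIn 2 (Cp P a)
  suffices k : ∃ b, a ≠ b ∧ S ≤ Kb P a b by
    obtain ⟨b, hab, k⟩ := k
    have h1 := card_mul_relIndex' (fun _ hg => (mem_Kb.1 hg).1 : Kb P a b ≤ Cp P a)
    rw [h.card_Cp hab, mul_comm] at h1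
    have h2 : ¬ 2 ∣ (Kb P a b).relIndex (Cp P a) := fun e => hS.not_dvd (e.trans (relIndex_dvd_of_le_left _ k))
    rw [Nat.eq_of_mul_eq_mul_right Nat.card_pos h1] at h2
    rw [Nat.even_iff]; omega
  by_cases e : S = ⊥
  · exact ⟨b, hab, e ▸ bot_le⟩
  obtain ⟨n, hn, n1, n2⟩ := exists_mem_center_of_normalized hS.pgroup le_rfl le_normalizer e
  obtain ⟨c, c1, c2⟩ := h.no_one n1 (h.fix_of_cent (hS.le hn))
  have hk := h.P1 c1.symm (hS.le hn) c2
  refine ⟨c, c1.symm, fun s hs => ?_⟩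
  obtain ⟨k, hk'⟩ := isPGroup_iff_mem.1 hS.pgroup s hs
  exact h.fix_of_coprime c1.symm (h.line _ _ c1.symm) (hS.le hs) (h.smul_le (h.norm_of_conj c1.symm hk
    (W2.ne_one_of_ord n1) (by rwa [n2 s hs, mul_inv_cancel_right])) le_sup_right) hk' fun f =>
      absurd ((by norm_num : Nat.Prime 11).dvd_of_dvd_pow f) (by norm_num)

end AL

end CfsgLib.P11
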