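import Cfsg.Agent.Lib.P11.JF

/-! Package P12: two-point stabilisers.  See `plans/P11.md`. -/

set_option autoImplicit false
set_option linter.unusedSectionVars false
set_option linter.style.haveILetI false

namespace CfsgLib.P11

open Subgroup Cfsg MulAction CfsgLib.Tech

universe u

variable {G : Type u} [Group G] [Finite G] {Ω : Type u} [MulAction G Ω] {P : Ω → Subgroup G}
  {a b c d : Ω} {g x k : G}

namespace Pts

variable (h : Pts P) (hab : a ≠ b)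
include h hab

theorem J_inner (hJ : IsJ ↥(P a ⊔ P b)) (hg : g ∈ normalizer ((P a ⊔ P b : Subgroup G) : Set G)) :
    ∃ j ∈ P a ⊔ P b, ∃ k ∈ Kb P a b, g = j * k := by
  obtain ⟨j, hj⟩ := hJ.inner ((P a ⊔ P b).normalizerMonoidHom ⟨g, hg⟩)
  refine ⟨j, j.2, (j : G)⁻¹ * g, fun y hy => ?_, by group⟩
  have : g * y * g⁻¹ = j * y * (j : G)⁻¹ := congrArg Subtype.val (hj ⟨y, hy⟩)
  calc y * ((j : G)⁻¹ * g) = (j : G)⁻¹ * (j * y * (j : G)⁻¹) * g := by group
    _ = _ := by rw [← this]; group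

theorem J_cent (hJ : IsJ ↥(P a ⊔ P b)) (hc : P c ≤ P a ⊔ P b) (hg : g ∈ P a ⊔ P b) (h1 : g ∈ Cp P c) :
    g ∈ P c := by
  obtain ⟨x, hx, x1⟩ := h.exists_ne c
  obtain ⟨i, hi⟩ := hJ.cent11 (x := ⟨x, hc hx⟩) (z := ⟨g, hg⟩) ((orderOf_mk _ _).trans (h.orderOf_eq hx x1))
    (Subtype.ext (h1 x hx).symm)
  rw [← show x ^ i = g from congrArg Subtype.val hi]
  exact zpow_mem hx i

theorem P1 (ea : g ∈ Cp P a) (eb : g • b = b) : g ∈ Kb P a b := by
  have hn := h.norm_of_fix (h.fix_of_cent ea) eb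
  rcases h.pair a b hab with hL | hJ
  · intro m hm
    have f := fun c => h.blk_fix hab hL (c := c) ea eb
    have := h.blk_faith hab (mul_mem hm (conj_mem_of_mem_normalizer hn (inv_mem hm))) fun c hc => by
      rw [mul_smul, mul_smul, mul_smul, inv_fix (f c hc), f _ (h.smul_le' (inv_mem hm) hc), smul_inv_smul]
    rw [← mul_inv_eq_one, ← this]; group
  · obtain ⟨j, hj, k, hk, rfl⟩ := h.J_inner hab hJ hn
    have h1 := h.J_cent hab hJ le_sup_left hj ((mul_mem_cancel_right (mem_Kb.1 hk).1).1 ea)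
    rw [mul_smul, h.fix_of_Kb hk le_sup_right] at eb
    rwa [by_contra fun e => hab (h.semi h1 e eb).symm, one_mul]

theorem P1' (ea : g • a = a) (eb : g • b = b) : lam P a g = 1 ↔ lam P b g = 1 := by
  rw [h.lam_eq_one_iff ea, h.lam_eq_one_iff eb]
  exact ⟨fun e => (mem_Kb.1 (h.P1 hab e eb)).2, fun e => (mem_Kb.1 (h.P1 hab.symm e ea)).2⟩

theorem p12_in (hL : IsL ↥(P a ⊔ P b)) (hg : g ∈ P a ⊔ P b) (ea : g • a = a) (eb : g • b = b) :
    lam P a g * lam P b g = 1 := by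
  haveI : Fact (Nat.Prime 5) := ⟨by norm_num⟩
  obtain ⟨y, hy, ya, yb, y5, e⟩ := h.L_y hab hL (i := 4) (by decide)
  have y1 : y ≠ 1 := fun f => by
    rw [f, h.lam_one] at e
    exact absurd e (by decide)
  have h1 := h.L_card2 hab hL
  have h2 : (P a ⊔ P b) ⊓ stabilizer G a ⊓ stabilizer G b ≤ P a ⊔ P b := inf_le_left.trans inf_le_left
  have h3 : zpowers y = (P a ⊔ P b) ⊓ stabilizer G a ⊓ stabilizer G b :=
    eq_of_le_of_card_ge (zpowers_le.2 ⟨⟨hy, ya⟩, yb⟩) (by rw [h1, Nat.card_zpowers, orderOf_eq_prime y5 y1])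
  have h4 : ∀ z ∈ P a ⊔ P b, z • a = a → z • b = b → ∃ i < 5, y ^ i = z := fun z z1 z2 z3 => by
    obtain ⟨i, rfl⟩ := mem_powers_iff_mem_zpowers.2 (h3.ge ⟨⟨z1, z2⟩, z3⟩)
    exact ⟨i % 5, Nat.mod_lt _ (by norm_num), (pow_eq_pow_mod i y5).symm⟩
  suffices k : lam P a y * lam P b y = 1 by
    obtain ⟨i, -, rfl⟩ := h4 g hg ea eb
    rw [h.lam_pow ya, h.lam_pow yb, ← mul_pow, k, one_pow]
  obtain ⟨t, ht, tb, ta⟩ := h.L_two hab hL le_sup_right le_sup_left hab.symm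
  have c1 : ∀ c d : Ω, t • c = d → y • c = c → (t * y * t⁻¹) • d = d := fun c d e1 e2 => by
    rw [← e1, mul_smul, mul_smul, inv_smul_smul, e2]
  obtain ⟨i, i1, i2⟩ := h4 _ (mul_mem (mul_mem ht hy) (inv_mem ht)) (c1 b a tb yb) (c1 a b ta ya)
  have a1 := h.lam_conj t yb
  have a2 := h.lam_conj' ya (show (t * t) • a = a by rw [mul_smul, ta, tb])
  rw [tb, ← i2, h.lam_pow ya, e] at a1
  rw [show t * t * y * (t * t)⁻¹ = t * (t * y * t⁻¹) * t⁻¹ by group, ← i2, ← conj_pow, ← i2, h.lam_pow (pow_fix ya i),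
    h.lam_pow ya, e] at a2
  rw [e, ← a1]
  by_contra a3
  obtain rfl : i = 1 := by
    revert a2 a3
    interval_cases i <;> decide
  have h5 := card_mul_relIndex' h2
  rw [h1, hL.card] at h5
  obtain ⟨n, hn, n1, s, hs, n2⟩ := burnside_simple hL.simple ⟨h2, IsPGroup.of_card (p := 5) (n := 1) h1, by omega⟩
    (fun f => y1 (f.le ⟨⟨hy, ya⟩, yb⟩)) fun f => hab (ta.symm.trans (f.ge ht).1.2).symm
  have f : ∀ c, P c ≤ P a ⊔ P b → (n⁻¹ * y * n) • c = c → n • c = a ∨ n • c = b := fun c c2 c3 =>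
    (eq_or_ne _ a).imp_right fun c4 => by
      obtain ⟨x, hx, x1⟩ := h.L_reg hab hL (h.smul_le' hn c2) c4
      rw [← x1, h.fix_two hab ya yb (by rw [e]; decide) hx (by
        rw [x1, ← mul_smul, ← inv_smul_eq_iff, ← mul_smul, ← mul_assoc, c3]), one_smul]
  have n3 := conj_mem_of_mem_normalizer' n1 (x := y) ⟨⟨hy, ya⟩, yb⟩
  have ty : Commute y t := (mul_inv_eq_iff_eq_mul.1 (i2.symm.trans (pow_one y))).symm
  have n4 : Commute y n := by
    have n5 : n • a ≠ n • b := fun f => hab (smul_left_cancel n f)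
    rcases f a le_sup_left n3.1.2 with f1 | f1 <;> rcases f b le_sup_right n3.2 with f2 | f2
    · exact (n5 (f1.trans f2.symm)).elim
    · obtain ⟨j, -, rfl⟩ := h4 n hn f1 f2
      exact (Commute.refl y).pow_right j
    · obtain ⟨j, -, j1⟩ := h4 (n * t) (mul_mem hn ht) (by rw [mul_smul, ta, f2]) (by rw [mul_smul, tb, f1])
      rw [eq_mul_inv_of_mul_eq j1.symm]
      exact ((Commute.refl y).pow_right j).mul_right ty.inv_right
    · exact (n5 (f1.trans f2.symm)).elim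
  obtain ⟨j, -, rfl⟩ := h4 s hs.1.1 hs.1.2 hs.2
  exact n2 (n4.pow_left j).symm

theorem P2 (hL : IsL ↥(P a ⊔ P b)) (ea : g • a = a) (eb : g • b = b) : lam P a g * lam P b g = 1 := by
  have a1 := h.lam_ten ea
  obtain ⟨y, hy, ya, yb, -, e⟩ := h.L_y hab hL (i := lam P a g ^ 6) (by
    rw [← pow_mul, show 6 * 5 = 10 * 3 from rfl, pow_mul, a1, one_pow])
  have a2 := h.p12_in hab hL hy ya yb
  have a3 := h.cent_of_lam_eq (pow_fix eb 6) yb
  have a4 := (h.P1' hab (mul_fix (pow_fix ea 6) (inv_fix ya)) (mul_fix (pow_fix eb 6) (inv_fix yb))).1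
    (h.lam_cent (h.cent_of_lam_eq (pow_fix ea 6) ya (by rw [h.lam_pow ea, e])))
  have a5 := h.lam_inv yb
  have a6 := h.P1' hab (pow_fix ea 5) (pow_fix eb 5)
  rw [h.lam_mul (pow_fix eb 6) (inv_fix yb), h.lam_pow eb] at a4
  rw [h.lam_pow ea, h.lam_pow eb] at a6
  have k : ∀ i j : ZMod 11, i ^ 10 = 1 → j ^ 10 = 1 → i ^ 6 * j ^ 6 = 1 → (i ^ 5 = 1 ↔ j ^ 5 = 1) → i * j = 1 := by
    decide
  refine k _ _ a1 (h.lam_ten eb) ?_ a6
  rw [← a2, e, ← one_mul (lam P b y), ← a4, mul_assoc, a5, mul_one]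

/-- the sign of the action on the twelve points of a line -/
theorem p12_sign (hL : IsL ↥(P a ⊔ P b)) : ∃ σ : normalizer ((P a ⊔ P b : Subgroup G) : Set G) →* ℤˣ,
    (∀ g (hg : g ∈ P a ⊔ P b), σ ⟨g, le_normalizer hg⟩ = 1) ∧
    ∀ g : normalizer ((P a ⊔ P b : Subgroup G) : Set G), (∀ c, P c ≤ P a ⊔ P b → (g.1 * g.1) • c = c) →
      σ g = (-1) ^ ((12 - {c | P c ≤ P a ⊔ P b ∧ g.1 • c = c}.ncard) / 2) := by
  classical
  haveI := h.finite
  let S : SubMulAction (normalizer ((P a ⊔ P b : Subgroup G) : Set G)) Ω :=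
    ⟨{c | P c ≤ P a ⊔ P b}, fun g _ hc => h.smul_le g.2 hc⟩
  haveI : Fintype S := Fintype.ofFinite _
  refine ⟨Equiv.Perm.sign.comp (toPermHom _ S), fun g hg => ?_, fun g hg => ?_⟩
  · haveI := hL.simple
    let τ := (Equiv.Perm.sign.comp (toPermHom _ S)).comp (inclusion (le_normalizer (H := P a ⊔ P b)))
    rcases τ.normal_ker.eq_bot_or_eq_top with e | e
    · have := Nat.card_le_card_of_injective τ (τ.ker_eq_bot_iff.1 e)
      simp [hL.card] at this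
    · exact e.ge (mem_top ⟨g, hg⟩)
  · rw [MonoidHom.comp_apply, Equiv.Perm.sign_of_pow_two_eq_one (Equiv.ext fun c => Subtype.ext (by
      rw [← map_pow, pow_two]; exact hg c c.2)), ← Nat.card_eq_fintype_card, ← Nat.card_eq_fintype_card,
      Nat.card_coe_set_eq, ← Set.ncard_image_of_injective _ Subtype.val_injective,
      show Nat.card S = 12 from h.L_ncard hab hL]
    congr 4
    ext c
    exact ⟨by rintro ⟨c, hc, rfl⟩; exact ⟨c.2, congrArg Subtype.val hc⟩, fun hc => ⟨⟨c, hc.1⟩, Subtype.ext hc.2, rfl⟩⟩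

theorem P3 (hL : IsL ↥(P a ⊔ P b)) {s : G} (hs : s * s = 1)
    (hn : s ∈ normalizer ((P a ⊔ P b : Subgroup G) : Set G)) (hf : ∀ c, P c ≤ P a ⊔ P b → s • c ≠ c) :
    ∃ t ∈ P a ⊔ P b, ∃ k ∈ Kb P a b, k * k = 1 ∧ s = t * k := by
  obtain ⟨σ, σ1, σ2⟩ := h.p12_sign hab hL
  have hsa : s • a ≠ s • b := fun e => hab (smul_left_cancel s e)
  obtain ⟨m, hm, ma, mb⟩ := h.L_two hab hL (h.smul_le hn le_sup_left) (h.smul_le hn le_sup_right) hsa
  rw [← mul_smul] at ma mb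
  have a1 := h.lam_ten ma
  obtain ⟨y, hy, ya, yb, -, e⟩ := h.L_y hab hL (i := lam P a (m * s) ^ 4) (by
    rw [← pow_mul, show 4 * 5 = 10 * 2 from rfl, pow_mul, a1, one_pow])
  have ga := mul_fix ya ma
  have gb := mul_fix yb mb
  have a2 := h.lam_mul ya ma
  rw [e, ← pow_succ] at a2
  rw [← mul_assoc] at ga gb a2
  have hym := mul_mem hy hm
  generalize y * m = t at ga gb a2 hym
  by_cases a3 : lam P a (t * s) = 1
  · have hk := h.P1 hab ((h.lam_eq_one_iff ga).1 a3) gb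
    refine ⟨t⁻¹, inv_mem hym, t * s, hk, h.eq_one_of_Kb hab ?_ (mul_mem hk hk), by group⟩
    rw [← mul_assoc, ← hk t hym, mul_assoc, mul_assoc, hs, mul_one]
    exact mul_mem hym hym
  have hk := h.P1 hab ((h.lam_eq_one_iff (mul_fix ga ga)).1 (by
    rw [h.lam_mul ga ga, a2, ← pow_add, a1])) (mul_fix gb gb)
  have b1 := σ2 ⟨s, hn⟩ fun c _ => by rw [hs, one_smul]
  have b2 := σ2 (⟨t, le_normalizer hym⟩ * ⟨s, hn⟩) fun c hc => h.fix_of_Kb hk hc
  have b3 : {c | P c ≤ P a ⊔ P b ∧ (t * s) • c = c} = {a, b} := by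
    ext c
    refine ⟨fun hc => (eq_or_ne c a).imp_right fun e => ?_, ?_⟩
    · obtain ⟨x, hx, rfl⟩ := h.L_reg hab hL hc.1 e
      rw [h.fix_two hab ga gb a3 hx hc.2, one_smul]; rfl
    · rintro (rfl | rfl)
      exacts [⟨le_sup_left, ga⟩, ⟨le_sup_right, gb⟩]
  rw [show {c | P c ≤ P a ⊔ P b ∧ s • c = c} = ∅ from Set.eq_empty_of_forall_notMem fun c hc => hf c hc.1 hc.2,
    Set.ncard_empty] at b1
  rw [map_mul, σ1 t hym, b1, Subgroup.coe_mul, b3, Set.ncard_pair hab] at b2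
  exact absurd b2 (by decide)

/-- an element of `C(P a)` of order prime to `11` which preserves a line through `a` fixes it -/
theorem fix_of_coprime (hL : IsL ↥(P a ⊔ P b)) (ea : g ∈ Cp P a) (eb : P (g • b) ≤ P a ⊔ P b) {n : ℕ}
    (hn : g ^ n = 1) (h11 : ¬ 11 ∣ n) : g ∈ Kb P a b := by
  obtain ⟨x, hx, e⟩ := h.L_reg hab hL eb fun f => hab (smul_left_cancel g (f.trans (h.fix_of_cent ea).symm)).symm
  have hk : x⁻¹ * g ∈ Kb P a b := h.P1 hab (mul_mem (inv_mem fun _ hy => h.comm hy hx) ea)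
    (by rw [mul_smul, ← e, inv_smul_smul])
  have c : Commute x⁻¹ g := Commute.inv_left (ea x hx)
  have h1 := pow_mem hk n
  rw [c.mul_pow, hn, mul_one] at h1
  have h2 := h.eq_one_of_Kb hab (pow_mem (inv_mem (mem_sup_left hx)) n) h1
  rw [inv_pow, inv_eq_one, ← orderOf_dvd_iff_pow_eq_one] at h2
  rwa [by_contra fun f => h11 (h.orderOf_eq hx f ▸ h2), inv_one, one_mul] at hk

end Pts

end CfsgLib.P11
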